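import Cfsg.Agent.Lib.PLocal.GTAbs
import Cfsg.Agent.Lib.PLocal.ZJe

/-! The abstract Glauberman–Thompson induction, for normalizers of functorial subgroups. -/

set_option autoImplicit false
set_option linter.unusedSectionVars false
set_option linter.style.haveILetI false

namespace Cfsg.Agent.Lib.PLocal

open Subgroup Cfsg
open scoped commutatorElement
open Cfsg.Agent.Lib.Transfer Cfsg.Agent.Lib.LocalEven2

universe u

variable {p : ℕ} [Fact p.Prime]

/-- A functor on `p`-subgroups. -/
structure GTFun (p : ℕ) [Fact p.Prime] (W : ∀ (G : Type u) [Group G], Subgroup G → Subgroup G) : Prop where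
  le : ∀ (G : Type u) [Group G] (S : Subgroup G), W G S ≤ S
  ne_bot : ∀ (G : Type u) [Group G] [Finite G] (S : Subgroup G), IsPGroup p S → S ≠ ⊥ → W G S ≠ ⊥
  map : ∀ (G G' : Type u) [Group G] [Group G'] [Finite G] [Finite G'] (f : G →* G') (S : Subgroup G),
    IsPGroup p S → (∀ x ∈ S, f x = 1 → x = 1) → (W G S).map f = W G' (S.map f)

namespace GTFun

variable {W : ∀ (G : Type u) [Group G], Subgroup G → Subgroup G} (hW : GTFun p W)
include hW

theorem normalizer_le (G : Type u) [Group G] [Finite G] (S : Subgroup G) (hS : IsPGroup p S) :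
    normalizer (S : Set G) ≤ normalizer ((W G S : Subgroup G) : Set G) := by
  intro g hg
  rw [← map_conj_eq_iff] at hg ⊢
  have h1 := hW.map G G (MulAut.conj g).toMonoidHom S hS
    (fun x _ hx => (MulAut.conj g).injective (by simpa using hx))
  rw [h1, hg]

theorem npc_sub (G : Type u) [Group G] [Finite G] (H : Subgroup G) (T : Subgroup H) (hT : IsPGroup p T)
    (h : HasNormalPComplement p (normalizer ((W G (T.map H.subtype) : Subgroup G) : Set G))) :
    HasNormalPComplement p (normalizer ((W H T : Subgroup H) : Set H)) := by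
  apply npc_normalizer_subgroupOf
  rw [hW.map H G H.subtype T hT (fun x _ hx => Subtype.ext hx)]
  exact h

theorem npc_quot (G G' : Type u) [Group G] [Finite G] [Group G'] [Finite G'] (f : G →* G')
    (hf : Function.Surjective f) (hker : (Nat.card f.ker).Coprime p) (S : Subgroup G) (hS : IsPGroup p S)
    (h : HasNormalPComplement p (normalizer ((W G S : Subgroup G) : Set G))) :
    HasNormalPComplement p (normalizer ((W G' (S.map f) : Subgroup G') : Set G')) := by
  have hinj : ∀ x ∈ S, f x = 1 → x = 1 := by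
    intro x hx h1
    have := inj_of_ker_coprime f hS hker
    have h2 : (f.comp S.subtype) ⟨x, hx⟩ = (f.comp S.subtype) 1 := by simpa using h1
    exact congrArg Subtype.val (this h2)
  rw [← hW.map G G' f S hS hinj]
  exact npc_normalizer_map_surj f hf hker (hS.to_le (hW.le G S)) h

theorem npc_overq (G : Type u) [Group G] [Finite G] (P : Sylow p G) (Q : Subgroup G) [hQ : Q.Normal] (_hQP : Q ≤ P)
    (hIH : ∀ M : Subgroup G, (P : Subgroup G) ≤ M → M ≠ ⊤ → HasNormalPComplement p M)
    (hO : ∀ N : Subgroup (G ⧸ Q), N.Normal → IsPGroup p N → N = ⊥)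
    (hne : (P : Subgroup G).map (QuotientGroup.mk' Q) ≠ ⊥) :
    HasNormalPComplement p (normalizer ((W (G ⧸ Q) ((P : Subgroup G).map (QuotientGroup.mk' Q)) : Subgroup (G ⧸ Q)) : Set (G ⧸ Q))) := by
  set f : G →* G ⧸ Q := QuotientGroup.mk' Q with hf'
  have hf : Function.Surjective f := QuotientGroup.mk'_surjective Q
  have hPp : IsPGroup p ((P : Subgroup G).map f) := P.isPGroup'.map f
  obtain ⟨T, hTdef⟩ : ∃ T : Subgroup (G ⧸ Q), T = W (G ⧸ Q) ((P : Subgroup G).map f) := ⟨_, rfl⟩
  rw [← hTdef]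
  have hTne : T ≠ ⊥ := hTdef ▸ hW.ne_bot _ _ hPp hne
  have hTp : IsPGroup p T := hPp.to_le (hTdef ▸ hW.le _ _)
  have hPT : (P : Subgroup G).map f ≤ normalizer (T : Set (G ⧸ Q)) := by
    rw [hTdef]
    exact Subgroup.le_normalizer.trans (hW.normalizer_le _ _ hPp)
  obtain ⟨M, hMdef⟩ : ∃ M : Subgroup G, M = (normalizer (T : Set (G ⧸ Q))).comap f := ⟨_, rfl⟩
  have hPM : (P : Subgroup G) ≤ M := fun t ht => by
    rw [hMdef]; exact hPT ⟨t, ht, rfl⟩
  have hMne : M ≠ ⊤ := by
    intro hM
    have h1 : normalizer (T : Set (G ⧸ Q)) = ⊤ := by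
      rw [eq_top_iff]
      intro x _
      obtain ⟨g, rfl⟩ := hf x
      have : g ∈ M := hM ▸ mem_top g
      rw [hMdef] at this
      exact this
    exact hTne (hO T (Subgroup.normalizer_eq_top_iff.1 h1) hTp)
  have hMnpc := hIH M hPM hMne
  refine npc_of_surjective (MonoidHom.codRestrict (f.comp M.subtype) (normalizer (T : Set _)) ?_) ?_ hMnpc
  · rintro ⟨x, hx⟩
    rw [hMdef] at hx
    exact hx
  · rintro ⟨y, hy⟩
    obtain ⟨g, rfl⟩ := hf y
    exact ⟨⟨g, by rw [hMdef]; exact hy⟩, rfl⟩

theorem npc_loc (G : Type u) [Group G] [Finite G] (P : Sylow p G) (S : Subgroup G) (hSP : S ≤ P) (hne : S ≠ P)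
    (hS : S ≠ ⊥)
    (h : ∀ V : Subgroup G, V ≤ P → V ≠ ⊥ → Nat.card S < Nat.card (normalizer (V : Set G) ⊓ (P : Subgroup G) : Subgroup G) →
      HasNormalPComplement p (normalizer (V : Set G))) :
    HasNormalPComplement p (normalizer ((W G S : Subgroup G) : Set G)) := by
  have hSp : IsPGroup p S := P.isPGroup'.to_le hSP
  refine h _ ((hW.le G S).trans hSP) (hW.ne_bot G S hSp hS) ?_
  obtain ⟨t, htP, htN, htS⟩ := exists_mem_normalizer_of_ne (P : Subgroup G) S P.isPGroup' hSP hne
  have hle := hW.normalizer_le G S hSp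
  have h6 : S < normalizer ((W G S : Subgroup G) : Set G) ⊓ (P : Subgroup G) := by
    refine lt_of_le_of_ne (le_inf (Subgroup.le_normalizer.trans hle) hSP) ?_
    intro he
    apply htS
    rw [he]
    exact ⟨hle htN, htP⟩
  exact Cfsg.Agent.Lib.OddLocal.card_lt_of_lt h6

theorem npc_normal (G : Type u) [Group G] [Finite G] (P : Sylow p G)
    (h : HasNormalPComplement p (normalizer ((W G P : Subgroup G) : Set G))) (hn : (P : Subgroup G).Normal) :
    HasNormalPComplement p G := by
  refine npc_of_top ?_ h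
  rw [eq_top_iff]
  intro g _
  apply hW.normalizer_le G _ P.isPGroup'
  rw [Subgroup.normalizer_eq_top_iff.2 hn]
  exact mem_top g

/-- The abstract hypotheses, for a functor. -/
theorem gtHyp (hfin : ∀ (G : Type u) [Group G] [Finite G] (P : Sylow p G),
    centralizer ((pCore p G : Subgroup G) : Set G) ≤ pCore p G →
    (∀ (B : Subgroup G) [B.Normal], IsPGroup p B → IsPStableOn p B) →
    (∀ M : Subgroup G, (P : Subgroup G) ≤ M → M ≠ ⊤ → HasNormalPComplement p M) →
    (W G P).Normal) :
    GTHyp p (fun G _ _ S => HasNormalPComplement p (normalizer ((W G S : Subgroup G) : Set G))) where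
  sub := fun G _ _ H T hT h => hW.npc_sub G H T hT h
  quot := fun G G' _ _ _ _ f hf hker S hS h => hW.npc_quot G G' f hf hker S hS h
  overq := fun G _ _ P Q _ hQP hIH hO hne => hW.npc_overq G P Q hQP hIH hO hne
  loc := fun G _ _ P S h1 h2 h3 h4 => hW.npc_loc G P S h1 h2 h3 h4
  normal := fun G _ _ P h hn => hW.npc_normal G P h hn
  final := fun G _ _ P h hc hst hIH _ _ =>
    npc_of_top (Subgroup.normalizer_eq_top_iff.2 (hfin G P hc hst hIH)) h

end GTFun

section ZJ

variable {G H : Type*} [Group G] [Group H] [Finite G] [Finite H]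

theorem centerThompsonOf_map (f : G →* H) {T : Subgroup G} (hf : ∀ x ∈ T, f x = 1 → x = 1) :
    (centerThompsonOf p T).map f = centerThompsonOf p (T.map f) := by
  have hJT : thompsonSubgroupOf p T ≤ T := map_subtype_le _
  apply le_antisymm
  · rintro _ ⟨x, ⟨hx1, hx2⟩, rfl⟩
    refine ⟨?_, ?_⟩
    · rw [← thompsonOf_map f hf]
      exact ⟨x, hx1, rfl⟩
    · show f x ∈ centralizer ((thompsonSubgroupOf p (T.map f) : Subgroup H) : Set H)
      rw [← thompsonOf_map f hf, mem_centralizer_iff]
      rintro _ ⟨j, hj, rfl⟩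
      rw [← map_mul, ← map_mul, (mem_centralizer_iff.mp hx2) j hj]
  · rintro y ⟨hy1, hy2⟩
    have hy1' : y ∈ thompsonSubgroupOf p (T.map f) := hy1
    have hy2' : y ∈ centralizer ((thompsonSubgroupOf p (T.map f) : Subgroup H) : Set H) := hy2
    rw [← thompsonOf_map f hf] at hy1' hy2'
    obtain ⟨x, hx, rfl⟩ := hy1'
    refine ⟨x, ⟨hx, mem_centralizer_iff.mpr fun j hj => ?_⟩, rfl⟩
    have h1 := (mem_centralizer_iff.mp hy2') (f j) ⟨j, hj, rfl⟩
    exact eq_of_map_eq f hf (T.mul_mem (hJT hj) (hJT hx)) (T.mul_mem (hJT hx) (hJT hj))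
      (by rw [map_mul, map_mul]; exact h1)

theorem centerThompsonOf_ne_bot {T : Subgroup G} (hT : IsPGroup p T) (hne : T ≠ ⊥) :
    centerThompsonOf p T ≠ ⊥ := by
  classical
  have hJ0 : thompsonSubgroup p ↥T ≠ ⊥ := by
    refine (thompson_characteristic (p := p) (G := ↥T)).2 ?_
    obtain ⟨k, hk⟩ := IsPGroup.iff_card.mp hT
    have hk0 : k ≠ 0 := by
      rintro rfl
      rw [pow_zero] at hk
      exact hne (Subgroup.eq_bot_of_card_eq _ hk)
    rw [hk]
    exact dvd_pow_self p hk0
  have hJ : thompsonSubgroupOf p T ≠ ⊥ := by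
    intro h
    rw [thompsonSubgroupOf, Subgroup.map_eq_bot_iff_of_injective _ T.subtype_injective] at h
    exact hJ0 h
  have hJT : thompsonSubgroupOf p T ≤ T := map_subtype_le _
  have hJp : IsPGroup p (thompsonSubgroupOf p T) := hT.to_le hJT
  haveI : Nontrivial (thompsonSubgroupOf p T) := (Subgroup.nontrivial_iff_ne_bot _).2 hJ
  haveI : Nontrivial (center (thompsonSubgroupOf p T)) := hJp.center_nontrivial
  obtain ⟨z, hz⟩ := exists_ne (1 : center (thompsonSubgroupOf p T))
  intro hb
  have hzm : ((z : thompsonSubgroupOf p T) : G) ∈ centerThompsonOf p T := by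
    refine ⟨(z : thompsonSubgroupOf p T).2, mem_centralizer_iff.mpr fun j hj => ?_⟩
    have := (Subgroup.mem_center_iff.mp z.2) ⟨j, hj⟩
    exact congrArg Subtype.val this
  rw [hb, Subgroup.mem_bot] at hzm
  exact hz (Subtype.ext (Subtype.ext hzm))

end ZJ

/-- `Z(J(S))` is a functor. -/
theorem centerThompson_gtFun : GTFun.{u} p (fun G _ S => centerThompsonOf p S) where
  le := fun _ _ _ => inf_le_left.trans (map_subtype_le _)
  ne_bot := fun _ _ _ _ hS hne => centerThompsonOf_ne_bot hS hne
  map := fun _ _ _ _ _ _ f _ _ hf => centerThompsonOf_map f hf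

/-- The Glauberman–Thompson theorem with `Z(J(P))`, `J(P)` generated by the elementary abelian subgroups of
largest order. -/
theorem hasNormalPComplement_of_centerThompsonOf {G : Type u} [Group G] [Finite G] (hp : p ≠ 2) (P : Sylow p G)
    (hN : HasNormalPComplement p (normalizer ((centerThompsonOf p (P : Subgroup G) : Subgroup G) : Set G))) :
    HasNormalPComplement p G := by
  have hH := (centerThompson_gtFun (p := p)).gtHyp
    (fun G _ _ P hc hst _ => centerThompsonOf_normal hp hc hst P)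
  exact gt_abs hp hH _ G P hN rfl

end Cfsg.Agent.Lib.PLocal
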