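import Mathlib
import Cfsg.Prelude.Def_PLocal
import Cfsg.Agent.Lib.Transfer.Rank
import Cfsg.Agent.Lib.Transfer.ClassThree

/-!
# Basic `p`-local lemmas: normal elementary abelian subgroups of order `p²`, `Ω₁`
-/

set_option autoImplicit false

namespace Cfsg.Agent.Lib.PLocal

open Subgroup Cfsg
open scoped commutatorElement

universe u

variable {R : Type u} [Group R] [Finite R] {p : ℕ} [hpp : Fact p.Prime]

theorem omega_normal (S : Subgroup R) [hS : S.Normal] : (omegaOne p S).Normal := by
  constructor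
  intro n hn g
  induction hn using Subgroup.closure_induction with
  | mem x hx =>
    apply Subgroup.subset_closure
    refine ⟨hS.conj_mem x hx.1 g, ?_⟩
    rw [conj_pow, hx.2]
    simp
  | one => simp [one_mem]
  | mul x y _ _ hx hy =>
    have : g * (x * y) * g⁻¹ = (g * x * g⁻¹) * (g * y * g⁻¹) := by group
    rw [this]
    exact mul_mem hx hy
  | inv x _ hx =>
    have : g * x⁻¹ * g⁻¹ = (g * x * g⁻¹)⁻¹ := by group
    rw [this]
    exact inv_mem hx

theorem omega_le (S : Subgroup R) : omegaOne p S ≤ S := by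
  unfold omegaOne
  rw [closure_le]
  exact fun x hx => hx.1

/-- If `Ω₁(S)` has exponent `p` and `S` is not cyclic, `S` contains a normal elementary abelian subgroup of order `p²`. -/
theorem exists_of_exponent (hp2 : p ≠ 2) (hR : IsPGroup p R) (S : Subgroup R) [hS : S.Normal] (hnc : ¬ IsCyclic S)
    (hexp : ∀ g ∈ omegaOne p S, g ^ p = 1) :
    ∃ A : Subgroup R, A ≤ S ∧ A.Normal ∧ IsElementaryAbelian p A ∧ Nat.card A = p ^ 2 := by
  have hp : p.Prime := Fact.out
  haveI := omega_normal (p := p) S
  set F := omegaOne p S with hF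
  have hFp : IsPGroup p F := hR.to_subgroup F
  obtain ⟨a, ha⟩ := IsPGroup.iff_card.1 hFp
  have ha2 : 2 ≤ a := by
    by_contra hlt
    have hle : a ≤ 1 := by omega
    apply hnc
    have hSp : IsPGroup p S := hR.to_subgroup S
    refine Cfsg.Agent.Lib.Transfer.isCyclic_of_unique hp2 hSp (F.subgroupOf S) ?_ ?_
    · rintro ⟨y, hy⟩ hy2
      rw [mem_subgroupOf]
      apply Subgroup.subset_closure
      exact ⟨hy, by simpa using congrArg Subtype.val hy2⟩
    · have h1 : Nat.card (F.subgroupOf S) = Nat.card F :=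
        Nat.card_congr (subgroupOfEquivOfLe (omega_le S)).toEquiv
      rw [h1, ha]
      calc p ^ a ≤ p ^ 1 := Nat.pow_le_pow_right hp.pos hle
        _ = p := pow_one p
  obtain ⟨B, hBn, hBF, hBc⟩ := Cfsg.Agent.Lib.Transfer.exists_normal_le_of_card hR a F ha 2 ha2
  refine ⟨B, hBF.trans (omega_le S), hBn, ⟨?_, fun x hx => hexp x (hBF hx)⟩, hBc⟩
  exact IsPGroup.isMulCommutative_of_card_eq_prime_sq hBc

/-- For odd `p`, a non-cyclic normal subgroup of a `p`-group contains a normal elementary abelian subgroup of order `p²`. -/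
theorem exists_normal_elementary_in (hp2 : p ≠ 2) : ∀ (n : ℕ) (R : Type u) [Group R] [Finite R], Nat.card R = n →
    IsPGroup p R → ∀ (S : Subgroup R) [S.Normal], ¬ IsCyclic S →
    ∃ A : Subgroup R, A ≤ S ∧ A.Normal ∧ IsElementaryAbelian p A ∧ Nat.card A = p ^ 2 := by
  intro n
  induction n using Nat.strong_induction_on with
  | _ n ih =>
  intro R _ _ hn hR S hS hnc
  have hp : p.Prime := Fact.out
  have hSne : S ≠ ⊥ := by
    rintro rfl
    exact hnc inferInstance
  obtain ⟨z, hz, hz1, hzc, hzp⟩ := Cfsg.Agent.Lib.Transfer.exists_central_of_normal hR hSne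
  set A0 : Subgroup R := zpowers z with hA0
  have hA0c : A0 ≤ center R := by
    rw [hA0, zpowers_le, Subgroup.mem_center_iff]
    exact fun g => hzc g
  haveI hA0n : A0.Normal := by
    constructor
    intro x hx g
    have : x ∈ center R := hA0c hx
    rw [Subgroup.mem_center_iff] at this
    rw [this g]
    simpa using hx
  have hA0S : A0 ≤ S := by rw [hA0, zpowers_le]; exact hz
  have hA0card : Nat.card A0 = p := by
    rw [hA0, Nat.card_zpowers]
    exact orderOf_eq_prime hzp hz1
  let π : R →* R ⧸ A0 := QuotientGroup.mk' A0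
  have hπs : Function.Surjective π := QuotientGroup.mk'_surjective A0
  have hker : π.ker = A0 := QuotientGroup.ker_mk' A0
  let Sb : Subgroup (R ⧸ A0) := S.map π
  haveI hSbn : Sb.Normal := hS.map π hπs
  have hcardQ : Nat.card (R ⧸ A0) * p = n := by
    have := Subgroup.card_eq_card_quotient_mul_card_subgroup A0
    rw [hA0card, hn] at this
    exact this.symm
  have hQlt : Nat.card (R ⧸ A0) < n := by
    have hpos : 0 < Nat.card (R ⧸ A0) := Nat.card_pos
    have h2 := hp.two_le
    nlinarith
  have hQp : IsPGroup p (R ⧸ A0) := hR.to_quotient A0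
  by_cases hSbc : IsCyclic Sb
  · -- `S` is abelian
    have hScomm : ∀ x ∈ S, ∀ y ∈ S, x * y = y * x := by
      let f : ↥S →* ↥Sb := π.subgroupMap S
      have hfk : f.ker ≤ center S := by
        intro x hx
        rw [MonoidHom.mem_ker] at hx
        have h1 : π (x : R) = 1 := congrArg Subtype.val hx
        have h2 : (x : R) ∈ A0 := by rw [← hker]; exact h1
        have h3 := hA0c h2
        rw [Subgroup.mem_center_iff] at h3 ⊢
        intro g
        exact Subtype.ext (h3 g)
      intro x hx y hy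
      have := (f.isMulCommutative_of_isCyclic_of_ker_le_center hfk).is_comm.comm (⟨x, hx⟩ : S) ⟨y, hy⟩
      exact congrArg Subtype.val this
    apply exists_of_exponent hp2 hR S hnc
    intro g hg
    have key : g ∈ S ∧ g ^ p = 1 := by
      induction hg using Subgroup.closure_induction with
      | mem x hx => exact ⟨hx.1, hx.2⟩
      | one => exact ⟨one_mem _, one_pow _⟩
      | mul x y _ _ hx hy =>
        refine ⟨mul_mem hx.1 hy.1, ?_⟩
        have hc : Commute x y := hScomm x hx.1 y hy.1
        rw [hc.mul_pow, hx.2, hy.2, one_mul]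
      | inv x _ hx => exact ⟨inv_mem hx.1, by rw [inv_pow, hx.2, inv_one]⟩
    exact key.2
  · obtain ⟨Ab, hAbS, hAbn, hAbe, hAbc⟩ := ih _ hQlt (R ⧸ A0) rfl hQp Sb hSbc
    let E : Subgroup R := Ab.comap π
    haveI hEn : E.Normal := hAbn.comap π
    have hES : E ≤ S := by
      intro x hx
      obtain ⟨s, hs, hsx⟩ := hAbS hx
      have h1 : s⁻¹ * x ∈ π.ker := by
        rw [MonoidHom.mem_ker, map_mul, map_inv, hsx, inv_mul_cancel]
      rw [hker] at h1
      have h2 := mul_mem hs (hA0S h1)
      simpa using h2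
    have hAbnc : ¬ IsCyclic Ab := by
      intro hc
      obtain ⟨g, hg⟩ := isCyclic_iff_exists_orderOf_eq_natCard.1 hc
      rw [hAbc] at hg
      have h1 : (g : R ⧸ A0) ^ p = 1 := hAbe.2 g g.2
      have h2 : orderOf g ∣ p := orderOf_dvd_of_pow_eq_one (Subtype.ext h1)
      rw [hg] at h2
      have h3 := Nat.le_of_dvd hp.pos h2
      have h4 : p < p ^ 2 := by nlinarith [hp.two_le]
      omega
    have hEnc : ¬ IsCyclic E := by
      intro hc
      apply hAbnc
      let f : ↥E →* ↥Ab := (π.comp E.subtype).codRestrict Ab (fun x => x.2)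
      have hf : Function.Surjective f := by
        rintro ⟨y, hy⟩
        obtain ⟨x, rfl⟩ := hπs y
        exact ⟨⟨x, hy⟩, rfl⟩
      exact isCyclic_of_surjective f hf
    have hcomm : ∀ a b : ↥E, ⁅a, b⁆ ∈ center ↥E := by
      intro a b
      have h1 : π ((⁅a, b⁆ : ↥E) : R) = 1 := by
        have h2 : π a * π b = π b * π a := by
          have := hAbe.1.is_comm.comm (⟨π a, a.2⟩ : Ab) ⟨π b, b.2⟩
          exact congrArg Subtype.val this
        show π ((a : R) * b * (a : R)⁻¹ * (b : R)⁻¹) = 1
        rw [map_mul, map_mul, map_mul, map_inv, map_inv, h2]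
        group
      have h2 : ((⁅a, b⁆ : ↥E) : R) ∈ A0 := by rw [← hker]; exact h1
      have h3 := hA0c h2
      rw [Subgroup.mem_center_iff] at h3 ⊢
      intro g
      exact Subtype.ext (h3 g)
    have hcl1 : ⁅commutator ↥E, (⊤ : Subgroup ↥E)⁆ = ⊥ := by
      rw [Subgroup.commutator_eq_bot_iff_le_centralizer]
      intro x hx
      have h1 : commutator ↥E ≤ center ↥E := by
        rw [_root_.commutator_def, Subgroup.commutator_le]
        intro g₁ _ g₂ _
        exact hcomm g₁ g₂
      rw [Subgroup.mem_centralizer_iff]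
      intro g _
      have := h1 hx
      rw [Subgroup.mem_center_iff] at this
      exact this g
    have hcl : ⁅⁅commutator ↥E, (⊤ : Subgroup ↥E)⁆, (⊤ : Subgroup ↥E)⁆ = ⊥ := by
      rw [hcl1]
      exact Subgroup.commutator_bot_left _
    have hexp : ∀ g ∈ omegaOne p E, g ^ p = 1 := by
      intro g hg
      have hle : omegaOne p E ≤ (closure {x : ↥E | x ^ p = 1}).map E.subtype := by
        unfold omegaOne
        rw [closure_le]
        rintro x ⟨hx1, hx2⟩
        exact ⟨⟨x, hx1⟩, Subgroup.subset_closure (Subtype.ext hx2), rfl⟩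
      obtain ⟨g', hg', rfl⟩ := hle hg
      have := Cfsg.Agent.Lib.Transfer.pow_eq_one_of_mem_closure hp hp2 hcl (Or.inr hcl1) g' hg'
      exact congrArg Subtype.val this
    obtain ⟨A, hAE, hAn, hAe, hAc⟩ := exists_of_exponent hp2 hR E hEnc hexp
    exact ⟨A, hAE.trans hES, hAn, hAe, hAc⟩

/-- `Ω₁` of a subgroup as the image of `Ω₁` of that subgroup regarded as a group. -/
theorem omega_eq_map (K : Subgroup R) : omegaOne p K = (closure {x : ↥K | x ^ p = 1}).map K.subtype := by
  apply le_antisymm
  · unfold omegaOne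
    rw [closure_le]
    rintro x ⟨hx1, hx2⟩
    exact ⟨⟨x, hx1⟩, Subgroup.subset_closure (Subtype.ext hx2), rfl⟩
  · rw [MonoidHom.map_closure]
    unfold omegaOne
    apply Subgroup.closure_mono
    rintro _ ⟨x, hx, rfl⟩
    exact ⟨x.2, congrArg Subtype.val hx⟩

theorem mem_zpowers_of_cyclic {Q : Type*} [Group Q] [Finite Q] [IsCyclic Q] {q : ℕ} (hq : 0 < q) {z : Q}
    (hz : orderOf z = q) (x : Q) (hx : x ^ q = 1) : x ∈ zpowers z := by
  classical
  haveI : Fintype Q := Fintype.ofFinite _
  let T : Finset Q := Finset.univ.filter (· ∈ zpowers z)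
  let S : Finset Q := Finset.univ.filter (fun y => y ^ q = 1)
  have hTS : T ⊆ S := by
    intro y hy
    have hy' : y ∈ zpowers z := (Finset.mem_filter.1 hy).2
    obtain ⟨k, rfl⟩ := hy'
    refine Finset.mem_filter.2 ⟨Finset.mem_univ _, ?_⟩
    show (z ^ k) ^ q = 1
    rw [← zpow_natCast, ← zpow_mul, mul_comm, zpow_mul, zpow_natCast, ← hz, pow_orderOf_eq_one, one_zpow]
  have hT : T.card = q := by
    have h1 : Nat.card (zpowers z) = q := by rw [Nat.card_zpowers, hz]
    rw [← h1, Nat.card_eq_fintype_card, Fintype.card_subtype]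
  have hS : S.card ≤ q := IsCyclic.card_pow_eq_one_le hq
  have heq : T = S := Finset.eq_of_subset_of_card_le hTS (by omega)
  have hxS : x ∈ S := Finset.mem_filter.2 ⟨Finset.mem_univ _, hx⟩
  rw [← heq] at hxS
  exact (Finset.mem_filter.1 hxS).2

/-- A metacyclic non-cyclic `p`-group, `p` odd, has `Ω₁` elementary abelian of order `p²`. -/
theorem metacyclic_omega (hp2 : p ≠ 2) (hR : IsPGroup p R) (N : Subgroup R) [hN : N.Normal] (hNc : IsCyclic N)
    (hQc : IsCyclic (R ⧸ N)) (hnc : ¬ IsCyclic R) :
    IsElementaryAbelian p (omegaOne p (⊤ : Subgroup R)) ∧ Nat.card ↥(omegaOne p (⊤ : Subgroup R)) = p ^ 2 := by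
  classical
  have hp : p.Prime := Fact.out
  let π : R →* R ⧸ N := QuotientGroup.mk' N
  have hπs : Function.Surjective π := QuotientGroup.mk'_surjective N
  have hker : π.ker = N := QuotientGroup.ker_mk' N
  have hQp : IsPGroup p (R ⧸ N) := hR.to_quotient N
  have hNne : N ≠ ⊤ := by
    rintro rfl
    exact hnc (isCyclic_of_surjective (Subgroup.topEquiv (G := R)).toMonoidHom Subgroup.topEquiv.surjective)
  have hQnt : Nontrivial (R ⧸ N) := QuotientGroup.nontrivial_iff.2 hNne
  obtain ⟨z, hz⟩ : ∃ z : R ⧸ N, orderOf z = p := by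
    have hd : p ∣ Nat.card (R ⧸ N) := by
      obtain ⟨k, hk⟩ := IsPGroup.iff_card.1 hQp
      rw [hk]
      have : k ≠ 0 := by
        rintro rfl
        have := Finite.one_lt_card (α := R ⧸ N)
        rw [hk, pow_zero] at this
        omega
      exact dvd_pow_self p this
    exact exists_prime_orderOf_dvd_card' p hd
  let K : Subgroup R := (zpowers z).comap π
  have hNK : N ≤ K := by
    intro x hx
    show π x ∈ zpowers z
    have : π x = 1 := by rw [← MonoidHom.mem_ker, hker]; exact hx
    rw [this]; exact one_mem _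
  have hall : ∀ y : R, y ^ p = 1 → y ∈ K := by
    intro y hy
    show π y ∈ zpowers z
    exact mem_zpowers_of_cyclic hp.pos hz _ (by rw [← map_pow, hy, map_one])
  have hKnc : ¬ IsCyclic K := by
    intro hc
    obtain ⟨A, -, hAe, hAc⟩ := Cfsg.Agent.Lib.Transfer.exists_normal_elementary_sq hp2 hR hnc
    have hAK : A ≤ K := fun x hx => hall x (hAe.2 x hx)
    let f : A →* K := Subgroup.inclusion hAK
    have hfi : Function.Injective f := Subgroup.inclusion_injective hAK
    haveI : IsCyclic A := isCyclic_of_injective f hfi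
    obtain ⟨g, hg⟩ := isCyclic_iff_exists_orderOf_eq_natCard.1 (inferInstance : IsCyclic A)
    rw [hAc] at hg
    have h1 : (g : R) ^ p = 1 := hAe.2 g g.2
    have h2 : orderOf g ∣ p := orderOf_dvd_of_pow_eq_one (Subtype.ext h1)
    rw [hg] at h2
    have h3 := Nat.le_of_dvd hp.pos h2
    have h4 : p < p ^ 2 := by nlinarith [hp.two_le]
    omega
  have hKp : IsPGroup p K := hR.to_subgroup K
  let C : Subgroup K := N.subgroupOf K
  have hCc : IsCyclic C := by
    let f : C →* N := (Subgroup.subgroupOfEquivOfLe hNK).toMonoidHom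
    exact isCyclic_of_injective f (Subgroup.subgroupOfEquivOfLe hNK).injective
  have hCi : C.index = p := by
    have h1 : C = (π.comp K.subtype).ker := by
      ext x
      simp only [C, Subgroup.mem_subgroupOf, MonoidHom.mem_ker, MonoidHom.comp_apply]
      rw [← MonoidHom.mem_ker, hker]
      rfl
    rw [h1, Subgroup.index_ker]
    have h2 : (π.comp K.subtype).range = zpowers z := by
      ext y
      constructor
      · rintro ⟨x, rfl⟩
        exact x.2
      · intro hy
        obtain ⟨x, rfl⟩ := hπs y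
        exact ⟨⟨x, hy⟩, rfl⟩
    rw [h2, Nat.card_zpowers, hz]
  obtain ⟨-, h2, h3⟩ := Cfsg.Agent.Lib.Transfer.pow_hom_of_cyclic_index_prime hp2 hKp hKnc C hCc hCi
  have heq : omegaOne p (⊤ : Subgroup R) = (closure {x : K | x ^ p = 1}).map K.subtype := by
    rw [← omega_eq_map K]
    unfold omegaOne
    congr 1
    ext x
    simp only [Set.mem_ofPred_eq]
    constructor
    · rintro ⟨-, hx⟩
      exact ⟨hall x hx, hx⟩
    · rintro ⟨-, hx⟩
      exact ⟨trivial, hx⟩
  have hcard : Nat.card ↥(omegaOne p (⊤ : Subgroup R)) = p ^ 2 := by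
    rw [heq, Subgroup.card_map_of_injective K.subtype_injective]
    exact h2
  refine ⟨⟨IsPGroup.isMulCommutative_of_card_eq_prime_sq hcard, ?_⟩, hcard⟩
  intro x hx
  rw [heq] at hx
  obtain ⟨y, hy, rfl⟩ := hx
  have := h3 y hy
  exact congrArg Subtype.val this

end Cfsg.Agent.Lib.PLocal
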