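import Mathlib
import Cfsg.Agent.Lib.PLocal.Bridge2
import Cfsg.Agent.Lib.PLocal.Offender11
import Cfsg.Agent.Lib.Basic.CoprimeAction

/-!
# A coprime group acting on the configuration in `V ⋊ Aut(V)`
-/

set_option autoImplicit false
set_option linter.unusedSectionVars false
set_option linter.style.haveILetI false

universe u

namespace Cfsg.Agent.Lib.PLocal

open Subgroup Cfsg
open scoped commutatorElement

section res

variable {K : Type u} [Group K]

/-- Restriction of automorphisms to a characteristic subgroup. -/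
def resAut (V : Subgroup K) (hc : V.Characteristic) : MulAut K →* MulAut ↥V where
  toFun σ :=
    { toFun := fun v => ⟨σ v, by
        have h := hc.fixed σ
        have h2 : (v : K) ∈ V.comap σ.toMonoidHom := by rw [h]; exact v.2
        exact h2⟩
      invFun := fun v => ⟨σ⁻¹ v, by
        have h := hc.fixed σ⁻¹
        have h2 : (v : K) ∈ V.comap (σ⁻¹).toMonoidHom := by rw [h]; exact v.2
        exact h2⟩
      left_inv := fun v => by
        apply Subtype.ext
        simp
      right_inv := fun v => by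
        apply Subtype.ext
        simp
      map_mul' := fun v w => by
        apply Subtype.ext
        simp }
  map_one' := by
    apply MulEquiv.ext
    intro v
    apply Subtype.ext
    rfl
  map_mul' := by
    intro σ τ
    apply MulEquiv.ext
    intro v
    apply Subtype.ext
    rfl

lemma resAut_coe (V : Subgroup K) (hc : V.Characteristic) (σ : MulAut K) (v : ↥V) :
    ((resAut V hc σ v : ↥V) : K) = σ v := rfl

end res

section xact

variable {G : Type u} [Group G]

/-- The action of a subgroup normalizing `K`. -/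
def xAct {K X : Subgroup G} (hXK : X ≤ normalizer (K : Set G)) : ↥X →* MulAut ↥K where
  toFun x := autOfNorm K (hXK x.2)
  map_one' := by
    apply MulEquiv.ext
    intro k
    apply Subtype.ext
    change ((1 : ↥X) : G) * k * ((1 : ↥X) : G)⁻¹ = k
    simp
  map_mul' := by
    intro x y
    apply MulEquiv.ext
    intro k
    apply Subtype.ext
    change ((x * y : ↥X) : G) * k * ((x * y : ↥X) : G)⁻¹ = (x : G) * ((y : G) * k * (y : G)⁻¹) * (x : G)⁻¹
    simp only [Subgroup.coe_mul]
    group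

lemma xAct_coe {K X : Subgroup G} (hXK : X ≤ normalizer (K : Set G)) (x : ↥X) (k : ↥K) :
    ((xAct hXK x k : ↥K) : G) = x * k * (x : G)⁻¹ := rfl

end xact

section hol

variable {K : Type u} [Group K] {V : Subgroup K} [hVn : V.Normal]

lemma inr_conj_inl (α : MulAut ↥V) (v : ↥V) :
    (SemidirectProduct.inr α : Hol V) * SemidirectProduct.inl v * (SemidirectProduct.inr α)⁻¹ =
      SemidirectProduct.inl (α v) := by
  rw [← map_inv, ← SemidirectProduct.inl_aut]
  rfl

lemma inr_conj_holAct (hc : V.Characteristic) (σ : MulAut K) (k : K) :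
    (SemidirectProduct.inr (resAut V hc σ) : Hol V) * holAct V k * (SemidirectProduct.inr (resAut V hc σ))⁻¹ =
      holAct V (σ k) := by
  rw [holAct_apply, holAct_apply, ← map_inv, ← map_mul, ← map_mul]
  congr 1
  apply MulEquiv.ext
  intro v
  apply Subtype.ext
  have h1 : (resAut V hc σ)⁻¹ = resAut V hc σ⁻¹ := (map_inv (resAut V hc) σ).symm
  rw [h1]
  change σ (k * (σ⁻¹ v) * k⁻¹) = σ k * v * (σ k)⁻¹
  rw [map_mul, map_mul, map_inv]
  congr 2
  exact MulEquiv.apply_symm_apply σ v

end hol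

section omegaChar

variable {K : Type u} [Group K] [Finite K] {p : ℕ} [hp : Fact p.Prime]

lemma omegaSylow_characteristic : (omegaSylow p K).Characteristic := by
  rw [Subgroup.characteristic_iff_le_comap]
  intro σ
  refine iSup_le fun S => ?_
  rw [omegaOne, Subgroup.closure_le]
  rintro x ⟨⟨hx1, hx2⟩, hx3⟩
  change σ x ∈ omegaSylow p K
  let S' : Sylow p K := S.mapSurjective (f := σ.toMonoidHom) σ.surjective
  have hS' : (S' : Subgroup K) = (S : Subgroup K).map σ.toMonoidHom := rfl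
  refine (le_iSup (fun S : Sylow p K =>
    omegaOne p (((S : Subgroup K)) ⊓ centralizer ((S : Subgroup K) : Set K))) S') (subset_closure ⟨?_, ?_⟩)
  · refine Subgroup.mem_inf.mpr ⟨?_, ?_⟩
    · rw [hS']
      exact ⟨x, hx1, rfl⟩
    · rw [mem_centralizer_iff]
      intro y hy
      have hy' : y ∈ (S' : Subgroup K) := hy
      rw [hS'] at hy'
      obtain ⟨s, hs, rfl⟩ := hy'
      have h1 := mem_centralizer_iff.mp hx2 s hs
      change σ s * σ x = σ x * σ s
      rw [← map_mul, ← map_mul, h1]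
  · rw [← map_pow, hx3, map_one]

end omegaChar

section xconfig

variable {G : Type u} [Group G] [Finite G] {p q : ℕ} [hp : Fact p.Prime] [hq : Fact q.Prime]
variable {K X : Subgroup G}

/-- The action on `V ⋊ Aut(V)`. -/
noncomputable def holX (V : Subgroup ↥K) [V.Normal] (hc : V.Characteristic) (hXK : X ≤ normalizer (K : Set G)) : ↥X →* Hol V :=
  (SemidirectProduct.inr).comp ((resAut V hc).comp (xAct hXK))

variable {V : Subgroup ↥K} [hVn : V.Normal]

lemma holX_conj_act (hc : V.Characteristic) (hXK : X ≤ normalizer (K : Set G)) (x : ↥X) (k : ↥K) :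
    holX V hc hXK x * holAct V k * (holX V hc hXK x)⁻¹ = holAct V (xAct hXK x k) :=
  inr_conj_holAct hc (xAct hXK x) k

/-- The hypotheses of `TAct`. -/
theorem tact_of_K (hV : V.Characteristic) (hXK : X ≤ normalizer (K : Set G)) (hX : IsElementaryAbelian q X)
    (J : Subgroup ↥K) (hJ : J.Characteristic) (hq2 : q ≠ 2) (hq3 : q ≠ 3) :
    TAct p q (holV V) (J.map (holAct V)) (holX V hV hXK).range := by
  refine ⟨?_, ?_, ?_, hq2, hq3⟩
  · rintro _ ⟨x, rfl⟩
    apply Cfsg.Agent.Lib.Coprime.mem_normalizer_of_conj_le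
    rintro _ ⟨v, rfl⟩
    exact ⟨_, inr_conj_inl _ v |>.symm⟩
  · rintro _ ⟨x, rfl⟩
    apply Cfsg.Agent.Lib.Coprime.mem_normalizer_of_conj_le
    rintro _ ⟨j, hj, rfl⟩
    rw [holX_conj_act]
    refine ⟨xAct hXK x j, ?_, rfl⟩
    have h := hJ.fixed (xAct hXK x)
    have h2 : j ∈ J.comap (xAct hXK x).toMonoidHom := by rw [h]; exact hj
    exact h2
  · rintro _ ⟨x, rfl⟩
    rw [← map_pow]
    have h1 : x ^ q = 1 := Subtype.ext ((isEA_iff.mp hX).2 x x.2 |> fun h => by simpa using h)
    rw [h1, map_one]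

/-- The prime `q` differs from `2` and `3` once a factor exists. -/
theorem q_ne_of_trv (hq' : ¬ q ∣ Nat.card K) (J : Subgroup ↥K) (S : OffSetup p (holV V) (J.map (holAct V)))
    {c : Hol V} (hc : Trv p (holV V) (J.map (holAct V)) c) : q ≠ 2 ∧ q ≠ 3 := by
  have hE := S.pack_of_trv hc
  obtain ⟨h23, ⟨e⟩⟩ := S.pack_sl2 hc
  have hd : Nat.card ↥(⁅coreOf p (J.map (holAct V)), zpowers c⁆ ⊔ zpowers c) ∣ Nat.card K := by
    refine (Subgroup.card_dvd_of_le hE.le).trans ?_
    have h1 := card_map_holAct_mul (V := V) J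
    have h2 : Nat.card ↥(J.map (holAct V)) ∣ Nat.card J := ⟨_, h1.symm⟩
    exact h2.trans (Subgroup.card_subgroup_dvd_card J)
  rw [Nat.card_congr e.toEquiv] at hd
  have h6 : 2 * 3 ∣ Nat.card (Matrix.SpecialLinearGroup (Fin 2) (ZMod p)) := by
    rcases h23 with rfl | rfl
    · rw [Nat.card_eq_fintype_card]
      decide
    · rw [Nat.card_eq_fintype_card]
      decide
  have h7 := h6.trans hd
  constructor
  · rintro rfl
    exact hq' ((Dvd.intro _ rfl).trans h7)
  · rintro rfl
    exact hq' ((Dvd.intro_left _ rfl).trans h7)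

/-- Lifting fixed points of the action to the fixed points in `K`. -/
theorem lift_fixed (hV : V.Characteristic) (hXK : X ≤ normalizer (K : Set G)) (hX : IsElementaryAbelian q X)
    (hq' : ¬ q ∣ Nat.card K) {k : ↥K}
    (hk : holAct V k ∈ centralizer ((holX V hV hXK).range : Set (Hol V))) :
    ∃ c : ↥K, (c : G) ∈ centralizer (X : Set G) ∧ holAct V c = holAct V k := by
  classical
  set C := centralizer (V : Set ↥K) with hCdef
  haveI hCn : C.Normal := Subgroup.normal_centralizer
  set N : Subgroup G := C.map K.subtype with hN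
  have hNK : N ≤ K := by
    rintro _ ⟨n, _, rfl⟩
    exact n.2
  have hNnorm : K ≤ normalizer (N : Set G) := by
    intro y hy
    apply Cfsg.Agent.Lib.Coprime.mem_normalizer_of_conj_le
    rintro _ ⟨n, hn, rfl⟩
    exact ⟨⟨y, hy⟩ * n * ⟨y, hy⟩⁻¹, hCn.conj_mem n hn _, rfl⟩
  have hNX : X ≤ normalizer (N : Set G) := by
    intro x hx
    apply Cfsg.Agent.Lib.Coprime.mem_normalizer_of_conj_le
    rintro _ ⟨n, hn, rfl⟩
    refine ⟨xAct hXK ⟨x, hx⟩ n, ?_, rfl⟩
    change (xAct hXK ⟨x, hx⟩ n) ∈ centralizer (V : Set ↥K)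
    rw [mem_centralizer_iff]
    intro v hv
    have hv' : (xAct hXK ⟨x, hx⟩)⁻¹ v ∈ V := by
      have h := hV.fixed (xAct hXK ⟨x, hx⟩)⁻¹
      have h2 : v ∈ V.comap ((xAct hXK ⟨x, hx⟩)⁻¹).toMonoidHom := by rw [h]; exact hv
      exact h2
    have h1 := mem_centralizer_iff.mp hn _ hv'
    have h2 := congrArg (xAct hXK ⟨x, hx⟩) h1
    rw [map_mul, map_mul] at h2
    have h3 : (xAct hXK ⟨x, hx⟩) ((xAct hXK ⟨x, hx⟩)⁻¹ v) = v := MulEquiv.apply_symm_apply _ v
    rw [h3] at h2
    exact h2
  have hcop : (Nat.card X).Coprime (Nat.card K) := by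
    obtain ⟨m, hm⟩ := IsPGroup.iff_card.mp (isPGroup_of_isEA hX)
    rw [hm]
    exact Nat.Coprime.pow_left m ((Nat.Prime.coprime_iff_not_dvd hq.out).mpr hq')
  haveI hXc : IsMulCommutative ↥X := hX.1
  have hsolv : Group.IsSolvable ↥X ∨ Group.IsSolvable ↥K := by
    left
    exact isSolvable_of_comm fun a b => hXc.is_comm.comm a b
  obtain ⟨c, hc, hkc⟩ := Cfsg.Agent.Lib.Basic.coprime_fixed_coset hXK hcop hsolv N hNK hNnorm hNX (k : G) k.2 (by
    intro a ha
    refine ⟨xAct hXK ⟨a, ha⟩ k * k⁻¹, ?_, rfl⟩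
    change (xAct hXK ⟨a, ha⟩ k * k⁻¹) ∈ centralizer (V : Set ↥K)
    rw [← holAct_eq_one_iff, map_mul, map_inv, ← holX_conj_act hV hXK]
    have h1 := mem_centralizer_iff.mp hk (holX V hV hXK ⟨a, ha⟩) ⟨⟨a, ha⟩, rfl⟩
    rw [h1, mul_inv_cancel_right, mul_inv_cancel])
  obtain ⟨hc1, hc2⟩ := Subgroup.mem_inf.mp hc
  refine ⟨⟨c, hc1⟩, hc2, ?_⟩
  obtain ⟨n, hn, hnk⟩ := hkc
  have h1 : (⟨c, hc1⟩ : ↥K) = k * n := by
    apply Subtype.ext
    change c = (k : G) * (n : G)
    have h2 : (n : G) = (k : G)⁻¹ * c := hnk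
    rw [h2, mul_inv_cancel_left]
  rw [h1, map_mul, holAct_eq_one_iff.mpr hn, mul_one]

end xconfig

end Cfsg.Agent.Lib.PLocal
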