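import Mathlib
import Cfsg.Agent.Lib.PLocal.Bridge3
import Cfsg.Agent.Lib.PLocal.WS2
import Cfsg.Agent.Lib.Coprime.Conj

/-!
# The generation of a `p`-separable group under coprime action
-/

set_option autoImplicit false
set_option linter.unusedSectionVars false
set_option linter.style.haveILetI false

universe u

namespace Cfsg.Agent.Lib.PLocal

open Subgroup Cfsg
open scoped commutatorElement

/-- `H` normalizes its factors. -/
lemma Pack.le_norm_of_gen {G : Type*} [Group G] [Finite G] {p : ℕ} [hp : Fact p.Prime] {V H E : Subgroup G} {a : G}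
    (S : OffSetup p V H) (hE : Pack p V H a E)
    (hgen : H ≤ closure {c : G | Trv p V H c}) : H ≤ normalizer (E : Set G) := by
  obtain ⟨h1, -, h3, -⟩ := hE.direct S hgen
  refine h3.ge.trans ?_
  refine sup_le le_normalizer ?_
  intro f hf
  apply Cfsg.Agent.Lib.Coprime.mem_normalizer_of_conj_le
  intro e he
  have h5 : ⁅e, f⁆ ∈ ⁅E, H ⊓ centralizer ((⁅V, E⁆ : Subgroup G) : Set G)⁆ :=
    Subgroup.commutator_mem_commutator he hf
  rw [h1, Subgroup.mem_bot] at h5
  have h6 := commutatorElement_eq_one_iff_mul_comm.mp h5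
  rw [← h6, mul_inv_cancel_right]
  exact he

section main

variable {K : Type u} [Group K] [Finite K] {p q : ℕ} [hp : Fact p.Prime] [hq : Fact q.Prime]
variable {V J : Subgroup K} [hVn : V.Normal] [hJn : J.Normal]

lemma holAct_mem_normalizer_map (g : K) : holAct V g ∈ normalizer ((J.map (holAct V) : Subgroup (Hol V)) : Set (Hol V)) := by
  apply Cfsg.Agent.Lib.Coprime.mem_normalizer_of_conj_le
  rintro _ ⟨j, hj, rfl⟩
  exact ⟨g * j * g⁻¹, hJn.conj_mem j hj g, by simp [map_mul]⟩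

/-- Sylow conjugation in the image. -/
lemma exists_conj_mem_map (S : Sylow p K) {c : Hol V} (hc : c ∈ (holAct V).range) (hcp : c ^ p = 1) :
    ∃ k : K, holAct V k * c * (holAct V k)⁻¹ ∈ (S : Subgroup K).map (holAct V) := by
  classical
  let π : K →* ↥(holAct V).range := (holAct V).rangeRestrict
  have hπ : Function.Surjective π := (holAct V).rangeRestrict_surjective
  let S' : Sylow p ↥(holAct V).range := S.mapSurjective hπ
  let c' : ↥(holAct V).range := ⟨c, hc⟩
  have hc'p : c' ^ p = 1 := Subtype.ext hcp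
  have hQ : IsPGroup p (zpowers c') := isPGroup_of_isEA (isEA_zpowers hc'p)
  obtain ⟨Q, hQle⟩ := hQ.exists_le_sylow
  obtain ⟨g, hg⟩ := MulAction.exists_smul_eq ↥(holAct V).range Q S'
  obtain ⟨k, hk⟩ := hπ g
  refine ⟨k, ?_⟩
  have h1 : c' ∈ (Q : Subgroup ↥(holAct V).range) := hQle (mem_zpowers c')
  have h2 : g * c' * g⁻¹ ∈ ((g • Q : Sylow p ↥(holAct V).range) : Subgroup ↥(holAct V).range) := by
    rw [Sylow.coe_subgroup_smul]
    exact ⟨c', h1, rfl⟩
  rw [hg] at h2
  obtain ⟨s, hs, hsg⟩ := h2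
  refine ⟨s, hs, ?_⟩
  have h3 := congrArg Subtype.val hsg
  have h4 : ((g * c' * g⁻¹ : ↥(holAct V).range) : Hol V) = holAct V k * c * (holAct V k)⁻¹ := by
    rw [← hk]
    rfl
  rw [← h4, ← h3]
  rfl

/-- Every transvection of the image of `J` lies in the image of `L`. -/
theorem trv_mem_map {T : Subgroup (Hol V)} (A : TAct p q (holV V) (J.map (holAct V)) T)
    (Sm : OffSetup p (holV V) (J.map (holAct V)))
    (hgen : J.map (holAct V) ≤ closure {c : Hol V | Trv p (holV V) (J.map (holAct V)) c})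
    (S : Sylow p K) {L : Subgroup K} (hLS : (S : Subgroup K) ≤ L)
    (hLN : normalizer (((S : Subgroup K) ⊓ J : Subgroup K) : Set K) ≤ L)
    (hL : J.map (holAct V) ⊓ centralizer (T : Set (Hol V)) ≤ L.map (holAct V))
    {c : Hol V} (hc : Trv p (holV V) (J.map (holAct V)) c) : c ∈ L.map (holAct V) := by
  classical
  have hcJ : c ∈ (holAct V).range := by
    obtain ⟨j, _, rfl⟩ := hc.mem
    exact ⟨j, rfl⟩
  obtain ⟨k, hk⟩ := exists_conj_mem_map S hcJ hc.pow
  have htop : k⁻¹ ∈ J ⊔ normalizer (((S : Subgroup K) ⊓ J : Subgroup K) : Set K) := by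
    have h1 := Cfsg.Agent.Lib.Coprime.frattini_inf_normal S J
    rw [sup_comm] at h1
    rw [h1]
    exact mem_top _
  have hJN : normalizer (((S : Subgroup K) ⊓ J : Subgroup K) : Set K) ≤ normalizer (J : Set K) := by
    rw [Subgroup.normalizer_eq_top_iff.mpr hJn]
    exact le_top
  obtain ⟨j₁, hj₁, n₁, hn₁, hkk⟩ := Cfsg.Agent.Lib.OddLocal.mem_sup_of_le_normalizer hJN htop
  have hk' : k = n₁⁻¹ * j₁⁻¹ := by
    have h1 : k = (k⁻¹)⁻¹ := by group
    rw [h1, ← hkk]
    group
  set t : Hol V := holAct V j₁⁻¹ with ht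
  have htH : t ∈ J.map (holAct V) := ⟨j₁⁻¹, inv_mem hj₁, rfl⟩
  set c₁ : Hol V := t * c * t⁻¹ with hc₁
  have hnL : holAct V n₁ ∈ L.map (holAct V) := ⟨n₁, hLN hn₁, rfl⟩
  have ha₀ : holAct V k * c * (holAct V k)⁻¹ ∈ L.map (holAct V) :=
    Subgroup.map_mono hLS hk
  have hc₁L : c₁ ∈ L.map (holAct V) := by
    have h1 : c₁ = holAct V n₁ * (holAct V k * c * (holAct V k)⁻¹) * (holAct V n₁)⁻¹ := by
      rw [hk', map_mul, map_inv, hc₁, ht, map_inv]
      group
    rw [h1]
    exact mul_mem (mul_mem hnL ha₀) (inv_mem hnL)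
  have hTc1 : Trv p (holV V) (J.map (holAct V)) c₁ := Sm.trv_conj hc htH
  have hF := A.fac_le_of_mem Sm hgen hL hTc1 hc₁L
  have hPc := Sm.pack_of_trv hc
  have hNn := hPc.le_norm_of_gen Sm hgen
  have heq : facOf p (J.map (holAct V)) c₁ = facOf p (J.map (holAct V)) c := by
    rw [hc₁, ← facOf_conj (le_normalizer htH)]
    exact (Cfsg.Agent.Lib.Coprime.conj_map_eq_iff_mem_normalizer _ t).mpr (hNn htH)
  have hcm : c ∈ facOf p (J.map (holAct V)) c := hPc.mem
  rw [← heq] at hcm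
  exact hF hcm

/-- Passing from images to subgroups. -/
lemma le_of_map_le {L : Subgroup K} (hC : centralizer (V : Set K) ≤ L) (hle : J.map (holAct V) ≤ L.map (holAct V)) : J ≤ L := by
  intro j hj
  obtain ⟨l, hl, hlj⟩ := hle ⟨j, hj, rfl⟩
  have h1 : l⁻¹ * j ∈ centralizer (V : Set K) := by
    rw [← holAct_eq_one_iff, map_mul, map_inv, hlj, inv_mul_cancel]
  have h2 : j = l * (l⁻¹ * j) := by group
  rw [h2]
  exact mul_mem hl (hC h1)

/-- The normalizer of `S ⊓ J(K)` normalizes `J(S)`. -/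
lemma normalizer_inf_le (S : Sylow p K) :
    normalizer (((S : Subgroup K) ⊓ thompsonSubgroup p K : Subgroup K) : Set K) ≤
      normalizer (thompsonSubgroupOf p (S : Subgroup K) : Set K) := by
  intro n hn
  have h1 : thompsonSubgroupOf p (S : Subgroup K) ≤ thompsonSubgroup p K := by
    rw [thompsonOf_sylow_eq]
    refine sSup_le ?_
    rintro A ⟨hA, -⟩
    exact le_thompson hA
  have h2 : thompsonSubgroupOf p (S : Subgroup K) ≤ (S : Subgroup K) := by
    rintro _ ⟨x, _, rfl⟩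
    exact x.2
  have hT := thompsonOf_eq_of_le (p := p) (T := (S : Subgroup K) ⊓ thompsonSubgroup p K) (U := (S : Subgroup K))
    (le_inf h2 h1) inf_le_left
  rw [← Cfsg.Agent.Lib.Coprime.conj_map_eq_iff_mem_normalizer, ← hT, thompsonOf_conj,
    (Cfsg.Agent.Lib.Coprime.conj_map_eq_iff_mem_normalizer _ n).mpr hn]

end main

end Cfsg.Agent.Lib.PLocal
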