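import Mathlib
import Cfsg.Agent.Lib.PLocal.Bridge4

/-!
# Projection onto a direct factor
-/

set_option autoImplicit false
set_option linter.unusedSectionVars false
set_option linter.style.haveILetI false

universe u

namespace Cfsg.Agent.Lib.PLocal

open Subgroup Cfsg
open scoped commutatorElement

/-- The projection onto a factor. -/
theorem Pack.exists_pr {G : Type*} [Group G] [Finite G] {p : ℕ} [hp : Fact p.Prime] {V H E : Subgroup G} {a : G}
    (S : OffSetup p V H) (hE : Pack p V H a E)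
    (hgen : H ≤ closure {c : G | Trv p V H c}) :
    ∃ pr : ↥H →* ↥E,
      (∀ (y : ↥E) (f : G), f ∈ H ⊓ centralizer ((⁅V, E⁆ : Subgroup G) : Set G) → ∀ (hm : (y : G) * f ∈ H),
        pr ⟨(y : G) * f, hm⟩ = y) ∧
      (∀ h : ↥H, pr h = 1 ↔ (h : G) ∈ centralizer ((⁅V, E⁆ : Subgroup G) : Set G)) := by
  classical
  obtain ⟨h1, h2, h3, -⟩ := hE.direct S hgen
  set F := H ⊓ centralizer ((⁅V, E⁆ : Subgroup G) : Set G) with hF
  have hcomm : ∀ e ∈ E, ∀ f ∈ F, e * f = f * e := by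
    intro e he f hf
    have h5 : ⁅e, f⁆ ∈ ⁅E, F⁆ := Subgroup.commutator_mem_commutator he hf
    rw [h1, Subgroup.mem_bot] at h5
    exact commutatorElement_eq_one_iff_mul_comm.mp h5
  have hFN : F ≤ normalizer (E : Set G) := by
    intro f hf
    apply Cfsg.Agent.Lib.Coprime.mem_normalizer_of_conj_le
    intro e he
    rw [← hcomm e he f hf, mul_inv_cancel_right]
    exact he
  have hdec : ∀ h : ↥H, ∃ e : ↥E, ∃ f ∈ F, (h : G) = e * f := by
    intro h
    have hh : (h : G) ∈ E ⊔ F := by rw [h3]; exact h.2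
    obtain ⟨e, he, f, hf, hef⟩ := Cfsg.Agent.Lib.OddLocal.mem_sup_of_le_normalizer hFN hh
    exact ⟨⟨e, he⟩, f, hf, hef.symm⟩
  have huniq : ∀ (e e' : ↥E) (f f' : G), f ∈ F → f' ∈ F → (e : G) * f = e' * f' → e = e' := by
    intro e e' f f' hf hf' heq
    have h4 : (e' : G)⁻¹ * e = f' * f⁻¹ := by
      calc (e' : G)⁻¹ * e = (e' : G)⁻¹ * (e * f) * f⁻¹ := by group
        _ = (e' : G)⁻¹ * (e' * f') * f⁻¹ := by rw [heq]
        _ = _ := by group
    have h5 : (e' : G)⁻¹ * e ∈ E ⊓ F :=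
      Subgroup.mem_inf.mpr ⟨mul_mem (inv_mem e'.2) e.2, by rw [h4]; exact mul_mem hf' (inv_mem hf)⟩
    rw [h2, Subgroup.mem_bot] at h5
    exact Subtype.ext (inv_mul_eq_one.mp h5).symm
  choose pr₀ f₀ hf₀ hpr using hdec
  have hmul : ∀ x y : ↥H, pr₀ (x * y) = pr₀ x * pr₀ y := by
    intro x y
    apply huniq _ _ (f₀ (x * y)) (f₀ x * f₀ y) (hf₀ _) (mul_mem (hf₀ x) (hf₀ y))
    rw [← hpr, Subgroup.coe_mul, hpr x, hpr y, Subgroup.coe_mul]
    have h5 := hcomm (pr₀ y) (pr₀ y).2 (f₀ x) (hf₀ x)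
    calc (pr₀ x : G) * f₀ x * ((pr₀ y : G) * f₀ y) = (pr₀ x : G) * (f₀ x * (pr₀ y : G)) * f₀ y := by group
      _ = (pr₀ x : G) * ((pr₀ y : G) * f₀ x) * f₀ y := by rw [h5]
      _ = _ := by group
  refine ⟨MonoidHom.mk' pr₀ hmul, ?_, ?_⟩
  · intro y f hf hm
    change pr₀ ⟨(y : G) * f, hm⟩ = y
    apply huniq _ _ (f₀ ⟨(y : G) * f, hm⟩) f (hf₀ _) hf
    exact (hpr ⟨(y : G) * f, hm⟩).symm
  · intro h
    change pr₀ h = 1 ↔ _
    constructor
    · intro h4
      have h5 := hpr h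
      rw [h4] at h5
      simp only [OneMemClass.coe_one, one_mul] at h5
      rw [h5]
      exact (Subgroup.mem_inf.mp (hf₀ h)).2
    · intro h4
      have h5 : (h : G) ∈ F := Subgroup.mem_inf.mpr ⟨h.2, h4⟩
      apply huniq _ _ (f₀ h) (h : G) (hf₀ h) h5
      rw [← hpr h]
      simp

end Cfsg.Agent.Lib.PLocal
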