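/-
An abstract form of the Glauberman–Thompson induction: a family of hypotheses on `p`-subgroups which passes to
subgroups and quotients and follows from local information yields normal `p`-complements, as soon as it settles
the final configuration (`p`-stable, `C(O_p) ≤ O_p`).
-/
import Cfsg.Agent.Lib.LocalEven2.GT3
import Cfsg.Agent.Lib.PLocal.Stable
import Cfsg.Agent.Lib.PLocal.WS

set_option autoImplicit false
set_option linter.unusedSectionVars false
set_option linter.style.haveILetI false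

namespace Cfsg.Agent.Lib.PLocal

open Subgroup Cfsg
open scoped commutatorElement
open Cfsg.Agent.Lib.Transfer Cfsg.Agent.Lib.LocalEven2

universe u

variable {p : ℕ} [Fact p.Prime]

/-- The abstract hypotheses of the Glauberman–Thompson induction. -/
structure GTHyp (p : ℕ) [Fact p.Prime] (Hyp : ∀ (G : Type u) [Group G] [Finite G], Subgroup G → Prop) : Prop where
  sub : ∀ (G : Type u) [Group G] [Finite G] (H : Subgroup G) (T : Subgroup H), IsPGroup p T → Hyp G (T.map H.subtype) → Hyp H T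
  quot : ∀ (G G' : Type u) [Group G] [Finite G] [Group G'] [Finite G'] (f : G →* G'), Function.Surjective f →
    (Nat.card f.ker).Coprime p → ∀ S : Subgroup G, IsPGroup p S → Hyp G S → Hyp G' (S.map f)
  overq : ∀ (G : Type u) [Group G] [Finite G] (P : Sylow p G) (Q : Subgroup G) [Q.Normal], Q ≤ P →
    (∀ M : Subgroup G, (P : Subgroup G) ≤ M → M ≠ ⊤ → HasNormalPComplement p M) →
    (∀ N : Subgroup (G ⧸ Q), N.Normal → IsPGroup p N → N = ⊥) → (P : Subgroup G).map (QuotientGroup.mk' Q) ≠ ⊥ →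
    Hyp (G ⧸ Q) ((P : Subgroup G).map (QuotientGroup.mk' Q))
  loc : ∀ (G : Type u) [Group G] [Finite G] (P : Sylow p G) (S : Subgroup G), S ≤ P → S ≠ P → S ≠ ⊥ →
    (∀ V : Subgroup G, V ≤ P → V ≠ ⊥ → Nat.card S < Nat.card (normalizer (V : Set G) ⊓ (P : Subgroup G) : Subgroup G) →
      HasNormalPComplement p (normalizer (V : Set G))) → Hyp G S
  normal : ∀ (G : Type u) [Group G] [Finite G] (P : Sylow p G), Hyp G P → (P : Subgroup G).Normal →
    HasNormalPComplement p G
  final : ∀ (G : Type u) [Group G] [Finite G] (P : Sylow p G), Hyp G P →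
    centralizer ((pCore p G : Subgroup G) : Set G) ≤ pCore p G →
    (∀ (B : Subgroup G) [B.Normal], IsPGroup p B → IsPStableOn p B) →
    (∀ M : Subgroup G, (P : Subgroup G) ≤ M → M ≠ ⊤ → HasNormalPComplement p M) →
    (∀ N : Subgroup G, N.Normal → (Nat.card N).Coprime p → N = ⊥) →
    (∀ N : Subgroup G, N.Normal → N ⊔ (P : Subgroup G) ≠ ⊤ → N ≤ pCore p G) →
    HasNormalPComplement p G

/-- A dichotomy gives `p`-stability. -/
theorem isPStableOn_of_dichotomy {G : Type*} [Group G] [Finite G] (P : Sylow p G) {Q : Subgroup G} [hQn : Q.Normal]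
    (hQp : IsPGroup p Q) (B : Subgroup G) [hBn : B.Normal] (hBp : IsPGroup p B)
    (hdich : ∀ A : Subgroup G, A ≤ P → (∀ a ∈ A, ⁅⁅B, zpowers a⁆, zpowers a⁆ = ⊥) →
      A ≤ Q ∨ ∀ g : G, ∃ c ∈ centralizer (B : Set G), ∃ t ∈ (P : Subgroup G), g = c * t) :
    IsPStableOn p B := by
  classical
  intro a ha
  obtain ⟨b, c, rfl, hbc, ⟨k, hk⟩, hc, hb1, hc1⟩ := Cfsg.Agent.Lib.PGroups.exists_pPart p a
  have hzb : zpowers b ≤ zpowers (b * c) := by
    rw [Subgroup.zpowers_le]; exact hb1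
  have hzc : zpowers c ≤ zpowers (b * c) := by
    rw [Subgroup.zpowers_le]; exact hc1
  have hqb : ⁅⁅B, zpowers b⁆, zpowers b⁆ = ⊥ := by
    rw [eq_bot_iff, ← ha]
    exact Subgroup.commutator_mono (Subgroup.commutator_mono le_rfl hzb) hzb
  have hqc : ⁅⁅B, zpowers c⁆, zpowers c⁆ = ⊥ := by
    rw [eq_bot_iff, ← ha]
    exact Subgroup.commutator_mono (Subgroup.commutator_mono le_rfl hzc) hzc
  have hcC : c ∈ centralizer (B : Set G) := mem_centralizer_of_quadratic_of_coprime hBp hc hqc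
  have h4 : (QuotientGroup.mk (b * c) : G ⧸ centralizer (B : Set G)) = QuotientGroup.mk b := by
    rw [QuotientGroup.eq]
    have h5 : (b * c)⁻¹ * b = c⁻¹ := by
      rw [mul_inv_rev]
      group
    rw [h5]
    exact inv_mem hcC
  rw [h4]
  -- a conjugate of `b` in `P`
  have hA : IsPGroup p (zpowers b) := by
    rintro ⟨_, i, rfl⟩
    refine ⟨k, Subtype.ext ?_⟩
    show ((b ^ i) ^ p ^ k) = 1
    rw [← zpow_natCast, ← zpow_mul, mul_comm, zpow_mul, zpow_natCast, ← hk, pow_orderOf_eq_one, one_zpow]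
  obtain ⟨R, hR⟩ := hA.exists_le_sylow
  obtain ⟨g, hg⟩ := MulAction.exists_smul_eq G R P
  have hgb : ∀ x ∈ zpowers b, g * x * g⁻¹ ∈ (P : Subgroup G) := fun x hx => by
    rw [← hg]
    exact conj_mem_smul_sylow (hR hx)
  have hA' : zpowers (g * b * g⁻¹) ≤ (P : Subgroup G) := by
    rw [Subgroup.zpowers_le]
    exact hgb b (mem_zpowers b)
  have hquad : ∀ a' ∈ zpowers (g * b * g⁻¹), ⁅⁅B, zpowers a'⁆, zpowers a'⁆ = ⊥ := by
    intro a' ha'
    have h1 : ⁅⁅B, zpowers (g * b * g⁻¹)⁆, zpowers (g * b * g⁻¹)⁆ = ⊥ := quad_conj g hqb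
    have hz : zpowers a' ≤ zpowers (g * b * g⁻¹) := by rwa [Subgroup.zpowers_le]
    rw [eq_bot_iff, ← h1]
    exact Subgroup.commutator_mono (Subgroup.commutator_mono le_rfl hz) hz
  rcases hdich _ hA' hquad with h1 | h1
  · have h2 : g * b * g⁻¹ ∈ Q := h1 (mem_zpowers _)
    have h3 : b ∈ Q := by
      have := hQn.conj_mem _ h2 g⁻¹
      simpa [mul_assoc] using this
    have hle : Q.map (QuotientGroup.mk' (centralizer (B : Set G))) ≤ pCore p (G ⧸ centralizer (B : Set G)) :=
      Cfsg.Agent.Lib.Basic.le_pCore (hQn.map _ (QuotientGroup.mk'_surjective _)) (hQp.map _)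
    exact hle ⟨b, h3, rfl⟩
  · have hle : ((P : Subgroup G).map (QuotientGroup.mk' (centralizer (B : Set G)))) = ⊤ := by
      rw [eq_top_iff]
      intro x _
      obtain ⟨y, rfl⟩ := QuotientGroup.mk'_surjective _ x
      obtain ⟨c', hc', t, ht, rfl⟩ := h1 y
      refine ⟨t, ht, ?_⟩
      rw [map_mul, QuotientGroup.mk'_apply, QuotientGroup.mk'_apply,
        (QuotientGroup.eq_one_iff c').2 hc', one_mul]
    have htop : (⊤ : Subgroup (G ⧸ centralizer (B : Set G))) ≤ pCore p (G ⧸ centralizer (B : Set G)) := by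
      refine Cfsg.Agent.Lib.Basic.le_pCore inferInstance ?_
      rw [← hle]
      exact P.isPGroup'.map _
    exact htop trivial

theorem gt_abs (hp : p ≠ 2) {Hyp : ∀ (G : Type u) [Group G] [Finite G], Subgroup G → Prop} (hH : GTHyp p Hyp) :
    ∀ (n : ℕ) (G : Type u) [Group G] [Finite G] (P : Sylow p G), Hyp G P → Nat.card G = n →
    HasNormalPComplement p G := by
  intro n
  induction n using Nat.strong_induction_on with
  | _ n ih =>
  intro G _ _ P hN hn
  classical
  by_contra hnot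
  have hpp : p.Prime := Fact.out
  -- induction on subgroups
  have hIH : ∀ H : Subgroup G, H ≠ ⊤ → ∀ (T : Sylow p H), Hyp G ((T : Subgroup H).map H.subtype) →
      HasNormalPComplement p H := by
    intro H hne T hnpc
    have hcard : Nat.card H < n := hn ▸ Cfsg.Agent.Lib.OddLocal.card_lt_of_ne_top hne
    exact ih _ hcard H T (hH.sub G H T T.isPGroup' hnpc) rfl
  -- no normal `p'`-subgroups
  have hO : ∀ N : Subgroup G, N.Normal → (Nat.card N).Coprime p → N = ⊥ := by
    intro N hNn hNc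
    by_contra hne
    haveI := hNn
    apply hnot
    let f : G →* G ⧸ N := QuotientGroup.mk' N
    have hf : Function.Surjective f := QuotientGroup.mk'_surjective N
    have hker : f.ker = N := QuotientGroup.ker_mk' N
    have hkerc : (Nat.card f.ker).Coprime p := by rw [hker]; exact hNc
    have hcard : Nat.card (G ⧸ N) < n := hn ▸ card_quot_lt N hne
    have h1 := ih _ hcard (G ⧸ N) (P.mapSurjective hf) (by
      rw [Sylow.coe_mapSurjective]
      exact hH.quot G _ f hf hkerc _ P.isPGroup' hN) rfl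
    exact npc_of_ker f hf hkerc h1
  -- a maximal local
  obtain ⟨U₀, hU₀P, hU₀ne, hU₀bad⟩ := exists_bad_local P hnot
  let 𝒰 : Set (Subgroup G) := {U | U ≤ (P : Subgroup G) ∧ U ≠ ⊥ ∧
    ¬ HasNormalPComplement p (normalizer (U : Set G))}
  obtain ⟨U, ⟨hUP, hUne, hUbad⟩, hUmax⟩ := Set.exists_max_image 𝒰
    (fun U : Subgroup G => Nat.card (normalizer (U : Set G) ⊓ (P : Subgroup G) : Subgroup G))
    (Set.toFinite _) ⟨U₀, hU₀P, hU₀ne, hU₀bad⟩
  obtain ⟨H, hHdef⟩ : ∃ H : Subgroup G, H = normalizer (U : Set G) := ⟨_, rfl⟩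
  obtain ⟨S, hSdef⟩ : ∃ S : Subgroup G, S = H ⊓ (P : Subgroup G) := ⟨_, rfl⟩
  rw [← hHdef] at hUbad
  have hmax' : ∀ V ∈ 𝒰, Nat.card (normalizer (V : Set G) ⊓ (P : Subgroup G) : Subgroup G) ≤ Nat.card S := by
    intro V hV
    have h0 : Nat.card (normalizer (V : Set G) ⊓ (P : Subgroup G) : Subgroup G) ≤
        Nat.card (normalizer (U : Set G) ⊓ (P : Subgroup G) : Subgroup G) := hUmax V hV
    rw [← hHdef, ← hSdef] at h0
    exact h0
  have hSH : S ≤ H := hSdef ▸ inf_le_left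
  have hSP : S ≤ (P : Subgroup G) := hSdef ▸ inf_le_right
  have hSp : IsPGroup p S := P.isPGroup'.to_le hSP
  have hUS : U ≤ S := by
    rw [hSdef, hHdef]
    exact le_inf Subgroup.le_normalizer hUP
  obtain ⟨T₀, hT₀⟩ := (hSp.comap_subtype (K := H)).exists_le_sylow
  have hT₀map : (T₀ : Subgroup H).map H.subtype = S := by
    have hle : S ≤ (T₀ : Subgroup H).map H.subtype := fun x hx => ⟨⟨x, hSH hx⟩, hT₀ hx, rfl⟩
    have hT₁p : IsPGroup p ((T₀ : Subgroup H).map H.subtype) := T₀.isPGroup'.map _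
    obtain ⟨R, hR⟩ := hT₁p.exists_le_sylow
    obtain ⟨g, hg⟩ := MulAction.exists_smul_eq G R P
    have hconj : ∀ x ∈ (T₀ : Subgroup H).map H.subtype, g * x * g⁻¹ ∈ (P : Subgroup G) := fun x hx => by
      rw [← hg]; exact conj_mem_smul_sylow (hR hx)
    have hU'mem : U.map (MulAut.conj g).toMonoidHom ∈ 𝒰 := by
      refine ⟨?_, ?_, fun h => hUbad (hHdef ▸ npc_normalizer_conj g U h)⟩
      · rintro _ ⟨u, hu, rfl⟩
        exact hconj u (hle (hUS hu))
      · exact (Subgroup.map_eq_bot_iff_of_injective _ (MulEquiv.injective _)).not.2 hUne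
    have h3 := hmax' _ hU'mem
    have h4 : Nat.card ((T₀ : Subgroup H).map H.subtype : Subgroup G) ≤
        Nat.card (normalizer ((U.map (MulAut.conj g).toMonoidHom : Subgroup G) : Set G) ⊓ (P : Subgroup G) : Subgroup G) := by
      have h5 : ((T₀ : Subgroup H).map H.subtype).map (MulAut.conj g).toMonoidHom ≤
          normalizer ((U.map (MulAut.conj g).toMonoidHom : Subgroup G) : Set G) ⊓ (P : Subgroup G) := by
        rintro _ ⟨x, hx, rfl⟩
        refine ⟨?_, hconj x hx⟩
        obtain ⟨x', -, rfl⟩ := hx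
        have hx'N : (x' : G) ∈ normalizer (U : Set G) := hHdef ▸ x'.2
        apply Cfsg.Agent.Lib.PGroups.mem_normalizer_of_conj_le'
        rintro _ ⟨w, hw, rfl⟩
        refine ⟨(x' : G) * w * (x' : G)⁻¹, (mem_normalizer_iff.1 hx'N w).1 hw, ?_⟩
        simp
        group
      have h6 := Subgroup.card_le_of_le h5
      rwa [Subgroup.card_map_of_injective (MulEquiv.injective _)] at h6
    exact (Subgroup.eq_of_le_of_card_ge hle (h4.trans h3)).symm
  have hW : Hyp G S := by
    by_cases hSPeq : S = (P : Subgroup G)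
    · rw [hSPeq]; exact hN
    · have hSne : S ≠ ⊥ := fun h0 => hUne (le_bot_iff.1 (h0 ▸ hUS))
      refine hH.loc G P S hSP hSPeq hSne fun V hVP hVne hlt => ?_
      by_contra hbad
      exact absurd (hmax' V ⟨hVP, hVne, hbad⟩) (not_le.2 hlt)
  have hHtop : H = ⊤ := by
    by_contra hne
    exact hUbad (hIH H hne T₀ (by rw [hT₀map]; exact hW))
  have hUn : U.Normal := Subgroup.normalizer_eq_top_iff.1 (hHdef ▸ hHtop)
  -- proper overgroups of `P`
  have hIH₁ : ∀ M : Subgroup G, (P : Subgroup G) ≤ M → M ≠ ⊤ → HasNormalPComplement p M := by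
    intro M hPM hne
    refine hIH M hne (P.subtype hPM) ?_
    rw [Sylow.coe_subtype, Subgroup.subgroupOf_map_subtype, inf_eq_left.mpr hPM]
    exact hN
  obtain ⟨Q, hQdef⟩ : ∃ Q : Subgroup G, Q = pCore p G := ⟨_, rfl⟩
  have hQn : Q.Normal := hQdef ▸ Cfsg.Agent.Lib.Basic.pCore_normal (G := G) p
  have hQp : IsPGroup p Q := hQdef ▸ Cfsg.Agent.Lib.Basic.pCore_isPGroup (G := G) p
  have hQP : Q ≤ P := hQdef ▸ Cfsg.Agent.Lib.Basic.pCore_le_sylow P
  have hQmax : ∀ N : Subgroup G, N.Normal → IsPGroup p N → N ≤ Q := fun N h1 h2 =>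
    hQdef ▸ Cfsg.Agent.Lib.Basic.le_pCore h1 h2
  have hQne : Q ≠ ⊥ := by
    intro h0
    have := hQmax U hUn (P.isPGroup'.to_le hUP)
    rw [h0] at this
    exact hUne (le_bot_iff.1 this)
  have hNQ : ∀ N : Subgroup G, N.Normal → HasNormalPComplement p N → N ≤ Q := by
    intro N hNn h
    obtain ⟨L, hLn, hLc, hLN, k, hk⟩ := exists_normal_pPrime_of_npc hNn h
    have hL := hO L hLn hLc
    rw [hL] at hk
    simp only [Subgroup.card_bot, one_mul] at hk
    exact hQmax N hNn (IsPGroup.of_card hk)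
  have hstar : ∀ N : Subgroup G, N.Normal → N ⊔ (P : Subgroup G) ≠ ⊤ → N ≤ Q := fun N hNn hne =>
    hNQ N hNn (npc_of_le le_sup_left (hIH₁ _ le_sup_right hne))
  have hDQ : ¬ (P : Subgroup G) ≤ Q := by
    intro hle
    have hPQ : (P : Subgroup G) = Q := le_antisymm hle hQP
    exact hnot (hH.normal G P hN (by rw [hPQ]; exact hQn))
  -- the quotient by `Q`
  haveI := hQn
  let f : G →* G ⧸ Q := QuotientGroup.mk' Q
  have hf : Function.Surjective f := QuotientGroup.mk'_surjective Q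
  have hker : ∀ x : G, f x = 1 ↔ x ∈ Q := fun x => QuotientGroup.eq_one_iff x
  have hkerQ : f.ker = Q := QuotientGroup.ker_mk' Q
  obtain ⟨Phat, hPhat⟩ : ∃ Phat : Sylow p (G ⧸ Q), (Phat : Subgroup (G ⧸ Q)) = (P : Subgroup G).map f :=
    ⟨P.mapSurjective hf, Sylow.coe_mapSurjective _ _⟩
  have hOhat : ∀ N : Subgroup (G ⧸ Q), N.Normal → IsPGroup p N → N = ⊥ := by
    intro N hNn hNp
    have h1 : IsPGroup p (N.comap f) := hNp.comap_of_ker_isPGroup f (by rw [hkerQ]; exact hQp)
    have h2 : (N.comap f).Normal := hNn.comap f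
    have h3 := hQmax _ h2 h1
    rw [eq_bot_iff]
    intro x hx
    obtain ⟨g, rfl⟩ := hf x
    exact (hker g).2 (h3 (show g ∈ N.comap f from hx))
  have hPhne : (P : Subgroup G).map f ≠ ⊥ := by
    intro h0
    apply hDQ
    intro x hx
    have : f x ∈ (P : Subgroup G).map f := ⟨x, hx, rfl⟩
    rw [h0] at this
    exact (hker x).1 (Subgroup.mem_bot.1 this)
  have hGhat : HasNormalPComplement p (G ⧸ Q) := by
    have hcard : Nat.card (G ⧸ Q) < n := hn ▸ card_quot_lt Q hQne
    refine ih _ hcard (G ⧸ Q) (P.mapSurjective hf) ?_ rfl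
    rw [Sylow.coe_mapSurjective]
    exact hH.overq G P Q hQP hIH₁ hOhat hPhne
  obtain ⟨K, hKn, hKc, j, hKj⟩ := exists_hall_of_hasNormalPComplement hGhat
  haveI := hKn
  have hKmem : ∀ x : G ⧸ Q, x ∈ K ↔ Nat.Coprime (orderOf x) p := fun x =>
    mem_iff_coprime_of_hall hKc hKj x
  have hcompl := isComplement'_of_hall Phat hKc hKj
  have hKsup : K ⊔ (Phat : Subgroup (G ⧸ Q)) = ⊤ := hcompl.sup_eq_top
  -- `p`-elements of `K` are trivial
  have hKp : ∀ x ∈ K, ∀ m : ℕ, x ^ p ^ m = 1 → x = 1 := by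
    intro x hx m hm
    have h1 := (hKmem x).1 hx
    exact orderOf_eq_one_iff.1 (Nat.eq_one_of_dvd_coprimes (h1.pow_right m) dvd_rfl (orderOf_dvd_of_pow_eq_one hm))
  have hKPhat : ∀ x ∈ K, x ∈ (Phat : Subgroup (G ⧸ Q)) → x = 1 := by
    intro x hx hxP
    obtain ⟨m, hm⟩ := Phat.isPGroup' ⟨x, hxP⟩
    exact hKp x hx m (congrArg Subtype.val hm)
  -- `C(Q) ≤ Q`
  have hN₁ : centralizer (Q : Set G) ⊓ K.comap f ≤ Q := by
    apply hNQ
    · haveI : (K.comap f).Normal := hKn.comap f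
      infer_instance
    apply hasNormalPComplement_of_stable
    intro D' hD'p g hg hgc
    rw [mem_centralizer_iff]
    intro d hd
    have h1 : f (d : G) ∈ K := (d : G) |> fun _ => d.2.2
    obtain ⟨m, hm⟩ := hD'p ⟨d, hd⟩
    have h2 : (d : G) ^ p ^ m = 1 := congrArg (fun x : D' => ((x : _) : G)) hm
    have h3 : f (d : G) = 1 := hKp _ h1 m (by rw [← map_pow, h2, map_one])
    have h4 : (d : G) ∈ Q := (hker _).1 h3
    have h5 := mem_centralizer_iff.1 g.2.1 (d : G) h4
    exact Subtype.ext h5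
  have hCQ : centralizer (Q : Set G) ≤ Q := by
    apply hQmax _ inferInstance
    rintro ⟨c, hc⟩
    obtain ⟨a, b, hab, hcomm, ⟨k, hk⟩, hb, haz, hbz⟩ := Cfsg.Agent.Lib.PGroups.exists_pPart p c
    have hbC : b ∈ centralizer (Q : Set G) := (zpowers_le.2 hc) hbz
    have hbcop : Nat.Coprime (orderOf b) p := by
      rw [Nat.coprime_comm, hpp.coprime_iff_not_dvd]; exact hb
    have hbK : f b ∈ K := (hKmem _).2 (Nat.Coprime.coprime_dvd_left (orderOf_map_dvd f b) hbcop)
    have hbQ : b ∈ Q := hN₁ ⟨hbC, hbK⟩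
    have hb1 : b = 1 := by
      obtain ⟨m, hm⟩ := hQp ⟨b, hbQ⟩
      have h2 : b ^ p ^ m = 1 := congrArg Subtype.val hm
      exact orderOf_eq_one_iff.1 (Nat.eq_one_of_dvd_coprimes (hbcop.pow_right m) dvd_rfl (orderOf_dvd_of_pow_eq_one h2))
    refine ⟨k, Subtype.ext ?_⟩
    show c ^ p ^ k = 1
    rw [hab, hb1, mul_one, ← hk]
    exact pow_orderOf_eq_one a
  -- `P`-invariant subgroups of `K`
  have hF1 : ∀ L : Subgroup (G ⧸ Q), L ≤ K → (Phat : Subgroup (G ⧸ Q)) ≤ normalizer (L : Set (G ⧸ Q)) →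
      L = ⊥ ∨ L = K := by
    intro L hLK hPL
    by_cases hLeq : L = K
    · exact Or.inr hLeq
    left
    obtain ⟨M, hMdef⟩ : ∃ M : Subgroup G, M = (L ⊔ (Phat : Subgroup (G ⧸ Q))).comap f := ⟨_, rfl⟩
    have hPM : (P : Subgroup G) ≤ M := fun t ht => by
      rw [hMdef]
      apply (le_sup_right : (Phat : Subgroup (G ⧸ Q)) ≤ L ⊔ Phat)
      rw [hPhat]
      exact ⟨t, ht, rfl⟩
    have hsup : L ⊔ (Phat : Subgroup (G ⧸ Q)) ≠ ⊤ := by
      intro htop
      apply hLeq
      apply le_antisymm hLK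
      intro x hxK
      have hx : x ∈ L ⊔ (Phat : Subgroup (G ⧸ Q)) := htop ▸ mem_top x
      obtain ⟨l, hl, t, ht, rfl⟩ := (Cfsg.Agent.Lib.Coprime.mem_sup_iff_of_le_normalizer hPL x).1 hx
      have htK : t ∈ K := by
        have := K.mul_mem (K.inv_mem (hLK hl)) hxK
        simpa using this
      rw [hKPhat t htK ht, mul_one]
      exact hl
    have hMne : M ≠ ⊤ := by
      intro hM
      apply hsup
      rw [eq_top_iff]
      intro x _
      obtain ⟨g, rfl⟩ := hf x
      have : g ∈ M := hM ▸ mem_top g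
      rw [hMdef] at this
      exact this
    have hMnpc := hIH₁ M hPM hMne
    obtain ⟨L', hL'def⟩ : ∃ L' : Subgroup G, L' = L.comap f := ⟨_, rfl⟩
    have hLM : L' ≤ M := by
      rw [hL'def, hMdef]
      exact Subgroup.comap_mono le_sup_left
    have hLnpc : HasNormalPComplement p L' := npc_of_le hLM hMnpc
    obtain ⟨L₀, hL₀n, hL₀c, k, hk⟩ := exists_hall_of_hasNormalPComplement hLnpc
    haveI := hL₀n
    have hQL : Q ≤ L' := by
      intro x hx
      rw [hL'def]
      show f x ∈ L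
      rw [(hker x).2 hx]
      exact L.one_mem
    have hL₀pp : ∀ w ∈ L₀, ∀ m : ℕ, w ^ p ^ m = 1 → w = 1 := by
      intro w hw m hm
      have h1 : orderOf w ∣ Nat.card L₀ := by
        have := orderOf_dvd_natCard (⟨w, hw⟩ : L₀)
        rwa [Subgroup.orderOf_mk] at this
      exact orderOf_eq_one_iff.1 (Nat.eq_one_of_dvd_coprimes (hL₀c.pow_right m) h1 (orderOf_dvd_of_pow_eq_one hm))
    have hL₀Q : ∀ w ∈ L₀, (w : G) ∈ centralizer (Q : Set G) := by
      intro w hw
      rw [mem_centralizer_iff]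
      intro q hq
      let q' : L' := ⟨q, hQL hq⟩
      have h1 : w * q' * w⁻¹ * q'⁻¹ ∈ L₀ := by
        have e1 : w * q' * w⁻¹ * q'⁻¹ = w * (q' * w⁻¹ * q'⁻¹) := by group
        rw [e1]
        exact L₀.mul_mem hw (hL₀n.conj_mem _ (L₀.inv_mem hw) q')
      have h2 : ((w * q' * w⁻¹ * q'⁻¹ : L') : G) ∈ Q :=
        Q.mul_mem (hQn.conj_mem q hq (w : G)) (Q.inv_mem hq)
      obtain ⟨m, hm⟩ := hQp ⟨_, h2⟩
      have h3 : (w * q' * w⁻¹ * q'⁻¹) ^ p ^ m = 1 := by
        have h6 : ((w * q' * w⁻¹ * q'⁻¹ : L') : G) ^ p ^ m = 1 := congrArg Subtype.val hm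
        exact Subtype.ext (by rw [Subgroup.coe_pow]; exact h6)
      have h4 := hL₀pp _ h1 m h3
      have h5 : (w : G) * q * (w : G)⁻¹ * q⁻¹ = 1 := congrArg Subtype.val h4
      rw [mul_inv_eq_one, mul_inv_eq_iff_eq_mul] at h5
      exact h5.symm
    have hL₀bot : L₀ = ⊥ := by
      rw [eq_bot_iff]
      intro w hw
      have h1 : (w : G) ∈ Q := hCQ (hL₀Q w hw)
      obtain ⟨m, hm⟩ := hQp ⟨_, h1⟩
      have h3 : w ^ p ^ m = 1 := by
        have h6 : (w : G) ^ p ^ m = 1 := congrArg Subtype.val hm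
        exact Subtype.ext (by rw [Subgroup.coe_pow]; exact h6)
      exact hL₀pp w hw m h3
    have hLp : IsPGroup p L' := by
      have h1 := Subgroup.card_mul_index L₀
      rw [hL₀bot] at h1 hk
      simp only [Subgroup.card_bot, one_mul] at h1
      rw [hk] at h1
      exact IsPGroup.of_card h1.symm
    rw [eq_bot_iff]
    intro x hx
    obtain ⟨g, rfl⟩ := hf x
    have hg : g ∈ L' := by rw [hL'def]; exact hx
    obtain ⟨m, hm⟩ := hLp ⟨g, hg⟩
    have h2 : g ^ p ^ m = 1 := congrArg Subtype.val hm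
    exact Subgroup.mem_bot.2 (hKp _ (hLK hx) m (by rw [← map_pow, h2, map_one]))
  -- dichotomy on the order of `K`
  have hF2 : Odd (Nat.card K) ∨ ∀ x ∈ K, x * x = 1 := by
    by_cases hodd : Odd (Nat.card K)
    · exact Or.inl hodd
    right
    have h2dvd : 2 ∣ Nat.card K := even_iff_two_dvd.1 (Nat.not_odd_iff_even.1 hodd)
    haveI : Fact (Nat.Prime 2) := ⟨Nat.prime_two⟩
    have hPK : (Phat : Subgroup (G ⧸ Q)) ≤ normalizer (K : Set (G ⧸ Q)) := by
      rw [Subgroup.normalizer_eq_top_iff.2 hKn]; exact le_top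
    have hcop : (Nat.card (Phat : Subgroup (G ⧸ Q))).Coprime (Nat.card K) := by
      obtain ⟨k, hk⟩ := IsPGroup.iff_card.1 Phat.isPGroup'
      rw [hk]
      exact (hKc.symm).pow_left k
    have hsolv : Group.IsSolvable (Phat : Subgroup (G ⧸ Q)) :=
      haveI := Phat.isPGroup'.isNilpotent
      inferInstance
    obtain ⟨R, hR⟩ := Cfsg.Agent.Lib.Basic.exists_invariant_sylow hPK hcop (Or.inl hsolv) 2
    have hRle : (R : Subgroup K).map K.subtype ≤ K := Subgroup.map_subtype_le _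
    have hRne : (R : Subgroup K).map K.subtype ≠ ⊥ := by
      intro h0
      rw [Subgroup.map_eq_bot_iff_of_injective _ K.subtype_injective] at h0
      exact R.ne_bot_of_dvd_card h2dvd h0
    have hReq : (R : Subgroup K).map K.subtype = K := (hF1 _ hRle hR).resolve_left hRne
    have hK2 : IsPGroup 2 K := by
      intro x
      have hx : (x : G ⧸ Q) ∈ (R : Subgroup K).map K.subtype := by rw [hReq]; exact x.2
      obtain ⟨r, hr, hrx⟩ := hx
      obtain ⟨m, hm⟩ := R.isPGroup' ⟨r, hr⟩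
      refine ⟨m, Subtype.ext ?_⟩
      have h3 : r ^ 2 ^ m = 1 := congrArg Subtype.val hm
      have h4 : r = x := Subtype.ext hrx
      rw [← h4, h3]
    have hKnt : Nontrivial K := by
      rw [← Finite.one_lt_card_iff_nontrivial]
      have : Nat.card K ≠ 0 := Nat.card_pos.ne'
      have := Nat.le_of_dvd Nat.card_pos h2dvd
      omega
    -- the centre
    have hC₀ : (center K).map K.subtype = K := by
      refine (hF1 _ (Subgroup.map_subtype_le _) ?_).resolve_left ?_
      · intro t ht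
        apply Cfsg.Agent.Lib.PGroups.mem_normalizer_of_conj_le'
        rintro _ ⟨z, hz, rfl⟩
        refine ⟨⟨t * z * t⁻¹, hKn.conj_mem _ z.2 t⟩, ?_, rfl⟩
        refine Subgroup.mem_center_iff.2 (fun y => ?_)
        apply Subtype.ext
        show (y : G ⧸ Q) * (t * z * t⁻¹) = t * z * t⁻¹ * y
        have h3 := (Subgroup.mem_center_iff.1 hz) ⟨t⁻¹ * y * t⁻¹⁻¹, hKn.conj_mem _ y.2 t⁻¹⟩
        have h4 : (t⁻¹ * (y : G ⧸ Q) * t⁻¹⁻¹) * z = z * (t⁻¹ * (y : G ⧸ Q) * t⁻¹⁻¹) := congrArg Subtype.val h3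
        calc (y : G ⧸ Q) * (t * z * t⁻¹) = t * ((t⁻¹ * (y : G ⧸ Q) * t⁻¹⁻¹) * z) * t⁻¹ := by group
          _ = t * (z * (t⁻¹ * (y : G ⧸ Q) * t⁻¹⁻¹)) * t⁻¹ := by rw [h4]
          _ = _ := by group
      · intro h0
        rw [Subgroup.map_eq_bot_iff_of_injective _ K.subtype_injective] at h0
        exact ((Subgroup.nontrivial_iff_ne_bot _).1 hK2.center_nontrivial) h0
    have hKab : ∀ x ∈ K, ∀ y ∈ K, x * y = y * x := by
      intro x hx y hy
      have hx' : x ∈ (center K).map K.subtype := by rw [hC₀]; exact hx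
      obtain ⟨z, hz, rfl⟩ := hx'
      have h3 := (Subgroup.mem_center_iff.1 hz) ⟨y, hy⟩
      exact (congrArg Subtype.val h3).symm
    -- the involutions
    let E : Subgroup (G ⧸ Q) :=
      { carrier := {x | x ∈ K ∧ x * x = 1}
        mul_mem' := by
          rintro a b ⟨ha, ha2⟩ ⟨hb, hb2⟩
          refine ⟨K.mul_mem ha hb, ?_⟩
          calc a * b * (a * b) = a * (b * a) * b := by group
            _ = a * (a * b) * b := by rw [hKab b hb a ha]
            _ = (a * a) * (b * b) := by group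
            _ = 1 := by rw [ha2, hb2, one_mul]
        one_mem' := ⟨K.one_mem, by simp⟩
        inv_mem' := by
          rintro a ⟨ha, ha2⟩
          refine ⟨K.inv_mem ha, ?_⟩
          rw [← mul_inv_rev, ha2, inv_one] }
    have hE : E = K := by
      refine (hF1 E (fun x hx => hx.1) ?_).resolve_left ?_
      · intro t ht
        apply Cfsg.Agent.Lib.PGroups.mem_normalizer_of_conj_le'
        rintro x ⟨hx, hx2⟩
        refine ⟨hKn.conj_mem _ hx t, ?_⟩
        calc t * x * t⁻¹ * (t * x * t⁻¹) = t * (x * x) * t⁻¹ := by group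
          _ = 1 := by rw [hx2]; group
      · obtain ⟨x, hx⟩ := exists_prime_orderOf_dvd_card' 2 h2dvd
        intro h0
        have hxE : (x : G ⧸ Q) ∈ E := by
          refine ⟨x.2, ?_⟩
          have h3 := pow_orderOf_eq_one x
          rw [hx, pow_two] at h3
          exact congrArg Subtype.val h3
        rw [h0] at hxE
        have h4 : x = 1 := Subtype.ext (Subgroup.mem_bot.1 hxE)
        rw [h4, orderOf_one] at hx
        omega
    intro x hx
    rw [← hE] at hx
    exact hx.2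
  -- elements of `P̄` commuting with `K` are trivial
  have hclaim1 : ∀ a ∈ (Phat : Subgroup (G ⧸ Q)), (∀ y ∈ K, a * (y * a * y⁻¹)⁻¹ = 1) → a = 1 := by
    intro a ha hcomm
    obtain ⟨T, hTdef⟩ : ∃ T : Subgroup (G ⧸ Q), T = (Phat : Subgroup (G ⧸ Q)) ⊓ centralizer (K : Set (G ⧸ Q)) := ⟨_, rfl⟩
    have hTn : T.Normal := by
      constructor
      intro x hx g
      rw [hTdef] at hx ⊢
      have hg : g ∈ K ⊔ (Phat : Subgroup (G ⧸ Q)) := hKsup ▸ mem_top g
      have hPK : (Phat : Subgroup (G ⧸ Q)) ≤ normalizer (K : Set (G ⧸ Q)) := by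
        rw [Subgroup.normalizer_eq_top_iff.2 hKn]; exact le_top
      obtain ⟨k, hk, t, ht, rfl⟩ := (Cfsg.Agent.Lib.Coprime.mem_sup_iff_of_le_normalizer hPK g).1 hg
      have h1 : t * x * t⁻¹ ∈ (Phat : Subgroup (G ⧸ Q)) := Phat.mul_mem (Phat.mul_mem ht hx.1) (Phat.inv_mem ht)
      have h2 : t * x * t⁻¹ ∈ centralizer (K : Set (G ⧸ Q)) := (Subgroup.normal_centralizer (H := K)).conj_mem x hx.2 t
      have h3 := mem_centralizer_iff.1 h2 k hk
      have e1 : k * t * x * (k * t)⁻¹ = t * x * t⁻¹ := by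
        calc k * t * x * (k * t)⁻¹ = k * (t * x * t⁻¹) * k⁻¹ := by group
          _ = (t * x * t⁻¹) * k * k⁻¹ := by rw [h3]
          _ = _ := by group
      rw [e1]
      exact ⟨h1, h2⟩
    have hTp : IsPGroup p T := Phat.isPGroup'.to_le (hTdef ▸ inf_le_left)
    have hT := hOhat T hTn hTp
    have haT : a ∈ T := by
      rw [hTdef]
      refine ⟨ha, mem_centralizer_iff.2 (fun y hy => ?_)⟩
      have h1 := hcomm y hy
      rw [mul_inv_eq_one] at h1
      calc y * a = (y * a * y⁻¹) * y := by group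
        _ = a * y := by rw [← h1]
    rw [hT] at haT
    exact Subgroup.mem_bot.1 haT
  -- the main dichotomy
  have hdich : ∀ B : Subgroup G, B.Normal → IsPGroup p B → ∀ A : Subgroup G, A ≤ P →
      (∀ a ∈ A, ⁅⁅B, zpowers a⁆, zpowers a⁆ = ⊥) →
      A ≤ Q ∨ ∀ g : G, ∃ c ∈ centralizer (B : Set G), ∃ t ∈ (P : Subgroup G), g = c * t := by
    intro B hBn hBp A hAP hq
    haveI := hBn
    have hCBn : (centralizer (B : Set G)).Normal := inferInstance
    by_cases hs : centralizer (B : Set G) ⊔ (P : Subgroup G) = ⊤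
    · right
      intro g
      have hg : g ∈ centralizer (B : Set G) ⊔ (P : Subgroup G) := hs ▸ mem_top g
      have hPC : (P : Subgroup G) ≤ normalizer ((centralizer (B : Set G) : Subgroup G) : Set G) := by
        rw [Subgroup.normalizer_eq_top_iff.2 hCBn]; exact le_top
      exact (Cfsg.Agent.Lib.Coprime.mem_sup_iff_of_le_normalizer hPC g).1 hg
    left
    have hCB : centralizer (B : Set G) ≤ Q := hstar _ hCBn hs
    have hBQ : B ≤ Q := hQmax B hBn hBp
    intro a ha
    by_contra haQ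
    have hquad : ∀ a ∈ A, ∀ v ∈ B, ⁅⁅v, a⁆, a⁆ = 1 := by
      intro a ha v hv
      have h1 := Subgroup.commutator_mem_commutator
        (Subgroup.commutator_mem_commutator hv (mem_zpowers a)) (mem_zpowers a)
      rw [hq a ha] at h1
      exact Subgroup.mem_bot.1 h1
    have hfa : f a ≠ 1 := fun h => haQ ((hker a).1 h)
    have hfaP : f a ∈ (Phat : Subgroup (G ⧸ Q)) := by
      rw [hPhat]; exact ⟨a, hAP ha, rfl⟩
    obtain ⟨yh, hyK, hyne⟩ : ∃ y ∈ K, f a * (y * f a * y⁻¹)⁻¹ ≠ 1 := by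
      by_contra hcon
      push Not at hcon
      exact hfa (hclaim1 _ hfaP hcon)
    obtain ⟨y, rfl⟩ := hf yh
    obtain ⟨b, hbdef⟩ : ∃ b : G, b = y * a * y⁻¹ := ⟨_, rfl⟩
    have hfc : f (a * b⁻¹) = f a * (f y * f a * (f y)⁻¹)⁻¹ := by
      rw [hbdef]; simp [map_mul, map_inv]
    rw [← hfc] at hyne
    have hcK : f (a * b⁻¹) ∈ K := by
      have e1 : a * b⁻¹ = (a * y * a⁻¹) * y⁻¹ := by rw [hbdef]; group
      rw [e1, map_mul, map_mul, map_mul, map_inv, map_inv]
      exact K.mul_mem (hKn.conj_mem _ hyK _) (K.inv_mem hyK)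
    have hqa := hquad a ha
    have hqb : ∀ v ∈ B, ⁅⁅v, b⁆, b⁆ = 1 := by
      intro v hv
      have h1 := hqa (y⁻¹ * v * y⁻¹⁻¹) (hBn.conj_mem v hv y⁻¹)
      have e1 : ⁅⁅v, b⁆, b⁆ = y * ⁅⁅y⁻¹ * v * y⁻¹⁻¹, a⁆, a⁆ * y⁻¹ := by
        rw [hbdef]
        simp only [commutatorElement_def]
        group
      rw [e1, h1]
      group
    rcases hF2 with hodd | hsq
    · exfalso
      obtain ⟨Y, hYdef⟩ : ∃ Y : Subgroup G, Y = K.comap f := ⟨_, rfl⟩
      have hYn : Y.Normal := hYdef ▸ hKn.comap f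
      haveI := hYn
      have hQY : Q ≤ Y := by
        intro x hx
        rw [hYdef]
        show f x ∈ K
        rw [(hker x).2 hx]
        exact K.one_mem
      have hYK : ∀ z ∈ Y, f z ∈ K := by
        intro z hz
        rw [hYdef] at hz
        exact hz
      have hYodd : ¬ 2 ∣ Nat.card Y := by
        intro hd
        haveI : Fact (Nat.Prime 2) := ⟨Nat.prime_two⟩
        obtain ⟨x, hx⟩ := exists_prime_orderOf_dvd_card' 2 hd
        have hx2 : (x : G) ^ 2 = 1 := by
          have h3 := pow_orderOf_eq_one x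
          rw [hx] at h3
          exact congrArg Subtype.val h3
        have hx1 : f (x : G) ∈ K := hYK _ x.2
        have h2 : f (x : G) = 1 := by
          have h3 : orderOf (f (x : G)) ∣ 2 := orderOf_dvd_of_pow_eq_one (by rw [← map_pow, hx2, map_one])
          have h4 : orderOf (f (x : G)) ∣ Nat.card K := by
            have := orderOf_dvd_natCard (⟨f (x : G), hx1⟩ : K)
            rwa [Subgroup.orderOf_mk] at this
          have hc2 : Nat.Coprime (Nat.card K) 2 := (Nat.coprime_two_right).2 hodd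
          exact orderOf_eq_one_iff.1 (Nat.eq_one_of_dvd_coprimes hc2 h4 h3)
        have h3 : (x : G) ∈ Q := (hker _).1 h2
        obtain ⟨m, hm⟩ := hQp ⟨_, h3⟩
        have h4 : (x : G) ^ p ^ m = 1 := congrArg Subtype.val hm
        have h5 : orderOf x = orderOf (x : G) := (Subgroup.orderOf_coe x).symm
        have h6 : 2 ∣ p ^ m := by
          rw [← hx, h5]
          exact orderOf_dvd_of_pow_eq_one h4
        have h7 : 2 ∣ p := Nat.prime_two.dvd_of_dvd_pow h6
        exact hp ((Nat.prime_dvd_prime_iff_eq Nat.prime_two hpp).1 h7).symm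
      obtain ⟨X, hXdef⟩ : ∃ X : Subgroup G, X = Y ⊔ zpowers a := ⟨_, rfl⟩
      have haX : a ∈ X := by rw [hXdef]; exact (le_sup_right : zpowers a ≤ Y ⊔ zpowers a) (mem_zpowers a)
      have hYX : Y ≤ X := hXdef ▸ le_sup_left
      have hXodd : Odd (Nat.card X) := by
        rw [← Nat.not_even_iff_odd, even_iff_two_dvd]
        intro hd
        have h1 := card_mul_relIndex_of_le hYX
        have h2 : Y.relIndex X = Y.relIndex (zpowers a) := by
          rw [hXdef]; exact Subgroup.relIndex_sup_left _ _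
        have h3 : Y.relIndex (zpowers a) ∣ Nat.card (zpowers a) := Subgroup.index_dvd_card _
        rw [Nat.card_zpowers] at h3
        obtain ⟨m, hm⟩ := P.isPGroup' ⟨a, hAP ha⟩
        have h4 : a ^ p ^ m = 1 := congrArg Subtype.val hm
        have h5 : orderOf a ∣ p ^ m := orderOf_dvd_of_pow_eq_one h4
        rw [← h1, h2] at hd
        rcases (Nat.Prime.dvd_mul Nat.prime_two).1 hd with h6 | h6
        · exact hYodd h6
        · have h7 : 2 ∣ p := Nat.prime_two.dvd_of_dvd_pow ((h6.trans h3).trans h5)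
          exact hp ((Nat.prime_dvd_prime_iff_eq Nat.prime_two hpp).1 h7).symm
      have hyX : y ∈ X := hYX (by rw [hYdef]; exact hyK)
      have hBX : B ≤ X := hBQ.trans (hQY.trans hYX)
      haveI : (B.subgroupOf X).Normal := hBn.subgroupOf X
      haveI hCn : ((centralizer (B : Set G)).subgroupOf X).Normal := hCBn.subgroupOf X
      have hC : ∀ g : X, (∀ w ∈ B.subgroupOf X, g * w = w * g) → g ∈ (centralizer (B : Set G)).subgroupOf X := by
        intro g hg
        rw [Subgroup.mem_subgroupOf, mem_centralizer_iff]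
        intro w hw
        have := hg ⟨w, hBX hw⟩ hw
        exact (congrArg Subtype.val this).symm
      have hA' : zpowers (⟨a, haX⟩ : X) ≤ A.subgroupOf X := zpowers_le.2 ha
      have hquadX : ∀ a' ∈ zpowers (⟨a, haX⟩ : X), ∀ w ∈ B.subgroupOf X, Commute ⁅w, a'⁆ a' := by
        intro a' ha' w hw
        have h1 := hquad (a' : G) (hA' ha') w hw
        rw [← commutatorElement_eq_one_iff_commute]
        exact Subtype.ext h1
      have hAp : IsPGroup p (zpowers (⟨a, haX⟩ : X)) :=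
        (P.isPGroup'.comap_subtype (K := X)).to_le (zpowers_le.2 (hAP ha))
      have key := Cfsg.Agent.Lib.OddLocal.pstable_normal hp hXodd (B.subgroupOf X) hBp.comap_subtype
        ((centralizer (B : Set G)).subgroupOf X) hC (zpowers ⟨a, haX⟩) hquadX hAp
      have h1 : (QuotientGroup.mk' _ (⟨a, haX⟩ : X)) ∈ pCore p (X ⧸ (centralizer (B : Set G)).subgroupOf X) :=
        key ⟨⟨a, haX⟩, mem_zpowers _, rfl⟩
      have hcore := Cfsg.Agent.Lib.Basic.pCore_normal (G := X ⧸ (centralizer (B : Set G)).subgroupOf X) p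
      have hbX : b ∈ X := by
        rw [hbdef]; exact X.mul_mem (X.mul_mem hyX haX) (X.inv_mem hyX)
      have h2 : (QuotientGroup.mk' _ (⟨b, hbX⟩ : X)) ∈ pCore p (X ⧸ (centralizer (B : Set G)).subgroupOf X) := by
        have h3 := hcore.conj_mem _ h1 (QuotientGroup.mk' _ (⟨y, hyX⟩ : X))
        have e1 : (⟨b, hbX⟩ : X) = ⟨y, hyX⟩ * ⟨a, haX⟩ * (⟨y, hyX⟩ : X)⁻¹ := Subtype.ext hbdef
        rw [e1, map_mul, map_mul, map_inv]
        exact h3
      have h3 : (QuotientGroup.mk' _ ((⟨a, haX⟩ : X) * (⟨b, hbX⟩ : X)⁻¹)) ∈ pCore p (X ⧸ (centralizer (B : Set G)).subgroupOf X) := by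
        rw [map_mul, map_inv]
        exact mul_mem h1 (inv_mem h2)
      obtain ⟨m, hm⟩ := Cfsg.Agent.Lib.Basic.pCore_isPGroup (G := X ⧸ (centralizer (B : Set G)).subgroupOf X) p ⟨_, h3⟩
      have h4 : (QuotientGroup.mk' ((centralizer (B : Set G)).subgroupOf X) ((⟨a, haX⟩ : X) * (⟨b, hbX⟩ : X)⁻¹)) ^ p ^ m = 1 :=
        congrArg Subtype.val hm
      rw [← map_pow] at h4
      have h5 := (QuotientGroup.eq_one_iff _).1 h4
      rw [Subgroup.mem_subgroupOf] at h5
      have h7 : (a * b⁻¹) ^ p ^ m ∈ Q := hCB h5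
      apply hyne
      refine hKp _ hcK m ?_
      rw [← map_pow]
      exact (hker _).2 h7
    · have hc2 : (a * b⁻¹) * (a * b⁻¹) ∈ Q := (hker _).1 (by rw [map_mul]; exact hsq _ hcK)
      obtain ⟨u, w, huw, hcomm, ⟨k, hk⟩, hw, huz, hwz⟩ := Cfsg.Agent.Lib.PGroups.exists_pPart p (a * b⁻¹)
      obtain ⟨n', hn'⟩ := mem_powers_iff_mem_zpowers.2 hwz
      have hwcop : Nat.Coprime (orderOf w) p := by
        rw [Nat.coprime_comm, hpp.coprime_iff_not_dvd]; exact hw
      have hwC := pprime_centralizes hp hQn hQp hBn hBQ a b hqa hqb hc2 n' (by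
        show Nat.Coprime (orderOf ((a * b⁻¹) ^ n')) p
        rw [show (a * b⁻¹) ^ n' = w from hn']
        exact hwcop)
      rw [show (a * b⁻¹) ^ n' = w from hn'] at hwC
      have hwQ := hCB hwC
      have hw1 : w = 1 := by
        obtain ⟨m, hm⟩ := hQp ⟨w, hwQ⟩
        have h2 : w ^ p ^ m = 1 := congrArg Subtype.val hm
        exact orderOf_eq_one_iff.1 (Nat.eq_one_of_dvd_coprimes (hwcop.pow_right m) dvd_rfl (orderOf_dvd_of_pow_eq_one h2))
      apply hyne
      refine hKp _ hcK k ?_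
      rw [← map_pow, huw, hw1, mul_one, ← hk, pow_orderOf_eq_one, map_one]
  have hst : ∀ (B : Subgroup G) [B.Normal], IsPGroup p B → IsPStableOn p B := fun B hBn hBp =>
    isPStableOn_of_dichotomy P hQp B hBp (hdich B hBn hBp)
  have hCQ' : centralizer ((pCore p G : Subgroup G) : Set G) ≤ pCore p G := by
    rw [← hQdef]; exact hCQ
  exact hnot (hH.final G P hN hCQ' hst hIH₁ hO (fun N hNn hne => by rw [← hQdef]; exact hstar N hNn hne))

end Cfsg.Agent.Lib.PLocal
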