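import Cfsg.Agent.Lib.PLocal.GTFun
import Cfsg.Agent.Lib.PLocal.WS2
import Cfsg.Agent.Lib.PLocal.Timmesfeld

/-! Thompson's normal `p`-complement theorem: `N_G(J(P))` and `C_G(Z(P))` decide `p`-nilpotence, `p` odd. -/

set_option autoImplicit false
set_option linter.unusedSectionVars false
set_option linter.style.haveILetI false

namespace Cfsg.Agent.Lib.PLocal

open Subgroup Cfsg
open scoped commutatorElement
open Cfsg.Agent.Lib.Transfer Cfsg.Agent.Lib.LocalEven2

universe u

variable {p : ℕ} [Fact p.Prime]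

section Final

variable {G : Type u} [Group G] [Finite G]

/-- The centres of the Sylow subgroups generate. -/
abbrev centerSylow (p : ℕ) [Fact p.Prime] (G : Type u) [Group G] [Finite G] : Subgroup G :=
  ⨆ S : Sylow p G, ((S : Subgroup G) ⊓ centralizer ((S : Subgroup G) : Set G))

theorem centerSylow_normal : (centerSylow p G).Normal := by
  classical
  refine ⟨fun x hx g => ?_⟩
  have h : (centerSylow p G).map (MulAut.conj g).toMonoidHom ≤ centerSylow p G := by
    rw [centerSylow, Subgroup.map_iSup]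
    refine iSup_le fun S => ?_
    have hle : ((S : Subgroup G) ⊓ centralizer ((S : Subgroup G) : Set G)).map (MulAut.conj g).toMonoidHom ≤
        (((g • S : Sylow p G) : Subgroup G) ⊓ centralizer (((g • S : Sylow p G) : Subgroup G) : Set G)) := by
      rintro _ ⟨z, ⟨hz1, hz2⟩, rfl⟩
      have hS : ((g • S : Sylow p G) : Subgroup G) = (S : Subgroup G).map (MulAut.conj g).toMonoidHom :=
        Sylow.coe_subgroup_smul
      rw [hS]
      refine ⟨⟨z, hz1, rfl⟩, mem_centralizer_iff.mpr ?_⟩
      rintro _ ⟨s, hs, rfl⟩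
      rw [← map_mul, ← map_mul, (mem_centralizer_iff.mp hz2) s hs]
    exact hle.trans (le_iSup (fun S : Sylow p G =>
      ((S : Subgroup G) ⊓ centralizer ((S : Subgroup G) : Set G))) (g • S))
  exact h ⟨x, hx, rfl⟩

theorem mem_centralizer_centerSylow_of_mem_pCore [(centerSylow p G).Normal] (a : G)
    (h : (QuotientGroup.mk a : G ⧸ centralizer ((centerSylow p G : Subgroup G) : Set G)) ∈
      pCore p (G ⧸ centralizer ((centerSylow p G : Subgroup G) : Set G))) :
    a ∈ centralizer ((centerSylow p G : Subgroup G) : Set G) := by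
  classical
  set C : Subgroup G := centralizer ((centerSylow p G : Subgroup G) : Set G) with hC
  have key : ∀ S : Sylow p G, ∀ z ∈ ((S : Subgroup G) ⊓ centralizer ((S : Subgroup G) : Set G)),
      z * a = a * z := by
    intro S z hz
    obtain ⟨t, ht, c, hc, hat⟩ := exists_mem_mul_of_mem_pCore C S h
    have hzV : z ∈ centerSylow p G :=
      (le_iSup (fun S : Sylow p G =>
        ((S : Subgroup G) ⊓ centralizer ((S : Subgroup G) : Set G))) S) hz
    have h2 : t * z = z * t := (mem_centralizer_iff.mp hz.2) t ht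
    have h3 : z * c = c * z := (mem_centralizer_iff.mp hc) z hzV
    rw [hat]
    calc z * (t * c) = (z * t) * c := by group
      _ = (t * z) * c := by rw [h2]
      _ = t * (z * c) := by group
      _ = t * (c * z) := by rw [h3]
      _ = t * c * z := by group
  rw [hC, Subgroup.mem_centralizer_iff]
  intro z hz
  have hle : centerSylow p G ≤ centralizer ({a} : Set G) := by
    refine iSup_le fun S => ?_
    intro w hw
    rw [Subgroup.mem_centralizer_iff]
    intro b hb
    rw [Set.mem_singleton_iff] at hb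
    rw [hb]
    exact (key S w hw).symm
  exact ((mem_centralizer_iff.mp (hle hz)) a rfl).symm

theorem npc_final_thompson (hp : p ≠ 2) (P : Sylow p G)
    (hN₁ : HasNormalPComplement p (normalizer ((thompsonSubgroupOf p (P : Subgroup G) : Subgroup G) : Set G)))
    (hN₂ : HasNormalPComplement p (centralizer (((P : Subgroup G) ⊓ centralizer ((P : Subgroup G) : Set G) : Subgroup G) : Set G)))
    (hc : centralizer ((pCore p G : Subgroup G) : Set G) ≤ pCore p G)
    (hst : ∀ (B : Subgroup G) [B.Normal], IsPGroup p B → IsPStableOn p B)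
    (hO : ∀ N : Subgroup G, N.Normal → (Nat.card N).Coprime p → N = ⊥)
    (hstar : ∀ N : Subgroup G, N.Normal → N ⊔ (P : Subgroup G) ≠ ⊤ → N ≤ pCore p G) :
    HasNormalPComplement p G := by
  classical
  have hpp : p.Prime := Fact.out
  set O : Subgroup G := pCore p G with hOdef
  haveI hOn : O.Normal := Cfsg.Agent.Lib.Basic.pCore_normal p
  have hOp : IsPGroup p O := Cfsg.Agent.Lib.Basic.pCore_isPGroup p
  have hOP : O ≤ (P : Subgroup G) := Cfsg.Agent.Lib.Basic.pCore_le_sylow P
  set V : Subgroup G := centerSylow p G with hVdef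
  haveI hVn : V.Normal := centerSylow_normal
  have hVO : V ≤ O ⊓ centralizer (O : Set G) := by
    refine iSup_le fun S => ?_
    have hOS : O ≤ (S : Subgroup G) := Cfsg.Agent.Lib.Basic.pCore_le_sylow S
    have h1 : ((S : Subgroup G) ⊓ centralizer ((S : Subgroup G) : Set G)) ≤ centralizer (O : Set G) := by
      intro z hz
      exact mem_centralizer_iff.mpr fun o ho => (mem_centralizer_iff.mp hz.2) o (hOS ho)
    exact le_inf (h1.trans hc) h1
  have hVp : IsPGroup p V := hOp.to_le (hVO.trans inf_le_left)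
  have hVcomm : ∀ x ∈ V, ∀ y ∈ V, x * y = y * x := fun x hx y hy =>
    (mem_centralizer_iff.mp (hVO hy).2) x (hVO hx).1
  -- `Ω₁(V)`
  set V₁ : Subgroup G := omegaOne p V with hV₁def
  have hV₁V : V₁ ≤ V := (Subgroup.closure_le _).mpr fun x hx => hx.1
  haveI hV₁n : V₁.Normal := by
    refine ⟨fun x hx g => ?_⟩
    have h1 : V₁ ≤ V₁.comap (MulAut.conj g).toMonoidHom := by
      refine (Subgroup.closure_le _).mpr ?_
      rintro y ⟨hy, hyp⟩
      refine Subgroup.subset_closure ⟨hVn.conj_mem y hy g, ?_⟩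
      show (g * y * g⁻¹) ^ p = 1
      rw [conj_pow, hyp]
      group
    exact h1 hx
  have hV₁EA : IsElementaryAbelian p V₁ :=
    isEA_closure (fun a ha b hb => hVcomm a ha.1 b hb.1) (fun a ha => ha.2)
  have hV₁mem : ∀ x ∈ V, x ^ p = 1 → x ∈ V₁ := fun x hx hxp => Subgroup.subset_closure ⟨hx, hxp⟩
  have hV₁p : IsPGroup p V₁ := hVp.to_le hV₁V
  -- quadratic elements
  have hq : ∀ x : G, ⁅⁅V₁, zpowers x⁆, zpowers x⁆ = ⊥ → x ∈ centralizer (V : Set G) := by
    intro x hx
    have h1 := hst V₁ hV₁p x hx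
    have h2 := mem_pCore_of_omega hp V V₁ hVp hV₁mem h1
    exact mem_centralizer_centerSylow_of_mem_pCore x h2
  -- `J` centralizes `V₁`
  have hAC : ∀ A ∈ maxElementaryAbelianSubgroups p G, A ≤ centralizer (V₁ : Set G) := by
    intro A hA
    by_contra hAC
    have hne : ⁅V₁, A⁆ ≠ ⊥ := by
      intro e
      apply hAC
      rw [Subgroup.commutator_eq_bot_iff_le_centralizer] at e
      rw [Subgroup.le_centralizer_iff]
      exact e
    obtain ⟨_, h2, h3⟩ := thompson_replacement V₁ hV₁EA A hA
    apply h3 hne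
    rw [Subgroup.commutator_eq_bot_iff_le_centralizer, ← Subgroup.le_centralizer_iff]
    intro a ha
    have hz : zpowers a ≤ ⁅V₁, A⁆ ⊔ (A ⊓ centralizer ((⁅V₁, A⁆ : Subgroup G) : Set G)) := by
      rw [Subgroup.zpowers_le]
      exact ha
    have h4 := hq a (by
      rw [eq_bot_iff, ← h2]
      exact Subgroup.commutator_mono (Subgroup.commutator_mono le_rfl hz) hz)
    exact mem_centralizer_iff.mpr fun v hv => (mem_centralizer_iff.mp h4) v (hV₁V hv)
  set C : Subgroup G := centralizer (V₁ : Set G) with hCdef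
  haveI hCn : C.Normal := inferInstance
  have hJC : thompsonSubgroupOf p (P : Subgroup G) ≤ C := by
    rw [thompsonOf_sylow_eq]
    exact sSup_le fun A hA => hAC A hA.1
  have hJP : thompsonSubgroupOf p (P : Subgroup G) ≤ (P : Subgroup G) := map_subtype_le _
  have hJT : thompsonSubgroupOf p ((P : Subgroup G) ⊓ C) = thompsonSubgroupOf p (P : Subgroup G) :=
    thompsonOf_eq_of_le (le_inf hJP hJC) inf_le_left
  have hdec : ∀ g : G, ∃ c ∈ C, ∃ n ∈ normalizer ((thompsonSubgroupOf p (P : Subgroup G) : Subgroup G) : Set G), g = c * n := by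
    intro g
    obtain ⟨c, hc', n, hn, e⟩ := exists_mul_normalizer_sylow_inf P C g
    refine ⟨c, hc', n, ?_, e⟩
    rw [← hJT]
    exact normalizer_le_normalizer_thompsonOf _ hn
  by_cases htop : C ⊔ (P : Subgroup G) = ⊤
  · -- `G = C P`
    have hC₀ : HasNormalPComplement p (centralizer ((V : Subgroup G) : Set G)) := by
      refine npc_of_le ?_ hN₂
      intro x hx
      refine mem_centralizer_iff.mpr fun z hz => (mem_centralizer_iff.mp hx) z ?_
      exact (le_iSup (fun S : Sylow p G =>
        ((S : Subgroup G) ⊓ centralizer ((S : Subgroup G) : Set G))) P) hz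
    obtain ⟨L, hLn, hLc, hLN, k, hk⟩ := exists_normal_pPrime_of_npc (N := centralizer ((V : Subgroup G) : Set G))
      inferInstance hC₀
    have hL := hO L hLn hLc
    rw [hL] at hk
    simp only [Subgroup.card_bot, one_mul] at hk
    have hC₀p : IsPGroup p (centralizer ((V : Subgroup G) : Set G)) := IsPGroup.of_card hk
    apply npc_of_isPGroup
    intro g
    obtain ⟨u, v, hg, -, ⟨m, hm⟩, hv, -, -⟩ := Cfsg.Agent.Lib.PGroups.exists_pPart p (g : G)
    have hvcop : (orderOf v).Coprime p := ((Nat.Prime.coprime_iff_not_dvd hpp).mpr hv).symm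
    -- `v` lies in `C`
    have hvC : v ∈ C := by
      have hvs : v ∈ ((C ⊔ (P : Subgroup G) : Subgroup G) : Set G) := by
        rw [htop]; trivial
      rw [Subgroup.normal_mul] at hvs
      obtain ⟨c, hc', t, ht, e⟩ := Set.mem_mul.mp hvs
      obtain ⟨j, hj⟩ := P.isPGroup' ⟨t, ht⟩
      have h1 : t ^ p ^ j = 1 := congrArg Subtype.val hj
      have h2 : QuotientGroup.mk' C v = QuotientGroup.mk' C t := by
        rw [← e, map_mul, (show QuotientGroup.mk' C c = 1 from (QuotientGroup.eq_one_iff c).2 hc'), one_mul]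
      have h3 : (QuotientGroup.mk' C v) ^ p ^ j = 1 := by
        rw [h2, ← map_pow, h1, map_one]
      have h4 : (QuotientGroup.mk' C v) ^ orderOf v = 1 := by
        rw [← map_pow, pow_orderOf_eq_one, map_one]
      have h5 : orderOf (QuotientGroup.mk' C v) ∣ Nat.gcd (p ^ j) (orderOf v) :=
        Nat.dvd_gcd (orderOf_dvd_of_pow_eq_one h3) (orderOf_dvd_of_pow_eq_one h4)
      rw [(hvcop.symm.pow_left j).gcd_eq_one, Nat.dvd_one, orderOf_eq_one_iff, QuotientGroup.mk'_apply,
        QuotientGroup.eq_one_iff] at h5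
      exact h5
    have hvC₀ : v ∈ centralizer ((V : Subgroup G) : Set G) := by
      have h5 := Cfsg.Agent.Lib.OddLocal.fix_of_fix_omega p hp v hvcop V hVp
        (fun x hx => hVn.conj_mem x hx v) (fun x hx hxp => ?_)
      · rw [mem_centralizer_iff]
        intro x hx
        have h6 := h5 x hx
        calc x * v = v * x * v⁻¹ * v := by rw [h6]
          _ = v * x := by group
      · have h7 := (mem_centralizer_iff.mp hvC) x (hV₁mem x hx hxp)
        rw [← h7]
        group
    obtain ⟨j, hj⟩ := hC₀p ⟨v, hvC₀⟩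
    have hv1 : v ^ p ^ j = 1 := congrArg Subtype.val hj
    have hvone : v = 1 := orderOf_eq_one_iff.1
      (Nat.eq_one_of_dvd_coprimes (hvcop.pow_right j) dvd_rfl (orderOf_dvd_of_pow_eq_one hv1))
    refine ⟨m, ?_⟩
    show g ^ p ^ m = 1
    rw [hg, hvone, mul_one, ← hm, pow_orderOf_eq_one]
  · -- `C ≤ O_p(G)`
    have hCO := hstar C hCn htop
    refine npc_of_top ?_ hN₁
    rw [eq_top_iff]
    intro g _
    obtain ⟨c, hc', n, hn, rfl⟩ := hdec g
    refine Subgroup.mul_mem _ ?_ hn
    exact normalizer_le_normalizer_thompsonOf _ (Subgroup.le_normalizer (hOP (hCO hc')))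

end Final

section Fun

variable {G : Type u} [Group G] [Finite G]

theorem npc_centralizer_subgroupOf (H : Subgroup G) (W : Subgroup H)
    (h : HasNormalPComplement p (centralizer ((W.map H.subtype : Subgroup G) : Set G))) :
    HasNormalPComplement p (centralizer (W : Set H)) := by
  refine npc_of_injective (MonoidHom.codRestrict (H.subtype.comp (centralizer (W : Set H)).subtype)
    (centralizer ((W.map H.subtype : Subgroup G) : Set G)) ?_) ?_ h
  · rintro ⟨x, hx⟩
    rw [mem_centralizer_iff]
    rintro _ ⟨w, hw, rfl⟩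
    exact congrArg Subtype.val ((mem_centralizer_iff.mp hx) w hw)
  · rintro ⟨x, hx⟩ ⟨y, hy⟩ hxy
    have h1 := congrArg Subtype.val hxy
    exact Subtype.ext (Subtype.ext h1)

theorem npc_centralizer_map_surj {G' : Type*} [Group G'] [Finite G'] (f : G →* G') (hf : Function.Surjective f)
    (hker : (Nat.card f.ker).Coprime p) {Z : Subgroup G} (hZ : IsPGroup p Z)
    (h : HasNormalPComplement p (centralizer (Z : Set G))) :
    HasNormalPComplement p (centralizer ((Z.map f : Subgroup G') : Set G')) := by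
  refine npc_of_surjective (MonoidHom.codRestrict (f.comp (centralizer (Z : Set G)).subtype)
    (centralizer ((Z.map f : Subgroup G') : Set G')) ?_) ?_ h
  · rintro ⟨x, hx⟩
    rw [mem_centralizer_iff]
    rintro _ ⟨w, hw, rfl⟩
    show f w * f x = f x * f w
    rw [← map_mul, ← map_mul, (mem_centralizer_iff.mp hx) w hw]
  · rintro ⟨y, hy⟩
    have hyN : y ∈ normalizer ((Z.map f : Subgroup G') : Set G') := by
      apply Cfsg.Agent.Lib.PGroups.mem_normalizer_of_conj_le'
      intro z hz
      have := (mem_centralizer_iff.mp hy) z hz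
      have e : y * z * y⁻¹ = z := by rw [← this]; group
      rwa [e]
    obtain ⟨x, hx, rfl⟩ := exists_mem_normalizer_of_map f hf hker hZ hyN
    refine ⟨⟨x, mem_centralizer_iff.mpr fun z hz => ?_⟩, rfl⟩
    have hinj := inj_of_ker_coprime f hZ hker
    have hxz : x * z * x⁻¹ ∈ Z := (mem_normalizer_iff.mp hx z).mp hz
    have h1 : f z * f x = f x * f z := (mem_centralizer_iff.mp hy) (f z) ⟨z, hz, rfl⟩
    have h2 : (f.comp Z.subtype) ⟨x * z * x⁻¹, hxz⟩ = (f.comp Z.subtype) ⟨z, hz⟩ := by
      show f (x * z * x⁻¹) = f z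
      rw [map_mul, map_mul, map_inv, ← h1]
      group
    have h3 : x * z * x⁻¹ = z := congrArg Subtype.val (hinj h2)
    calc z * x = x * z * x⁻¹ * x := by rw [h3]
      _ = x * z := by group

theorem centralizer_le_normalizer_self (Z : Subgroup G) :
    centralizer (Z : Set G) ≤ normalizer (Z : Set G) := by
  intro x hx
  apply Cfsg.Agent.Lib.PGroups.mem_normalizer_of_conj_le'
  intro z hz
  have := (mem_centralizer_iff.mp hx) z hz
  have e : x * z * x⁻¹ = z := by rw [← this]; group
  rwa [e]

end Fun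

/-- `J(S)` is a functor. -/
theorem thompson_gtFun : GTFun.{u} p (fun _ _ S => thompsonSubgroupOf p S) where
  le := fun _ _ _ => map_subtype_le _
  ne_bot := by
    intro G _ _ S hS hne h
    have hJ0 : thompsonSubgroup p ↥S ≠ ⊥ := by
      refine (thompson_characteristic (p := p) (G := ↥S)).2 ?_
      obtain ⟨k, hk⟩ := IsPGroup.iff_card.mp hS
      have hk0 : k ≠ 0 := by
        rintro rfl
        rw [pow_zero] at hk
        exact hne (Subgroup.eq_bot_of_card_eq _ hk)
      rw [hk]
      exact dvd_pow_self p hk0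
    rw [thompsonSubgroupOf, Subgroup.map_eq_bot_iff_of_injective _ S.subtype_injective] at h
    exact hJ0 h
  map := fun _ _ _ _ _ _ f _ _ hf => thompsonOf_map f hf

/-- `Z(S)` is a functor. -/
theorem center_gtFun : GTFun.{u} p (fun _ _ S => S ⊓ centralizer (S : Set _)) where
  le := fun _ _ _ => inf_le_left
  ne_bot := by
    intro G _ _ S hS hne hb
    classical
    haveI : Nontrivial S := (Subgroup.nontrivial_iff_ne_bot _).2 hne
    haveI : Nontrivial (center S) := hS.center_nontrivial
    obtain ⟨z, hz⟩ := exists_ne (1 : center S)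
    have hzm : ((z : S) : G) ∈ S ⊓ centralizer (S : Set G) := by
      refine ⟨(z : S).2, mem_centralizer_iff.mpr fun j hj => ?_⟩
      have := (Subgroup.mem_center_iff.mp z.2) ⟨j, hj⟩
      exact congrArg Subtype.val this
    rw [hb, Subgroup.mem_bot] at hzm
    exact hz (Subtype.ext (Subtype.ext hzm))
  map := by
    intro G G' _ _ _ _ f S _ hf
    apply le_antisymm
    · rintro _ ⟨x, ⟨hx1, hx2⟩, rfl⟩
      refine ⟨⟨x, hx1, rfl⟩, mem_centralizer_iff.mpr ?_⟩
      rintro _ ⟨j, hj, rfl⟩
      rw [← map_mul, ← map_mul, (mem_centralizer_iff.mp hx2) j hj]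
    · rintro y ⟨⟨x, hx, rfl⟩, hy2⟩
      refine ⟨x, ⟨hx, mem_centralizer_iff.mpr fun j hj => ?_⟩, rfl⟩
      have h1 := (mem_centralizer_iff.mp hy2) (f j) ⟨j, hj, rfl⟩
      exact eq_of_map_eq f hf (S.mul_mem hj hx) (S.mul_mem hx hj) (by rw [map_mul, map_mul]; exact h1)

/-- The hypotheses of Thompson's theorem. -/
def ThompsonHyp (p : ℕ) [Fact p.Prime] (G : Type u) [Group G] [Finite G] (S : Subgroup G) : Prop :=
  HasNormalPComplement p (normalizer ((thompsonSubgroupOf p S : Subgroup G) : Set G)) ∧
    HasNormalPComplement p (centralizer ((S ⊓ centralizer (S : Set G) : Subgroup G) : Set G))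

theorem thompsonHyp_gtHyp (hp : p ≠ 2) : GTHyp p (ThompsonHyp.{u} p) where
  sub := fun G _ _ H T hT h => by
    refine ⟨(thompson_gtFun (p := p)).npc_sub G H T hT h.1, ?_⟩
    apply npc_centralizer_subgroupOf
    have := (center_gtFun (p := p)).map H G H.subtype T hT (fun x _ hx => Subtype.ext hx)
    rw [this]
    exact h.2
  quot := fun G G' _ _ _ _ f hf hker S hS h => by
    refine ⟨(thompson_gtFun (p := p)).npc_quot G G' f hf hker S hS h.1, ?_⟩
    have hinj : ∀ x ∈ S, f x = 1 → x = 1 := by
      intro x hx h1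
      have := inj_of_ker_coprime f hS hker
      have h2 : (f.comp S.subtype) ⟨x, hx⟩ = (f.comp S.subtype) 1 := by simpa using h1
      exact congrArg Subtype.val (this h2)
    have := (center_gtFun (p := p)).map G G' f S hS hinj
    rw [← this]
    exact npc_centralizer_map_surj f hf hker (hS.to_le inf_le_left) h.2
  overq := fun G _ _ P Q _ hQP hIH hO hne => by
    refine ⟨(thompson_gtFun (p := p)).npc_overq G P Q hQP hIH hO hne, ?_⟩
    exact npc_of_le (centralizer_le_normalizer_self _)
      ((center_gtFun (p := p)).npc_overq G P Q hQP hIH hO hne)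
  loc := fun G _ _ P S h1 h2 h3 h4 => by
    refine ⟨(thompson_gtFun (p := p)).npc_loc G P S h1 h2 h3 h4, ?_⟩
    exact npc_of_le (centralizer_le_normalizer_self _)
      ((center_gtFun (p := p)).npc_loc G P S h1 h2 h3 h4)
  normal := fun G _ _ P h hn => (thompson_gtFun (p := p)).npc_normal G P h.1 hn
  final := fun G _ _ P h hc hst _ hO hstar => npc_final_thompson hp P h.1 h.2 hc hst hO hstar

/-- Thompson's normal `p`-complement theorem. -/
theorem hasNormalPComplement_of_thompson {G : Type u} [Group G] [Finite G] (hp : p ≠ 2) (P : Sylow p G)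
    (h₁ : HasNormalPComplement p (normalizer ((thompsonSubgroupOf p (P : Subgroup G) : Subgroup G) : Set G)))
    (h₂ : HasNormalPComplement p (centralizer (((P : Subgroup G) ⊓ centralizer ((P : Subgroup G) : Set G) : Subgroup G) : Set G))) :
    HasNormalPComplement p G :=
  gt_abs hp (thompsonHyp_gtHyp hp) _ G P ⟨h₁, h₂⟩ rfl

end Cfsg.Agent.Lib.PLocal
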