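import Cfsg.Agent.Lib.PLocal.GTThompson
import Cfsg.Agent.Lib.PLocal.StableClosure

/-! The normal `p`-complement theorem with the characteristic subgroup `W(S)`. -/

set_option autoImplicit false
set_option linter.unusedSectionVars false
set_option linter.style.haveILetI false

namespace Cfsg.Agent.Lib.PLocal

open Subgroup Cfsg
open scoped commutatorElement
open Cfsg.Agent.Lib.Transfer Cfsg.Agent.Lib.LocalEven2

universe u

variable {p : ℕ} [Fact p.Prime]

/-- `W(S)` is a functor. -/
theorem stableClosure_gtFun : GTFun.{u} p (fun _ _ S => (stableNormalClosure p ↥S).map S.subtype) where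
  le := fun _ _ _ => map_subtype_le _
  ne_bot := by
    intro G _ _ S hS hne h
    haveI : Nontrivial S := (Subgroup.nontrivial_iff_ne_bot _).2 hne
    rw [Subgroup.map_eq_bot_iff_of_injective _ S.subtype_injective] at h
    exact stableNormalClosure_ne_bot hS h
  map := by
    intro G G' _ _ _ _ f S _ hf
    let g : S →* S.map f := f.subgroupMap S
    have hg : Function.Bijective g := by
      constructor
      · rw [injective_iff_map_eq_one]
        rintro x hx
        have : f (x : G) = 1 := congrArg Subtype.val hx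
        exact Subtype.ext (hf x x.2 this)
      · exact f.subgroupMap_surjective S
    let e : S ≃* S.map f := MulEquiv.ofBijective g hg
    have h1 := stableNormalClosure_map (p := p) e
    rw [← h1]
    ext y
    constructor
    · rintro ⟨_, ⟨x, hx, rfl⟩, rfl⟩
      exact ⟨_, ⟨x, hx, rfl⟩, rfl⟩
    · rintro ⟨_, ⟨x, hx, rfl⟩, rfl⟩
      exact ⟨_, ⟨x, hx, rfl⟩, rfl⟩

section

variable {G : Type u} [Group G] [Finite G]

/-- A group all of whose elements have `p`-power order modulo `C(V)` is `p`-stable on `V`. -/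
theorem isPStableOn_of_pow_mem {V : Subgroup G} [hVn : V.Normal]
    (h : ∀ x : G, ∃ k : ℕ, x ^ p ^ k ∈ centralizer (V : Set G)) : IsPStableOn p V := by
  intro a _
  have hle : (⊤ : Subgroup (G ⧸ centralizer (V : Set G))) ≤ pCore p (G ⧸ centralizer (V : Set G)) := by
    refine Cfsg.Agent.Lib.Basic.le_pCore inferInstance ?_
    rintro ⟨x, -⟩
    obtain ⟨y, rfl⟩ := QuotientGroup.mk'_surjective _ x
    obtain ⟨k, hk⟩ := h y
    refine ⟨k, Subtype.ext ?_⟩
    show (QuotientGroup.mk' _ y) ^ p ^ k = 1
    rw [← map_pow, QuotientGroup.mk'_apply, QuotientGroup.eq_one_iff]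
    exact hk
  exact hle trivial

/-- Stability on normal subgroups of an overgroup of a Sylow subgroup. -/
theorem stable_of_npc {N : Type*} [Group N] [Finite N] (h : HasNormalPComplement p N) (V : Subgroup N) [hVn : V.Normal]
    (hV : IsPGroup p V) : IsPStableOn p V := by
  classical
  obtain ⟨L, hLn, hLc, k, hk⟩ := exists_hall_of_hasNormalPComplement h
  haveI := hLn
  apply isPStableOn_of_pow_mem
  intro x
  refine ⟨k, ?_⟩
  have h1 : x ^ p ^ k ∈ L := by
    rw [← hk]
    exact Subgroup.pow_index_mem L x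
  rw [mem_centralizer_iff]
  intro v hv
  have h2 : ⁅x ^ p ^ k, v⁆ ∈ L := by
    have e : ⁅x ^ p ^ k, v⁆ = x ^ p ^ k * (v * (x ^ p ^ k)⁻¹ * v⁻¹) := by
      rw [commutatorElement_def]
      group
    rw [e]
    exact L.mul_mem h1 (hLn.conj_mem _ (L.inv_mem h1) v)
  have h3 : ⁅x ^ p ^ k, v⁆ ∈ V := by
    rw [commutatorElement_def]
    exact V.mul_mem (hVn.conj_mem _ hv _) (V.inv_mem hv)
  have h4 : ⁅x ^ p ^ k, v⁆ = 1 := by
    obtain ⟨m, hm⟩ := hV ⟨_, h3⟩
    have h5 : ⁅x ^ p ^ k, v⁆ ^ p ^ m = 1 := congrArg Subtype.val hm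
    have h6 : orderOf ⁅x ^ p ^ k, v⁆ ∣ Nat.card L := by
      have := orderOf_dvd_natCard (⟨_, h2⟩ : L)
      rwa [Subgroup.orderOf_mk] at this
    exact orderOf_eq_one_iff.1 (Nat.eq_one_of_dvd_coprimes (hLc.pow_right m) h6 (orderOf_dvd_of_pow_eq_one h5))
  rw [commutatorElement_eq_one_iff_mul_comm] at h4
  exact h4.symm

/-- Stability passes to the subgroup `⊤`. -/
theorem stable_of_eq_top {N : Subgroup G} (hN : N = ⊤)
    (hst : ∀ (B : Subgroup G) [B.Normal], IsPGroup p B → IsPStableOn p B) (V : Subgroup ↥N) [hVn : V.Normal]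
    (hV : IsPGroup p V) : IsPStableOn p V := by
  classical
  subst hN
  set V' : Subgroup G := V.map (⊤ : Subgroup G).subtype with hV'
  haveI hV'n : V'.Normal := hVn.map _ (fun x => ⟨⟨x, trivial⟩, rfl⟩)
  have hV'p : IsPGroup p V' := hV.map _
  have hs := hst V' hV'p
  intro a ha
  let R : Subgroup G := (pCore p (G ⧸ centralizer (V' : Set G))).comap (QuotientGroup.mk' _)
  haveI hRn : R.Normal := by
    haveI : (pCore p (G ⧸ centralizer (V' : Set G))).Normal := Cfsg.Agent.Lib.Basic.pCore_normal p
    exact Subgroup.Normal.comap this _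
  have hR : (a : G) ∈ R := by
    refine hs a ?_
    have h1 : (zpowers a).map (⊤ : Subgroup G).subtype = zpowers (a : G) := MonoidHom.map_zpowers _ _
    rw [← h1, hV', ← Subgroup.map_commutator, ← Subgroup.map_commutator, ha, Subgroup.map_bot]
  let R' : Subgroup ↥(⊤ : Subgroup G) := R.comap (⊤ : Subgroup G).subtype
  haveI hR'n : R'.Normal := Subgroup.Normal.comap hRn _
  have hle : R'.map (QuotientGroup.mk' (centralizer (V : Set ↥(⊤ : Subgroup G)))) ≤ pCore p (↥(⊤ : Subgroup G) ⧸ centralizer (V : Set ↥(⊤ : Subgroup G))) := by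
    refine Cfsg.Agent.Lib.Basic.le_pCore (hR'n.map _ (QuotientGroup.mk'_surjective _)) ?_
    rintro ⟨_, r, hr, rfl⟩
    have hr' : QuotientGroup.mk' (centralizer (V' : Set G)) (r : G) ∈ pCore p (G ⧸ centralizer (V' : Set G)) := hr
    obtain ⟨k, hk⟩ := Cfsg.Agent.Lib.Basic.pCore_isPGroup (G := G ⧸ centralizer (V' : Set G)) p ⟨_, hr'⟩
    refine ⟨k, Subtype.ext ?_⟩
    show (QuotientGroup.mk' _ r) ^ p ^ k = 1
    have h2 : (QuotientGroup.mk' (centralizer (V' : Set G)) (r : G)) ^ p ^ k = 1 := congrArg Subtype.val hk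
    rw [← map_pow, QuotientGroup.mk'_apply, QuotientGroup.eq_one_iff] at h2 ⊢
    rw [mem_centralizer_iff] at h2 ⊢
    intro v hv
    exact Subtype.ext (h2 (v : G) ⟨v, hv, rfl⟩)
  exact hle ⟨a, hR, rfl⟩

/-- `W(S)` is normal in the final configuration. -/
theorem stableClosure_normal_final (P : Sylow p G)
    (hc : centralizer ((pCore p G : Subgroup G) : Set G) ≤ pCore p G)
    (hst : ∀ (B : Subgroup G) [B.Normal], IsPGroup p B → IsPStableOn p B)
    (hIH : ∀ M : Subgroup G, (P : Subgroup G) ≤ M → M ≠ ⊤ → HasNormalPComplement p M) :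
    ((stableNormalClosure p ↥(P : Subgroup G)).map (P : Subgroup G).subtype).Normal := by
  classical
  haveI hOn : (pCore p G).Normal := Cfsg.Agent.Lib.Basic.pCore_normal p
  have hOp : IsPGroup p (pCore p G) := Cfsg.Agent.Lib.Basic.pCore_isPGroup p
  refine stableNormalClosure_normal_of ?_ ?_ hc P ?_
  · intro V _ hV
    exact hst V (isPGroup_of_isEA hV)
  · intro w hw
    have h1 := hst (pCore p G) hOp w hw
    have hR : IsPGroup p ((pCore p (G ⧸ centralizer ((pCore p G : Subgroup G) : Set G))).comap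
        (QuotientGroup.mk' (centralizer ((pCore p G : Subgroup G) : Set G)))) := by
      refine (Cfsg.Agent.Lib.Basic.pCore_isPGroup (G := G ⧸ centralizer ((pCore p G : Subgroup G) : Set G)) p).comap_of_ker_isPGroup _ ?_
      rw [QuotientGroup.ker_mk']
      exact hOp.to_le hc
    have hRn : ((pCore p (G ⧸ centralizer ((pCore p G : Subgroup G) : Set G))).comap
        (QuotientGroup.mk' (centralizer ((pCore p G : Subgroup G) : Set G)))).Normal := by
      haveI : (pCore p (G ⧸ centralizer ((pCore p G : Subgroup G) : Set G))).Normal := Cfsg.Agent.Lib.Basic.pCore_normal p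
      exact Subgroup.Normal.comap this _
    exact Cfsg.Agent.Lib.Basic.le_pCore hRn hR h1
  · intro V _ hV
    have hPN : (P : Subgroup G) ≤ normalizer (thompsonSubgroupOf p (P : Subgroup G) : Set G) :=
      le_normalizer.trans (normalizer_le_normalizer_thompsonOf _)
    have hVp : IsPGroup p V := by
      have h1 : IsPGroup p (V.map (normalizer (thompsonSubgroupOf p (P : Subgroup G) : Set G)).subtype) :=
        P.isPGroup'.to_le (hV.trans (map_subtype_le _))
      exact IsPGroup.comap_of_injective h1 _ (Subgroup.subtype_injective _) |>.to_le (fun y hy => ⟨y, hy, rfl⟩)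
    by_cases hN : normalizer (thompsonSubgroupOf p (P : Subgroup G) : Set G) = ⊤
    · exact stable_of_eq_top hN hst V hVp
    · exact stable_of_npc (hIH _ hPN hN) V hVp

end

/-- The `W(S)`-form of the normal `p`-complement theorem. -/
theorem hasNormalPComplement_of_stableClosure {G : Type u} [Group G] [Finite G] (hp : p ≠ 2) (P : Sylow p G)
    (hN : HasNormalPComplement p (normalizer (((stableNormalClosure p ↥(P : Subgroup G)).map (P : Subgroup G).subtype : Subgroup G) : Set G))) :
    HasNormalPComplement p G := by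
  have hH := (stableClosure_gtFun (p := p)).gtHyp (fun G _ _ P hc hst hIH => stableClosure_normal_final P hc hst hIH)
  exact gt_abs hp hH _ G P hN rfl

end Cfsg.Agent.Lib.PLocal
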