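import Mathlib
import Cfsg.Agent.Lib.PLocal.Dickson
import Cfsg.Agent.Lib.PLocal.QuadThm2

/-!
The class of groups without sections isomorphic to `SL(2,p)`: by Dickson's theorem the results on
quadratically acting pairs apply to it.
-/

set_option autoImplicit false
set_option linter.unusedSectionVars false
set_option linter.style.haveILetI false

namespace Cfsg.Agent.Lib.PLocal

open Subgroup Cfsg Cfsg.Agent.Lib.Known
open scoped commutatorElement Pointwise

universe u

/-- A section isomorphic to `SL(2,p)`. -/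
def HasSL2p (p : ℕ) (X : Type u) [Group X] [Fact p.Prime] : Prop :=
  ∃ (K : Subgroup X) (f : K →* SL2 (ZMod p)), Function.Surjective f

/-- No section isomorphic to `SL(2,p)`. -/
def NoSL2p (p : ℕ) [Fact p.Prime] (X : Type u) [Group X] : Prop := ¬ HasSL2p p X

variable {p : ℕ} [Fact p.Prime]

theorem HasSL2p.of_sub {X : Type u} [Group X] (S : Subgroup X) (h : HasSL2p p S) : HasSL2p p X := by
  obtain ⟨K, f, hf⟩ := h
  refine ⟨K.map S.subtype, f.comp (K.equivMapOfInjective S.subtype S.subtype_injective).symm.toMonoidHom, ?_⟩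
  exact hf.comp (MulEquiv.surjective _)

theorem HasSL2p.of_surj {X Y : Type u} [Group X] [Group Y] (φ : X →* Y) (hφ : Function.Surjective φ)
    (h : HasSL2p p Y) : HasSL2p p X := by
  obtain ⟨K, f, hf⟩ := h
  let g : K.comap φ →* K := (φ.comp (K.comap φ).subtype).codRestrict K (fun x => x.2)
  have hg : Function.Surjective g := by
    rintro ⟨k, hk⟩
    obtain ⟨x, rfl⟩ := hφ k
    exact ⟨⟨x, hk⟩, rfl⟩
  exact ⟨K.comap φ, f.comp g, hf.comp hg⟩

/-- `SL(2,p)` has no nontrivial normal `p`-subgroups. -/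
theorem sl2p_no_normal_p (hp : p ≠ 2) (N : Subgroup (SL2 (ZMod p))) (hN : N.Normal) (hNp : IsPGroup p N) :
    N = ⊥ := by
  classical
  by_contra hne
  have hpp : p.Prime := Fact.out
  have h2 := dk_two_ne (F := ZMod p) hp
  haveI : Nontrivial N := (Subgroup.nontrivial_iff_ne_bot N).mpr hne
  obtain ⟨z, hz⟩ := exists_ne (1 : N)
  -- a nontrivial element of order `p`
  obtain ⟨k, hk⟩ := (IsPGroup.iff_orderOf.mp hNp) z
  have hz1 : (z : SL2 (ZMod p)) ≠ 1 := fun h => hz (Subtype.ext h)
  have hzp : (z : SL2 (ZMod p)) ^ p = 1 := by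
    apply dk_pow_of_pow_pow (k := k)
    have := pow_orderOf_eq_one z
    rw [hk] at this
    have h3 := congrArg (fun a : N => (a : SL2 (ZMod p))) this
    simpa using h3
  have hnil : ((z : SL2 (ZMod p)).1 - 1) * ((z : SL2 (ZMod p)).1 - 1) = 0 := by
    apply m2_sq_eq_zero_of_nilpotent
    refine ⟨p, ?_⟩
    rw [sub_pow_char_of_commute p (Commute.one_right _), one_pow, ← Matrix.SpecialLinearGroup.coe_pow, hzp]
    simp
  obtain ⟨Φ, hΦ⟩ := dk_exists_normalize hz1 hnil
  set N' : Subgroup (SL2 (ZMod p)) := N.map Φ.toMonoidHom with hN'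
  haveI hN'n : N'.Normal := hN.map _ Φ.surjective
  have hN'p : IsPGroup p N' := hNp.map _
  have hu : sl2U (1 : ZMod p) ∈ N' := ⟨z, z.2, hΦ⟩
  let g : SL2 (ZMod p) := sl2Mk 1 0 1 1 (by ring)
  have hv : g * sl2U 1 * g⁻¹ ∈ N' := hN'n.conj_mem _ hu g
  have hv10 : (g * sl2U 1 * g⁻¹).1 1 0 ≠ 0 := by
    rw [dk_conj_U_10]
    simp [g]
  -- `N'` is a `p`-group, so it has a central element different from `±1`
  haveI : Nontrivial N' := by
    refine ⟨⟨⟨sl2U 1, hu⟩, 1, fun h => ?_⟩⟩
    exact sl2U_ne_one (one_ne_zero (α := ZMod p)) (congrArg Subtype.val h)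
  haveI := hN'p.center_nontrivial
  obtain ⟨c, hc⟩ := exists_ne (1 : Subgroup.center N')
  set c' : N' := c.1 with hc'
  have hc1 : (c' : SL2 (ZMod p)) ≠ 1 := fun h => hc (Subtype.ext (Subtype.ext h))
  have hcm : (c' : SL2 (ZMod p)) ≠ -1 := by
    intro h
    obtain ⟨j, hj⟩ := (IsPGroup.iff_orderOf.mp hN'p) c'
    have hz2 : c' ^ 2 = 1 := by
      apply Subtype.ext
      simp [h]
    have h3 : p ^ j ∣ 2 := hj ▸ orderOf_dvd_of_pow_eq_one hz2
    rcases j with _ | j
    · simp only [pow_zero] at hj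
      exact hc1 (by simpa using congrArg Subtype.val (orderOf_eq_one_iff.mp hj))
    · have h4 : p ∣ 2 := dvd_trans (dvd_pow_self p (by omega)) h3
      exact hp ((Nat.prime_dvd_prime_iff_eq hpp Nat.prime_two).mp h4)
  have hcomm : ∀ w : N', (w : SL2 (ZMod p)) * c' = c' * w := fun w =>
    congrArg Subtype.val (Subgroup.mem_center_iff.mp c.2 w)
  have h3 := dk_ct hc1 hcm (hcomm ⟨_, hu⟩) (hcomm ⟨_, hv⟩)
  exact hv10 (dk_comm_U1_iff.mp h3).1

/-- Sections of `V H` with `V` a normal `p`-subgroup come from `H`. -/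
theorem hasSL2p_of_sup (hp : p ≠ 2) {X : Type u} [Group X] (V H : Subgroup X) [hVn : V.Normal] (hVH : V ⊔ H = ⊤)
    (hV : IsPGroup p V) (h : HasSL2p p X) : HasSL2p p H := by
  classical
  obtain ⟨K, f, hf⟩ := h
  have hN : ((V.subgroupOf K).map f) = ⊥ := by
    apply sl2p_no_normal_p hp
    · exact Subgroup.Normal.map (Subgroup.normal_subgroupOf) f hf
    · apply IsPGroup.map
      intro x
      obtain ⟨k, hk⟩ := hV ⟨x.1.1, x.2⟩
      refine ⟨k, Subtype.ext (Subtype.ext ?_)⟩
      have h5 : (x.1.1) ^ p ^ k = 1 := congrArg Subtype.val hk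
      exact h5
  have hker : ∀ k : K, (k : X) ∈ V → f k = 1 := by
    intro k hk
    have h1 : f k ∈ (V.subgroupOf K).map f := ⟨k, hk, rfl⟩
    rwa [hN, Subgroup.mem_bot] at h1
  let π := QuotientGroup.mk' V
  let g : K →* K.map π := π.subgroupMap K
  have hg : Function.Surjective g := π.subgroupMap_surjective K
  have hgker : g.ker ≤ f.ker := by
    intro k hk
    have h1 : π k = 1 := congrArg Subtype.val hk
    exact hker k ((QuotientGroup.eq_one_iff _).mp h1)
  let f' : K.map π →* SL2 (ZMod p) := MonoidHom.liftOfSurjective g hg ⟨f, hgker⟩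
  have hf' : ∀ k, f' (g k) = f k := by
    intro k
    exact MonoidHom.liftOfRightInverse_comp_apply _ _ _ _ k
  have hf's : Function.Surjective f' := by
    intro t
    obtain ⟨k, rfl⟩ := hf t
    exact ⟨g k, hf' k⟩
  let K₁ : Subgroup H := (K.map π).comap (π.comp H.subtype)
  let j : K₁ →* K.map π := ((π.comp H.subtype).comp K₁.subtype).codRestrict (K.map π) (fun x => x.2)
  have hj : Function.Surjective j := by
    rintro ⟨_, k, hk, rfl⟩
    have hk' : k ∈ V ⊔ H := by rw [hVH]; trivial
    have hk'' : k ∈ (V : Set X) * (H : Set X) := by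
      rw [← Subgroup.normal_mul]
      exact hk'
    obtain ⟨v, hv, z, hz, e⟩ := Set.mem_mul.mp hk''
    have hv1 : π v = 1 := (QuotientGroup.eq_one_iff v).mpr hv
    have h1 : π z = π k := by
      rw [← e, map_mul, hv1, one_mul]
    refine ⟨⟨⟨z, hz⟩, ?_⟩, ?_⟩
    · show π z ∈ K.map π
      rw [h1]
      exact ⟨k, hk, rfl⟩
    · exact Subtype.ext h1
  exact ⟨K₁, f'.comp j, hf's.comp hj⟩

/-- The base case. -/
theorem dk_quad_base (hp : p ≠ 2) (F : Type u) [Field F] [Finite F] [CharP F p]
    (a b : GL (Fin 2) F) (ha : a ^ p = 1) (hb : b ^ p = 1) (ha1 : a ≠ 1)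
    (hirr : ∀ v : Fin 2 → F, v ≠ 0 → ∃ g ∈ Subgroup.closure ({a, b} : Set (GL (Fin 2) F)),
      (g : Matrix (Fin 2) (Fin 2) F).mulVec v ∉ Submodule.span F {v})
    (hab : NoSL2p p (Subgroup.closure ({a, b} : Set (GL (Fin 2) F)))) : False := by
  classical
  set H := Subgroup.closure ({a, b} : Set (GL (Fin 2) F)) with hH
  have haH : a ∈ H := Subgroup.subset_closure (by simp)
  have hbH : b ∈ H := Subgroup.subset_closure (by simp)
  by_cases hc : a * b = b * a
  · -- the closure is a `p`-group
    have hza : IsPGroup p (zpowers a) := dk_isPGroup_zpowers ha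
    have hzb : IsPGroup p (zpowers b) := dk_isPGroup_zpowers hb
    have hle : zpowers a ≤ normalizer ((zpowers b : Subgroup _) : Set (GL (Fin 2) F)) := by
      rw [Subgroup.zpowers_le, Subgroup.mem_normalizer_iff]
      intro z
      constructor
      · rintro ⟨i, rfl⟩
        refine ⟨i, ?_⟩
        have h3 : Commute a (b ^ i) := (show Commute a b from hc).zpow_right i
        simp only
        rw [h3.eq]
        group
      · rintro ⟨i, hi⟩
        refine ⟨i, ?_⟩
        simp only at hi ⊢
        have h3 : Commute a (b ^ i) := (show Commute a b from hc).zpow_right i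
        have h4 : z = a⁻¹ * (b ^ i) * a := by rw [hi]; group
        rw [h4, mul_assoc, ← h3.eq]
        group
    have hpg := IsPGroup.to_sup_of_normal_right' hza hzb hle
    have hcl : H = zpowers a ⊔ zpowers b := by
      rw [hH, show ({a, b} : Set (GL (Fin 2) F)) = {a} ∪ {b} from rfl, Subgroup.closure_union,
        Subgroup.zpowers_eq_closure, Subgroup.zpowers_eq_closure]
    obtain ⟨v, hv, hfix⟩ := exists_fixed_vector (p := p) H (by rw [hcl]; exact hpg)
    obtain ⟨g, hg, hgv⟩ := hirr v hv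
    apply hgv
    rw [hfix g hg]
    exact Submodule.mem_span_singleton_self v
  · have hpp : p.Prime := Fact.out
    let a' : SL2 F := ⟨(a : Matrix (Fin 2) (Fin 2) F), gl2_det_one ha⟩
    let b' : SL2 F := ⟨(b : Matrix (Fin 2) (Fin 2) F), gl2_det_one hb⟩
    let j : SL2 F →* GL (Fin 2) F := Matrix.SpecialLinearGroup.toGL
    have hja : j a' = a := Units.ext rfl
    have hjb : j b' = b := Units.ext rfl
    have hjinj : Function.Injective j := by
      intro x y h
      apply Subtype.ext
      exact congrArg Units.val h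
    have ha'p : a' ^ p = 1 := by
      apply hjinj
      rw [map_pow, hja, ha, map_one]
    have hb'p : b' ^ p = 1 := by
      apply hjinj
      rw [map_pow, hjb, hb, map_one]
    have hc' : a' * b' ≠ b' * a' := by
      intro h
      apply hc
      have := congrArg j h
      rwa [map_mul, map_mul, hja, hjb] at this
    obtain ⟨ψ, hψ, hψH⟩ := dk_core (p := p) hp (H := Subgroup.closure ({a', b'} : Set (SL2 F)))
      (Subgroup.subset_closure (by simp)) (Subgroup.subset_closure (by simp)) ha'p hb'p hc'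
    have hmap : (Subgroup.closure ({a', b'} : Set (SL2 F))).map j ≤ H := by
      rw [MonoidHom.map_closure, Subgroup.closure_le, Set.image_pair, hja, hjb]
      exact Subgroup.subset_closure
    let Ψ' : SL2 (ZMod p) →* H := (j.comp ψ).codRestrict H (fun g => hmap ⟨_, hψH g, rfl⟩)
    have hΨ' : Function.Injective Ψ' := by
      intro A B hAB
      exact hψ (hjinj (congrArg Subtype.val hAB))
    exact hab ⟨Ψ'.range, (MonoidHom.ofInjective hΨ').symm.toMonoidHom, MulEquiv.surjective _⟩

/-- The class of groups without `SL(2,p)`-sections. -/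
theorem noSL2pClass (hp : p ≠ 2) : QuadClass.{u} p (NoSL2p p) where
  sub := fun S h h4 => h (h4.of_sub S)
  surj := fun f hf h h4 => h (h4.of_surj f hf)
  base := fun F _ _ _ a b ha hb ha1 hirr h => dk_quad_base hp F a b ha hb ha1 hirr h

section

variable {G : Type u} [Group G] [Finite G]

theorem NoSL2p.sup_of (hp : p ≠ 2) (V H : Subgroup G) (hV : IsPGroup p V)
    (hHV : H ≤ normalizer (V : Set G)) (h : NoSL2p p H) : NoSL2p p ↥(V ⊔ H) := by
  haveI : (V.subgroupOf (V ⊔ H)).Normal :=
    Subgroup.normal_subgroupOf_of_le_normalizer (sup_le Subgroup.le_normalizer hHV)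
  intro h4
  have h5 := hasSL2p_of_sup hp (V.subgroupOf (V ⊔ H)) (H.subgroupOf (V ⊔ H)) (sup_subgroupOf_eq_top V H)
    (isPGroup_subgroupOf hV _) h4
  exact h (h5.of_surj (Subgroup.subgroupOfEquivOfLe (le_sup_right : H ≤ V ⊔ H)).symm.toMonoidHom
    (MulEquiv.surjective _))

/-- A section of a subgroup, in the form of the statements. -/
theorem exists_section_of_hasSL2p (H : Subgroup G) (h : HasSL2p p H) :
    ∃ (K L : Subgroup G) (hL : (L.subgroupOf K).Normal), K ≤ H ∧
      Nonempty ((K ⧸ L.subgroupOf K) ≃* SL2 (ZMod p)) := by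
  obtain ⟨K₀, f, hf⟩ := h
  let K : Subgroup G := K₀.map H.subtype
  let e : K₀ ≃* K := K₀.equivMapOfInjective H.subtype H.subtype_injective
  let f' : K →* SL2 (ZMod p) := f.comp e.symm.toMonoidHom
  have hf' : Function.Surjective f' := hf.comp (MulEquiv.surjective _)
  let L : Subgroup G := f'.ker.map K.subtype
  have hLe : L.subgroupOf K = f'.ker := by
    rw [Subgroup.subgroupOf]
    exact Subgroup.comap_map_eq_self_of_injective K.subtype_injective _
  have hLn : (L.subgroupOf K).Normal := by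
    rw [hLe]
    infer_instance
  refine ⟨K, L, hLn, ?_, ?_⟩
  · exact Subgroup.map_subtype_le K₀
  · exact ⟨(QuotientGroup.quotientMulEquivOfEq hLe).trans
      (QuotientGroup.quotientKerEquivOfSurjective f' hf')⟩

/-- A section of the quotient from a section in the statement's form, and back. -/
theorem hasSL2p_of_section {K L : Subgroup G} (hL : (L.subgroupOf K).Normal)
    (h : Nonempty ((K ⧸ L.subgroupOf K) ≃* SL2 (ZMod p))) : HasSL2p p G := by
  obtain ⟨e⟩ := h
  exact ⟨K, e.toMonoidHom.comp (QuotientGroup.mk' (L.subgroupOf K)),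
    e.surjective.comp (QuotientGroup.mk'_surjective _)⟩

/-- `p`-stability for a class closed under subgroups. -/
theorem isPStable_of_class {Pr : (X : Type u) → [Group X] → Prop} (hcl : QuadClass p Pr)
    (hG : Pr G) (hodd : Odd p) (hO : pCore p G ≠ ⊥) : IsPStable p G := by
  classical
  refine ⟨hodd, hO, fun A P hA hP hAP _ _ hq => ?_⟩
  set N := normalizer (P : Set G) with hN
  haveI hPn : (P.subgroupOf N).Normal :=
    Subgroup.normal_subgroupOf_of_le_normalizer le_rfl
  haveI hCn : ((centralizer (P : Set G)).subgroupOf N).Normal := by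
    constructor
    intro n hn g
    rw [Subgroup.mem_subgroupOf, Subgroup.mem_centralizer_iff] at hn ⊢
    intro w hw
    have hw' : (g : G)⁻¹ * w * g ∈ P := by
      have h1 := (Subgroup.mem_normalizer_iff.mp (N.inv_mem g.2) w).mp hw
      simpa using h1
    have h2 := hn _ hw'
    have h3 : w = (g : G) * ((g : G)⁻¹ * w * g) * (g : G)⁻¹ := by group
    rw [h3]
    simp only [Subgroup.coe_mul, InvMemClass.coe_inv]
    calc (g : G) * ((g : G)⁻¹ * w * g) * (g : G)⁻¹ * ((g : G) * (n : G) * (g : G)⁻¹)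
        = (g : G) * (((g : G)⁻¹ * w * g) * (n : G)) * (g : G)⁻¹ := by group
      _ = (g : G) * ((n : G) * ((g : G)⁻¹ * w * g)) * (g : G)⁻¹ := by rw [h2]
      _ = _ := by group
  refine pstable_normal_gen hcl (hcl.sub N hG) (P.subgroupOf N) (isPGroup_subgroupOf hP N)
    ((centralizer (P : Set G)).subgroupOf N) ?_ (A.subgroupOf N) ?_ (isPGroup_subgroupOf hA N)
  · intro g hg
    rw [Subgroup.mem_subgroupOf, Subgroup.mem_centralizer_iff]
    intro w hw
    have hwN : w ∈ N := Subgroup.le_normalizer hw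
    have := hg ⟨w, hwN⟩ hw
    exact (congrArg Subtype.val this).symm
  · intro a ha w hw
    have h1 : ⁅⁅(w : G), (a : G)⁆, (a : G)⁆ ∈ ⁅⁅P, A⁆, A⁆ :=
      Subgroup.commutator_mem_commutator (Subgroup.commutator_mem_commutator hw ha) ha
    rw [hq, Subgroup.mem_bot, commutatorElement_eq_one_iff_mul_comm] at h1
    apply Subtype.ext
    exact h1

end

end Cfsg.Agent.Lib.PLocal
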