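import Mathlib
import Cfsg.Agent.Lib.PLocal.Offender9
import Cfsg.Agent.Lib.Coprime.Wielandt
import Cfsg.Agent.Lib.Components.Basic

/-!
# Two subnormal subgroups acting irreducibly on their commutator modules
-/

set_option autoImplicit false
set_option linter.unusedSectionVars false
set_option linter.style.haveILetI false

universe u

namespace Cfsg.Agent.Lib.PLocal

open Subgroup Cfsg
open scoped commutatorElement
open Cfsg.Agent.Lib.Coprime Cfsg.Agent.Lib.Coprime.Wielandt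

variable {G : Type*} [Group G] [Finite G] {p : ℕ} [hp : Fact p.Prime] {V : Subgroup G}

/-- The irreducibility package. -/
structure IrrOn (p : ℕ) (V A : Subgroup G) : Prop where
  nV : A ≤ normalizer (V : Set G)
  irr : ∀ U : Subgroup G, U ≤ ⁅V, A⁆ → A ≤ normalizer (U : Set G) → U = ⊥ ∨ U = ⁅V, A⁆
  faith : A ⊓ centralizer ((⁅V, A⁆ : Subgroup G) : Set G) = ⊥
  full : ⁅⁅V, A⁆, A⁆ = ⁅V, A⁆
  big : 2 < Nat.card A

namespace IrrOn

variable {A B : Subgroup G} (hA : IrrOn p V A)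

include hA

lemma plane_le : ⁅V, A⁆ ≤ V := commutator_le_of_le_normalizer hA.nV

lemma le_norm_plane : A ≤ normalizer ((⁅V, A⁆ : Subgroup G) : Set G) :=
  fun _ ha => mem_normalizer_commutator (hA.nV ha) (le_normalizer ha)

lemma ne_bot : A ≠ ⊥ := by
  rintro rfl
  have := hA.big
  rw [Subgroup.card_bot] at this
  omega

lemma plane_ne_bot : ⁅V, A⁆ ≠ ⊥ := by
  intro h
  apply hA.ne_bot
  have h1 := hA.faith
  rw [h] at h1
  have h2 : centralizer (((⊥ : Subgroup G) : Subgroup G) : Set G) = ⊤ := by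
    rw [Subgroup.coe_bot, Subgroup.centralizer_eq_top_iff_subset]
    simp
  rw [h2, inf_top_eq] at h1
  exact h1

/-- No fixed points on the plane. -/
lemma inf_fix : ⁅V, A⁆ ⊓ centralizer (A : Set G) = ⊥ := by
  have hN : A ≤ normalizer ((⁅V, A⁆ ⊓ centralizer (A : Set G) : Subgroup G) : Set G) := by
    intro a ha
    apply mem_normalizer_of_conj_le
    intro x hx
    obtain ⟨h1, h2⟩ := Subgroup.mem_inf.mp hx
    refine Subgroup.mem_inf.mpr ⟨(mem_normalizer_iff.mp (hA.le_norm_plane ha) x).mp h1, ?_⟩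
    have h3 := mem_centralizer_iff.mp h2 a ha
    rw [h3, mul_inv_cancel_right]
    exact h2
  rcases hA.irr _ inf_le_left hN with h | h
  · exact h
  · exfalso
    apply hA.plane_ne_bot
    rw [← hA.full, eq_bot_iff, Subgroup.commutator_le]
    intro u hu a ha
    have h1 : u ∈ ⁅V, A⁆ ⊓ centralizer (A : Set G) := by
      rw [h]
      exact hu
    have h2 := mem_centralizer_iff.mp (Subgroup.mem_inf.mp h1).2 a ha
    rw [Subgroup.mem_bot, commutatorElement_eq_one_iff_mul_comm]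
    exact h2.symm

omit hA in
lemma plane_conj {g : G} (hg : g ∈ normalizer (V : Set G)) : ⁅V, Cj g A⁆ = Cj g ⁅V, A⁆ := by
  rw [Cj, Cj, Subgroup.map_commutator, (conj_map_eq_iff_mem_normalizer V g).mpr hg]

/-- Conjugates. -/
lemma conj {g : G} (hg : g ∈ normalizer (V : Set G)) : IrrOn p V (Cj g A) := by
  have hpl : ⁅V, Cj g A⁆ = Cj g ⁅V, A⁆ := plane_conj hg
  refine ⟨?_, ?_, ?_, ?_, ?_⟩
  · rintro _ ⟨a, ha, rfl⟩
    exact mul_mem (mul_mem hg (hA.nV ha)) (inv_mem hg)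
  · intro U hU hN
    rw [hpl] at hU ⊢
    have hU' : Cj g⁻¹ U ≤ ⁅V, A⁆ := by
      have h1 : Cj g⁻¹ U ≤ Cj g⁻¹ (Cj g ⁅V, A⁆) := map_mono hU
      rwa [cj_inv_cj] at h1
    have hN' : A ≤ normalizer ((Cj g⁻¹ U : Subgroup G) : Set G) := by
      intro a ha
      apply mem_normalizer_of_conj_le
      intro x hx
      rw [mem_cj] at hx ⊢
      rw [inv_inv] at hx ⊢
      have h1 : g * a * g⁻¹ ∈ Cj g A := ⟨a, ha, rfl⟩
      have h2 := (mem_normalizer_iff.mp (hN h1) _).mp hx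
      have h3 : g * a * g⁻¹ * (g * x * g⁻¹) * (g * a * g⁻¹)⁻¹ = g * (a * x * a⁻¹) * g⁻¹ := by group
      rwa [h3] at h2
    rcases hA.irr _ hU' hN' with h | h
    · left
      have h1 : Cj g (Cj g⁻¹ U) = Cj g ⊥ := by rw [h]
      rw [cj_cj_inv] at h1
      rw [h1]
      exact Subgroup.map_bot _
    · right
      have h1 : Cj g (Cj g⁻¹ U) = Cj g ⁅V, A⁆ := by rw [h]
      rwa [cj_cj_inv] at h1
  · rw [hpl]
    rw [eq_bot_iff]
    intro z hz
    obtain ⟨⟨a, ha, rfl⟩, h2⟩ := Subgroup.mem_inf.mp hz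
    have h3 : a ∈ A ⊓ centralizer ((⁅V, A⁆ : Subgroup G) : Set G) := by
      refine Subgroup.mem_inf.mpr ⟨ha, ?_⟩
      rw [mem_centralizer_iff]
      intro u hu
      have h4 := mem_centralizer_iff.mp h2 (g * u * g⁻¹) ⟨u, hu, rfl⟩
      have h5 : g * u * g⁻¹ * (g * a * g⁻¹) = g * (u * a) * g⁻¹ := by group
      have h6 : g * a * g⁻¹ * (g * u * g⁻¹) = g * (a * u) * g⁻¹ := by group
      change g * u * g⁻¹ * (g * a * g⁻¹) = g * a * g⁻¹ * (g * u * g⁻¹) at h4
      rw [h5, h6] at h4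
      exact mul_left_cancel (mul_right_cancel h4)
    rw [hA.faith, Subgroup.mem_bot] at h3
    rw [h3]
    simp
  · rw [hpl, Cj, Cj, ← Subgroup.map_commutator, hA.full]
  · rw [card_conj_map]
    exact hA.big

lemma le_of_gen {S : Set G} (hS : closure S ≤ ⁅V, A⁆)
    (hinv : ∀ h ∈ A, ∀ s ∈ S, h * s * h⁻¹ ∈ closure S) {s : G} (hs : s ∈ S) (hne : s ≠ 1) :
    ⁅V, A⁆ ≤ closure S := by
  have hN : A ≤ normalizer ((closure S : Subgroup G) : Set G) := by
    intro h hh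
    apply mem_normalizer_of_conj_le
    intro y hy
    induction hy using closure_induction with
    | mem y hy => exact hinv h hh y hy
    | one => simp [one_mem]
    | mul a b _ _ ia ib =>
      have : h * (a * b) * h⁻¹ = (h * a * h⁻¹) * (h * b * h⁻¹) := by group
      rw [this]
      exact mul_mem ia ib
    | inv a _ ia =>
      have : h * a⁻¹ * h⁻¹ = (h * a * h⁻¹)⁻¹ := by group
      rw [this]
      exact inv_mem ia
  rcases hA.irr _ hS hN with h | h
  · exfalso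
    have : s ∈ closure S := subset_closure hs
    rw [h, mem_bot] at this
    exact hne this
  · exact h.ge

/-- A stabilizer of the plane of `A` in a group with plane meeting trivially centralizes. -/
lemma comm_of_stab (hB : IrrOn p V B) (hinf : ⁅V, A⁆ ⊓ ⁅V, B⁆ = ⊥) {g w : G} (hg : g ∈ B)
    (hgN : g ∈ normalizer ((⁅V, A⁆ : Subgroup G) : Set G)) (hw : w ∈ ⁅V, A⁆) : w * g = g * w := by
  have h1 : ⁅w, g⁆ ∈ ⁅V, B⁆ := commutator_mem_commutator (hA.plane_le hw) hg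
  have h2 : ⁅w, g⁆ ∈ ⁅V, A⁆ := by
    have h3 : ⁅w, g⁆ = w * (g * w⁻¹ * g⁻¹) := by
      simp only [commutatorElement_def]
      group
    rw [h3]
    exact mul_mem hw ((mem_normalizer_iff.mp hgN _).mp (inv_mem hw))
  have h3 : ⁅w, g⁆ ∈ ⁅V, A⁆ ⊓ ⁅V, B⁆ := Subgroup.mem_inf.mpr ⟨h2, h1⟩
  rw [hinf, mem_bot, commutatorElement_eq_one_iff_mul_comm] at h3
  exact h3

end IrrOn

/-- A move of the plane of `A` by an element of `B`. -/
structure Moves (p : ℕ) (V A B : Subgroup G) (x : G) : Prop where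
  hab : ∀ u ∈ V, ∀ v ∈ V, u * v = v * u
  hA : IrrOn p V A
  hB : IrrOn p V B
  hmove : ∀ g ∈ B, g ∉ normalizer ((⁅V, A⁆ : Subgroup G) : Set G) →
    ∀ w ∈ ⁅V, A⁆, g * w * g⁻¹ ∈ centralizer (A : Set G)
  hAB : ¬ ⁅V, A⁆ ≤ ⁅V, B⁆
  hx : x ∈ B
  hxn : x ∉ normalizer ((⁅V, A⁆ : Subgroup G) : Set G)

namespace Moves

variable {A B : Subgroup G} {x : G} (h : Moves p V A B x)

include h

lemma absorb {Y : Subgroup G} (hY : Y ≤ ⁅V, A⁆)
    (hle : ⁅V, B⁆ ≤ Y ⊔ (V ⊓ centralizer (A : Set G))) : ⁅V, A⁆ ≤ Y := by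
  intro w hw
  have hwV := h.hA.plane_le hw
  have h1 : ⁅w, x⁆ ∈ ⁅V, B⁆ := commutator_mem_commutator hwV h.hx
  have hC : (V ⊓ centralizer (A : Set G)) ≤ normalizer (Y : Set G) := by
    intro c hc
    apply mem_normalizer_of_conj_le
    intro y hy
    have : c * y * c⁻¹ = y := by
      rw [h.hab c (Subgroup.mem_inf.mp hc).1 y (h.hA.plane_le (hY hy)), mul_inv_cancel_right]
    rw [this]
    exact hy
  obtain ⟨a, ha, c, hc, hac⟩ := OddLocal.mem_sup_of_le_normalizer hC (hle h1)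
  have h2 : a⁻¹ * w = c * (x * w * x⁻¹) := by
    have h3 : a = ⁅w, x⁆ * c⁻¹ := by
      rw [← hac]
      group
    rw [h3, commutatorElement_def]
    group
  have h3 : a⁻¹ * w ∈ ⁅V, A⁆ ⊓ centralizer (A : Set G) := by
    refine Subgroup.mem_inf.mpr ⟨mul_mem (inv_mem (hY ha)) hw, ?_⟩
    rw [h2]
    exact mul_mem (Subgroup.mem_inf.mp hc).2 (h.hmove x h.hx h.hxn w hw)
  rw [h.hA.inf_fix, mem_bot, inv_mul_eq_one] at h3
  rw [← h3]
  exact ha

lemma inf_eq_bot : ⁅V, A⁆ ⊓ ⁅V, B⁆ = ⊥ := by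
  by_contra hne
  obtain ⟨⟨s, hs⟩, hs1⟩ := Subgroup.ne_bot_iff_exists_ne_one.mp hne
  let U : Subgroup G := ⁅V, A⁆ ⊓ ⁅V, B⁆
  let S : Set G := {y | ∃ g ∈ B, ∃ u ∈ U, y = g * u * g⁻¹}
  have hS : closure S ≤ ⁅V, B⁆ := by
    rw [closure_le]
    rintro _ ⟨g, hg, u, hu, rfl⟩
    exact (mem_normalizer_iff.mp (h.hB.le_norm_plane hg) _).mp (Subgroup.mem_inf.mp hu).2
  have hinv : ∀ k ∈ B, ∀ s ∈ S, k * s * k⁻¹ ∈ closure S := by
    rintro k hk _ ⟨g, hg, u, hu, rfl⟩
    exact subset_closure ⟨k * g, mul_mem hk hg, u, hu, by group⟩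
  have hsS : s ∈ S := ⟨1, one_mem _, s, hs, by simp⟩
  have h1 := h.hB.le_of_gen hS hinv hsS (by simpa using hs1)
  have h2 : closure S ≤ U ⊔ (V ⊓ centralizer (A : Set G)) := by
    rw [closure_le]
    rintro _ ⟨g, hg, u, hu, rfl⟩
    by_cases hgN : g ∈ normalizer ((⁅V, A⁆ : Subgroup G) : Set G)
    · apply (le_sup_left : U ≤ _)
      obtain ⟨hu1, hu2⟩ := Subgroup.mem_inf.mp hu
      exact Subgroup.mem_inf.mpr ⟨(mem_normalizer_iff.mp hgN _).mp hu1,
        (mem_normalizer_iff.mp (h.hB.le_norm_plane hg) _).mp hu2⟩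
    · apply (le_sup_right : V ⊓ centralizer (A : Set G) ≤ _)
      obtain ⟨hu1, hu2⟩ := Subgroup.mem_inf.mp hu
      exact Subgroup.mem_inf.mpr ⟨(mem_normalizer_iff.mp (h.hB.nV hg) _).mp (h.hA.plane_le hu1),
        h.hmove g hg hgN u hu1⟩
  have h3 := h.absorb (inf_le_left : U ≤ _) (h1.trans h2)
  exact h.hAB (h3.trans inf_le_right)

lemma comm_ne {u : G} (hu : u ∈ ⁅V, A⁆) (hu1 : u ≠ 1) : ⁅u, x⁆ ≠ 1 := by
  intro h1
  rw [commutatorElement_eq_one_iff_mul_comm] at h1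
  have h2 := h.hmove x h.hx h.hxn u hu
  have h3 : x * u * x⁻¹ = u := by
    rw [← h1, mul_inv_cancel_right]
  rw [h3] at h2
  have h4 : u ∈ ⁅V, A⁆ ⊓ centralizer (A : Set G) := Subgroup.mem_inf.mpr ⟨hu, h2⟩
  rw [h.hA.inf_fix, mem_bot] at h4
  exact hu1 h4

lemma le_zpowers {u : G} (hu : u ∈ ⁅V, A⁆) (hu1 : u ≠ 1) : ⁅V, A⁆ ≤ zpowers u := by
  have hinf := h.inf_eq_bot
  let S : Set G := {y | ∃ g ∈ B, y = ⁅u, g⁆}
  have hS : closure S ≤ ⁅V, B⁆ := by
    rw [closure_le]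
    rintro _ ⟨g, hg, rfl⟩
    exact commutator_mem_commutator (h.hA.plane_le hu) hg
  have hinv : ∀ k ∈ B, ∀ s ∈ S, k * s * k⁻¹ ∈ closure S := by
    rintro k hk _ ⟨g, hg, rfl⟩
    have : k * ⁅u, g⁆ * k⁻¹ = ⁅u, k⁆⁻¹ * ⁅u, k * g⁆ := by
      simp only [commutatorElement_def]
      group
    rw [this]
    exact mul_mem (inv_mem (subset_closure ⟨k, hk, rfl⟩))
      (subset_closure ⟨k * g, mul_mem hk hg, rfl⟩)
  have hxS : ⁅u, x⁆ ∈ S := ⟨x, h.hx, rfl⟩
  have h1 := h.hB.le_of_gen hS hinv hxS (h.comm_ne hu hu1)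
  have h2 : closure S ≤ zpowers u ⊔ (V ⊓ centralizer (A : Set G)) := by
    rw [closure_le]
    rintro _ ⟨g, hg, rfl⟩
    by_cases hgN : g ∈ normalizer ((⁅V, A⁆ : Subgroup G) : Set G)
    · have h3 := h.hA.comm_of_stab h.hB hinf hg hgN hu
      rw [SetLike.mem_coe, (commutatorElement_eq_one_iff_mul_comm).mpr h3]
      exact one_mem _
    · have h3 : ⁅u, g⁆ = u * (g * u⁻¹ * g⁻¹) := by
        simp only [commutatorElement_def]
        group
      rw [SetLike.mem_coe, h3]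
      apply mul_mem_sup (mem_zpowers u)
      exact Subgroup.mem_inf.mpr ⟨(mem_normalizer_iff.mp (h.hB.nV hg) _).mp
        (inv_mem (h.hA.plane_le hu)), h.hmove g hg hgN u⁻¹ (inv_mem hu)⟩
  exact h.absorb (zpowers_le.mpr hu) (h1.trans h2)

lemma exists_move : ∃ y ∈ A, y ∉ normalizer ((⁅V, B⁆ : Subgroup G) : Set G) := by
  by_contra hcon
  push Not at hcon
  have hinf := h.inf_eq_bot
  have hinf' : ⁅V, B⁆ ⊓ ⁅V, A⁆ = ⊥ := by rwa [inf_comm]
  have hV : ∀ w ∈ ⁅V, A⁆, w ∈ centralizer (A : Set G) := by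
    intro w hw
    have h1 : ⁅w, x⁆ ∈ ⁅V, B⁆ := commutator_mem_commutator (h.hA.plane_le hw) h.hx
    have h2 := h.hmove x h.hx h.hxn w hw
    have h3 : w = ⁅w, x⁆ * (x * w * x⁻¹) := by
      simp only [commutatorElement_def]
      group
    rw [h3]
    refine mul_mem ?_ h2
    rw [mem_centralizer_iff]
    intro y hy
    exact (h.hB.comm_of_stab h.hA hinf' hy (hcon y hy) h1).symm
  apply h.hA.plane_ne_bot
  rw [eq_bot_iff, ← h.hA.inf_fix]
  exact le_inf le_rfl hV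

/-- The two-sided move is impossible. -/
lemma false_of_moves (hmove' : ∀ g ∈ A, g ∉ normalizer ((⁅V, B⁆ : Subgroup G) : Set G) →
      ∀ w ∈ ⁅V, B⁆, g * w * g⁻¹ ∈ centralizer (B : Set G))
    (hBA : ¬ ⁅V, B⁆ ≤ ⁅V, A⁆) (hexp : ∀ u ∈ V, u ^ p = 1) : False := by
  obtain ⟨y, hy, hyn⟩ := h.exists_move
  have h' : Moves p V B A y := ⟨h.hab, h.hB, h.hA, hmove', hBA, hy, hyn⟩
  have hinf := h.inf_eq_bot
  obtain ⟨u', hu'⟩ := Subgroup.ne_bot_iff_exists_ne_one.mp h.hA.plane_ne_bot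
  obtain ⟨u, hu⟩ := u'
  have hu1 : u ≠ 1 := by simpa using hu'
  have huV := h.hA.plane_le hu
  have hv : ⁅u, x⁆ ∈ ⁅V, B⁆ := commutator_mem_commutator huV h.hx
  have hv1 : ⁅u, x⁆ ≠ 1 := h.comm_ne hu hu1
  have hVB := h'.le_zpowers hv hv1
  have hVA := h.le_zpowers hu hu1
  have hvV := h.hB.plane_le hv
  -- any moving element acts on `u` as `x` does
  have hS6 : ∀ g ∈ B, g ∉ normalizer ((⁅V, A⁆ : Subgroup G) : Set G) →
      g * u * g⁻¹ = x * u * x⁻¹ := by
    intro g hg hgN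
    have h1 : ⁅u, g⁆ ∈ ⁅V, B⁆ := commutator_mem_commutator huV hg
    obtain ⟨k, hk⟩ := Subgroup.mem_zpowers_iff.mp (hVB h1)
    have hc : x * u⁻¹ * x⁻¹ ∈ centralizer (A : Set G) := h.hmove x h.hx h.hxn _ (inv_mem hu)
    have hd : g * u⁻¹ * g⁻¹ ∈ centralizer (A : Set G) := h.hmove g hg hgN _ (inv_mem hu)
    have hcV : x * u⁻¹ * x⁻¹ ∈ V := (mem_normalizer_iff.mp (h.hB.nV h.hx) _).mp (inv_mem huV)
    have e1 : ⁅u, x⁆ = u * (x * u⁻¹ * x⁻¹) := by
      simp only [commutatorElement_def]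
      group
    have e2 : ⁅u, g⁆ = u * (g * u⁻¹ * g⁻¹) := by
      simp only [commutatorElement_def]
      group
    have e3 : ⁅u, x⁆ ^ k = u ^ k * (x * u⁻¹ * x⁻¹) ^ k := by
      rw [e1]
      exact (show Commute u (x * u⁻¹ * x⁻¹) from h.hab _ huV _ hcV).mul_zpow k
    have e4 : (u ^ k)⁻¹ * u = (x * u⁻¹ * x⁻¹) ^ k * (g * u⁻¹ * g⁻¹)⁻¹ := by
      have e5 : u * (g * u⁻¹ * g⁻¹) = u ^ k * (x * u⁻¹ * x⁻¹) ^ k := by
        rw [← e2, ← hk, e3]
      rw [eq_mul_inv_iff_mul_eq, mul_assoc, e5]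
      group
    have e5 : (u ^ k)⁻¹ * u ∈ ⁅V, A⁆ ⊓ centralizer (A : Set G) := by
      refine Subgroup.mem_inf.mpr ⟨mul_mem (inv_mem (zpow_mem hu k)) hu, ?_⟩
      rw [e4]
      exact mul_mem (zpow_mem hc k) (inv_mem hd)
    rw [h.hA.inf_fix, mem_bot, inv_mul_eq_one] at e5
    have ho : orderOf u = p := orderOf_eq_prime (hexp u huV) hu1
    have e6 : u ^ (k - 1) = 1 := by
      rw [zpow_sub, zpow_one, e5, mul_inv_cancel]
    have e7 : (p : ℤ) ∣ k - 1 := by
      rw [← ho]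
      exact orderOf_dvd_iff_zpow_eq_one.mpr e6
    obtain ⟨l, hl⟩ := e7
    have e8 : ⁅u, x⁆ ^ k = ⁅u, x⁆ := by
      have e9 : k = p * l + 1 := by omega
      rw [e9, zpow_add, zpow_mul, zpow_natCast, hexp _ hvV]
      simp
    have e9 : ⁅u, g⁆ = ⁅u, x⁆ := by rw [← hk, e8]
    rw [e1, e2] at e9
    have e10 := mul_left_cancel e9
    have e11 : (g * u⁻¹ * g⁻¹)⁻¹ = (x * u⁻¹ * x⁻¹)⁻¹ := by rw [e10]
    simpa [mul_assoc] using e11
  -- the stabilizer of the plane is trivial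
  have hK : ∀ z ∈ B, z ∈ normalizer ((⁅V, A⁆ : Subgroup G) : Set G) → z = 1 := by
    intro z hz hzN
    have h1 := h.hA.comm_of_stab h.hB hinf hz hzN hu
    have h2 : z * x ∉ normalizer ((⁅V, A⁆ : Subgroup G) : Set G) := by
      intro h3
      apply h.hxn
      have h4 : x = z⁻¹ * (z * x) := by group
      rw [h4]
      exact mul_mem (inv_mem hzN) h3
    have h3 := hS6 _ (mul_mem hz h.hx) h2
    have h4 : z * (x * u * x⁻¹) * z⁻¹ = x * u * x⁻¹ := by
      calc z * (x * u * x⁻¹) * z⁻¹ = z * x * u * (z * x)⁻¹ := by group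
        _ = x * u * x⁻¹ := h3
    have hcomm : ⁅u, x⁆ * z = z * ⁅u, x⁆ := by
      have e1 : ⁅u, x⁆ = u * (x * u * x⁻¹)⁻¹ := by
        simp only [commutatorElement_def]
        group
      have h5 : z * (x * u * x⁻¹) = (x * u * x⁻¹) * z := by
        rw [mul_inv_eq_iff_eq_mul] at h4
        exact h4
      have h6 : (x * u * x⁻¹)⁻¹ * z = z * (x * u * x⁻¹)⁻¹ := by
        rw [inv_mul_eq_iff_eq_mul, ← mul_assoc, ← h5, mul_assoc, mul_inv_cancel, mul_one]
      rw [e1, mul_assoc, h6, ← mul_assoc, h1, mul_assoc]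
    have h5 : z ∈ B ⊓ centralizer ((⁅V, B⁆ : Subgroup G) : Set G) := by
      refine Subgroup.mem_inf.mpr ⟨hz, ?_⟩
      rw [mem_centralizer_iff]
      intro w hw
      obtain ⟨k, rfl⟩ := Subgroup.mem_zpowers_iff.mp (hVB hw)
      exact ((show Commute ⁅u, x⁆ z from hcomm).zpow_left k)
    rw [h.hB.faith, mem_bot] at h5
    exact h5
  have hall : ∀ g ∈ B, g = 1 ∨ g = x := by
    intro g hg
    by_cases hgN : g ∈ normalizer ((⁅V, A⁆ : Subgroup G) : Set G)
    · exact Or.inl (hK g hg hgN)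
    · right
      have h1 := hS6 g hg hgN
      have h2 : x⁻¹ * g * u = u * (x⁻¹ * g) := by
        have h3 : g * u = x * u * x⁻¹ * g := by rw [← h1]; group
        rw [mul_assoc, h3]
        group
      have h3 : ∀ w ∈ ⁅V, A⁆, x⁻¹ * g * w = w * (x⁻¹ * g) := by
        intro w hw
        obtain ⟨k, rfl⟩ := Subgroup.mem_zpowers_iff.mp (hVA hw)
        exact ((show Commute u (x⁻¹ * g) from h2.symm).zpow_left k).symm
      have h4 : x⁻¹ * g ∈ normalizer ((⁅V, A⁆ : Subgroup G) : Set G) := by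
        apply mem_normalizer_of_conj_le
        intro w hw
        rw [h3 w hw, mul_inv_cancel_right]
        exact hw
      have h5 := hK _ (mul_mem (inv_mem h.hx) hg) h4
      rw [inv_mul_eq_one] at h5
      exact h5.symm
  have hle : (B : Set G) ⊆ {1, x} := fun g hg => by
    rcases hall g hg with h1 | h1
    · exact Or.inl h1
    · exact Or.inr h1
  have h1 : Nat.card B ≤ 2 := by
    have h2 := Set.ncard_le_ncard hle (Set.toFinite _)
    have h3 : ({1, x} : Set G).ncard ≤ 2 := (Set.ncard_insert_le _ _).trans (by simp)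
    exact (Nat.card_coe_set_eq (B : Set G)).le.trans (h2.trans h3)
  have := h.hB.big
  omega

end Moves

/-- The key induction. -/
lemma claim_of_ih {A E : Subgroup G} (hA : IrrOn p V A) (hsn : SnIn E A) (hne : A ≠ E)
    (hEn : E ≤ normalizer (V : Set G)) (hf : E ⊓ centralizer (V : Set G) = ⊥)
    (ih : ∀ A' B' : Subgroup G, Nat.card ↥(A' ⊔ B') < Nat.card E → IrrOn p V A' → IrrOn p V B' →
      SnIn (A' ⊔ B') A' → SnIn (A' ⊔ B') B' → (A' ⊔ B') ⊓ centralizer (V : Set G) = ⊥ →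
      ¬ ⁅V, A'⁆ ≤ ⁅V, B'⁆ → ¬ ⁅V, B'⁆ ≤ ⁅V, A'⁆ →
      B' ≤ centralizer ((⁅V, A'⁆ : Subgroup G) : Set G))
    {g : G} (hg : g ∈ E) (hgN : g ∉ normalizer ((⁅V, A⁆ : Subgroup G) : Set G))
    {w : G} (hw : w ∈ ⁅V, A⁆) : g * w * g⁻¹ ∈ centralizer (A : Set G) := by
  obtain ⟨W, hAW, hWE, hN⟩ := hsn.exists_normal hne
  have hAE : A ≤ E := hAW.trans hWE.le
  have hCW : Cj g A ≤ W := by
    rintro _ ⟨a, ha, rfl⟩
    exact (mem_normalizer_iff.mp (hN hg) a).mp (hAW ha)
  have hFW : Cj g A ⊔ A ≤ W := sup_le hCW hAW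
  have hFE : Cj g A ⊔ A ≤ E := hFW.trans hWE.le
  have hcard : Nat.card ↥(Cj g A ⊔ A) < Nat.card E :=
    lt_of_le_of_lt (Nat.card_le_card_of_injective _ (Subgroup.inclusion_injective hFW))
      (card_lt_of_lt' hWE)
  have hgV : g ∈ normalizer (V : Set G) := hEn hg
  have hpl := IrrOn.plane_conj (A := A) hgV
  have hcard2 : Nat.card ↥(Cj g ⁅V, A⁆) = Nat.card ↥(⁅V, A⁆ : Subgroup G) := card_conj_map _ _
  have h1 := ih (Cj g A) A hcard (hA.conj hgV) hA
    ((hsn.conj_of_mem hg).of_le le_sup_left hFE) (hsn.of_le le_sup_right hFE)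
    (by
      rw [eq_bot_iff, ← hf]
      exact inf_le_inf_right _ hFE)
    (by
      rw [hpl]
      intro h2
      apply hgN
      rw [← conj_map_eq_iff_mem_normalizer]
      exact Subgroup.eq_of_le_of_card_ge h2 hcard2.ge)
    (by
      rw [hpl]
      intro h2
      apply hgN
      rw [← conj_map_eq_iff_mem_normalizer]
      exact (Subgroup.eq_of_le_of_card_ge h2 hcard2.le).symm)
  rw [hpl] at h1
  rw [mem_centralizer_iff]
  intro a ha
  exact (mem_centralizer_iff.mp (h1 ha) (g * w * g⁻¹) ⟨w, hw, rfl⟩).symm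

/-- The main induction: `B` centralizes the plane of `A`. -/
theorem centralizes_plane (hab : ∀ u ∈ V, ∀ v ∈ V, u * v = v * u) (hexp : ∀ u ∈ V, u ^ p = 1) :
    ∀ (n : ℕ) (A B : Subgroup G), Nat.card ↥(A ⊔ B) = n → IrrOn p V A → IrrOn p V B →
      SnIn (A ⊔ B) A → SnIn (A ⊔ B) B → (A ⊔ B) ⊓ centralizer (V : Set G) = ⊥ →
      ¬ ⁅V, A⁆ ≤ ⁅V, B⁆ → ¬ ⁅V, B⁆ ≤ ⁅V, A⁆ →
      B ≤ centralizer ((⁅V, A⁆ : Subgroup G) : Set G) := by
  intro n
  induction n using Nat.strong_induction_on with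
  | _ n ih =>
    intro A B hcard hA hB hsA hsB hf hAB hBA
    have hEn : A ⊔ B ≤ normalizer (V : Set G) := sup_le hA.nV hB.nV
    have hneA : A ≠ A ⊔ B := by
      intro h1
      apply hBA
      exact commutator_mono le_rfl (le_sup_right.trans h1.ge)
    have hneB : B ≠ A ⊔ B := by
      intro h1
      apply hAB
      exact commutator_mono le_rfl (le_sup_left.trans h1.ge)
    have ih' : ∀ A' B' : Subgroup G, Nat.card ↥(A' ⊔ B') < Nat.card ↥(A ⊔ B) → IrrOn p V A' →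
        IrrOn p V B' → SnIn (A' ⊔ B') A' → SnIn (A' ⊔ B') B' →
        (A' ⊔ B') ⊓ centralizer (V : Set G) = ⊥ →
        ¬ ⁅V, A'⁆ ≤ ⁅V, B'⁆ → ¬ ⁅V, B'⁆ ≤ ⁅V, A'⁆ →
        B' ≤ centralizer ((⁅V, A'⁆ : Subgroup G) : Set G) :=
      fun A' B' hlt => ih _ (hcard ▸ hlt) A' B' rfl
    have hmA : ∀ g ∈ A ⊔ B, g ∉ normalizer ((⁅V, A⁆ : Subgroup G) : Set G) →
        ∀ w ∈ ⁅V, A⁆, g * w * g⁻¹ ∈ centralizer (A : Set G) :=
      fun g hg hgN w hw => claim_of_ih hA hsA hneA hEn hf ih' hg hgN hw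
    have hmB : ∀ g ∈ A ⊔ B, g ∉ normalizer ((⁅V, B⁆ : Subgroup G) : Set G) →
        ∀ w ∈ ⁅V, B⁆, g * w * g⁻¹ ∈ centralizer (B : Set G) :=
      fun g hg hgN w hw => claim_of_ih hB hsB hneB hEn hf ih' hg hgN hw
    have hBN : B ≤ normalizer ((⁅V, A⁆ : Subgroup G) : Set G) := by
      intro x hx
      by_contra hxn
      have hM : Moves p V A B x :=
        ⟨hab, hA, hB, fun g hg => hmA g (le_sup_right (a := A) hg), hAB, hx, hxn⟩
      exact hM.false_of_moves (fun g hg => hmB g (le_sup_left (b := B) hg)) hBA hexp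
    have hAN : A ≤ normalizer ((⁅V, B⁆ : Subgroup G) : Set G) := by
      intro x hx
      by_contra hxn
      have hM : Moves p V B A x :=
        ⟨hab, hB, hA, fun g hg => hmB g (le_sup_left (b := B) hg), hBA, hx, hxn⟩
      exact hM.false_of_moves (fun g hg => hmA g (le_sup_right (a := A) hg)) hAB hexp
    have hinf : ⁅V, A⁆ ⊓ ⁅V, B⁆ = ⊥ := by
      have hN : A ≤ normalizer ((⁅V, A⁆ ⊓ ⁅V, B⁆ : Subgroup G) : Set G) := by
        intro a ha
        apply mem_normalizer_of_conj_le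
        intro x hx
        obtain ⟨h1, h2⟩ := Subgroup.mem_inf.mp hx
        exact Subgroup.mem_inf.mpr ⟨(mem_normalizer_iff.mp (hA.le_norm_plane ha) x).mp h1,
          (mem_normalizer_iff.mp (hAN ha) x).mp h2⟩
      rcases hA.irr _ inf_le_left hN with h | h
      · exact h
      · exact absurd (inf_eq_left.mp h) hAB
    intro g hg
    rw [mem_centralizer_iff]
    intro w hw
    exact hA.comm_of_stab hB hinf hg (hBN hg) hw

/-- The conclusion of the theorem. -/
theorem two_irr_of_centralizes {A B : Subgroup G} (hab : ∀ u ∈ V, ∀ v ∈ V, u * v = v * u)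
    (hA : IrrOn p V A) (hB : IrrOn p V B) (hf : (A ⊔ B) ⊓ centralizer (V : Set G) = ⊥)
    (hAB : ¬ ⁅V, A⁆ ≤ ⁅V, B⁆)
    (h1 : B ≤ centralizer ((⁅V, A⁆ : Subgroup G) : Set G))
    (h2 : A ≤ centralizer ((⁅V, B⁆ : Subgroup G) : Set G)) :
    ⁅A, B⁆ = ⊥ ∧ A ⊓ B = ⊥ ∧ ⁅V, A⁆ ⊓ ⁅V, B⁆ = ⊥ ∧ ⁅V, A ⊔ B⁆ = ⁅V, A⁆ ⊔ ⁅V, B⁆ := by
  have hnorm1 : B ≤ normalizer ((⁅V, A⁆ : Subgroup G) : Set G) := by
    intro g hg
    apply mem_normalizer_of_conj_le
    intro w hw
    have := mem_centralizer_iff.mp (h1 hg) w hw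
    rw [← this, mul_inv_cancel_right]
    exact hw
  have hnorm2 : A ≤ normalizer ((⁅V, B⁆ : Subgroup G) : Set G) := by
    intro g hg
    apply mem_normalizer_of_conj_le
    intro w hw
    have := mem_centralizer_iff.mp (h2 hg) w hw
    rw [← this, mul_inv_cancel_right]
    exact hw
  have hcomm : ∀ e ∈ A, ∀ f ∈ B, e * f = f * e := by
    intro e he f hf'
    have hz : (f * e)⁻¹ * (e * f) ∈ (A ⊔ B) ⊓ centralizer (V : Set G) := by
      refine Subgroup.mem_inf.mpr ⟨mul_mem (inv_mem (mul_mem (mem_sup_right hf') (mem_sup_left he)))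
        (mul_mem (mem_sup_left he) (mem_sup_right hf')), ?_⟩
      rw [mem_centralizer_iff]
      intro v hv
      let c := ⁅v, e⁆⁻¹
      let d := ⁅v, f⁆⁻¹
      have hc : c ∈ ⁅V, A⁆ := inv_mem (commutator_mem_commutator hv he)
      have hd : d ∈ ⁅V, B⁆ := inv_mem (commutator_mem_commutator hv hf')
      have h3 : e * d * e⁻¹ = d := by
        have := mem_centralizer_iff.mp (h2 he) d hd
        rw [← this, mul_inv_cancel_right]
      have h4 : f * c * f⁻¹ = c := by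
        have := mem_centralizer_iff.mp (h1 hf') c hc
        rw [← this, mul_inv_cancel_right]
      have h5 : e * v * e⁻¹ = c * v := by
        simp only [c, commutatorElement_def]
        group
      have h6 : f * v * f⁻¹ = d * v := by
        simp only [d, commutatorElement_def]
        group
      have h7 : c * d = d * c := hab _ (hA.plane_le hc) _ (hB.plane_le hd)
      have h8 : (e * f) * v * (e * f)⁻¹ = d * (c * v) := by
        calc (e * f) * v * (e * f)⁻¹ = e * (f * v * f⁻¹) * e⁻¹ := by group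
          _ = e * (d * v) * e⁻¹ := by rw [h6]
          _ = (e * d * e⁻¹) * (e * v * e⁻¹) := by group
          _ = d * (c * v) := by rw [h3, h5]
      have h9 : (f * e) * v * (f * e)⁻¹ = c * (d * v) := by
        calc (f * e) * v * (f * e)⁻¹ = f * (e * v * e⁻¹) * f⁻¹ := by group
          _ = f * (c * v) * f⁻¹ := by rw [h5]
          _ = (f * c * f⁻¹) * (f * v * f⁻¹) := by group
          _ = c * (d * v) := by rw [h4, h6]
      have h10 : (e * f) * v * (e * f)⁻¹ = (f * e) * v * (f * e)⁻¹ := by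
        rw [h8, h9, ← mul_assoc, ← mul_assoc, h7]
      have h11 : v = (f * e)⁻¹ * ((e * f) * v * (e * f)⁻¹) * (f * e) := by
        rw [h10]
        group
      calc v * ((f * e)⁻¹ * (e * f))
          = ((f * e)⁻¹ * ((e * f) * v * (e * f)⁻¹) * (f * e)) * ((f * e)⁻¹ * (e * f)) := by
            rw [← h11]
        _ = (f * e)⁻¹ * (e * f) * v := by group
    rw [hf, mem_bot, inv_mul_eq_one] at hz
    exact hz.symm
  have hc : ⁅A, B⁆ = ⊥ := by
    rw [eq_bot_iff, Subgroup.commutator_le]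
    intro e he f hf'
    rw [mem_bot, commutatorElement_eq_one_iff_mul_comm]
    exact hcomm e he f hf'
  have hinf : ⁅V, A⁆ ⊓ ⁅V, B⁆ = ⊥ := by
    have hN : A ≤ normalizer ((⁅V, A⁆ ⊓ ⁅V, B⁆ : Subgroup G) : Set G) := by
      intro a ha
      apply mem_normalizer_of_conj_le
      intro x hx
      obtain ⟨h3, h4⟩ := Subgroup.mem_inf.mp hx
      exact Subgroup.mem_inf.mpr ⟨(mem_normalizer_iff.mp (hA.le_norm_plane ha) x).mp h3,
        (mem_normalizer_iff.mp (hnorm2 ha) x).mp h4⟩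
    rcases hA.irr _ inf_le_left hN with h | h
    · exact h
    · exact absurd (inf_eq_left.mp h) hAB
  refine ⟨hc, ?_, hinf, ?_⟩
  · rw [eq_bot_iff, ← hA.faith]
    exact inf_le_inf_left _ h1
  · apply le_antisymm
    · rw [Subgroup.commutator_le, Subgroup.sup_eq_closure]
      have hnD : closure ((A : Set G) ∪ B) ≤ normalizer ((⁅V, A⁆ ⊔ ⁅V, B⁆ : Subgroup G) : Set G) := by
        have hs : ∀ g, g ∈ normalizer ((⁅V, A⁆ : Subgroup G) : Set G) →
            g ∈ normalizer ((⁅V, B⁆ : Subgroup G) : Set G) →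
            g ∈ normalizer ((⁅V, A⁆ ⊔ ⁅V, B⁆ : Subgroup G) : Set G) := by
          intro g h3 h4
          rw [← conj_map_eq_iff_mem_normalizer] at h3 h4 ⊢
          rw [Subgroup.map_sup, h3, h4]
        rw [closure_le]
        rintro g (hg | hg)
        · exact hs g (hA.le_norm_plane hg) (hnorm2 hg)
        · exact hs g (hnorm1 hg) (hB.le_norm_plane hg)
      intro v hv g hg
      refine comm_mem_of_closure hnD ?_ g hg v hv
      rintro x (hx | hx) w hw
      · exact mem_sup_left (commutator_mem_commutator hw hx)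
      · exact mem_sup_right (commutator_mem_commutator hw hx)
    · exact sup_le (commutator_mono le_rfl le_sup_left) (commutator_mono le_rfl le_sup_right)

/-- Building the package from the hypotheses of the theorem. -/
theorem irrOn_of_subnormal {A E : Subgroup G} (hexp : ∀ u ∈ V, u ^ p = 1)
    (hEn : E ≤ normalizer (V : Set G)) (hf : E ⊓ centralizer (V : Set G) = ⊥)
    (hOp : Cfsg.pCore p ↥E = ⊥) (hsn : SnIn E A)
    (hirr : ∀ U : Subgroup G, U ≤ ⁅V, A⁆ → A ≤ normalizer (U : Set G) → U = ⊥ ∨ U = ⁅V, A⁆)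
    (hbig : 2 < Nat.card A) : IrrOn p V A := by
  have hAE : A ≤ E := hsn.le
  have hnV : A ≤ normalizer (V : Set G) := hAE.trans hEn
  have hplV : ⁅V, A⁆ ≤ V := commutator_le_of_le_normalizer hnV
  have hnpl : A ≤ normalizer ((⁅V, A⁆ : Subgroup G) : Set G) :=
    fun _ ha => mem_normalizer_commutator (hnV ha) (le_normalizer ha)
  have hfaith : A ⊓ centralizer ((⁅V, A⁆ : Subgroup G) : Set G) = ⊥ := by
    have hexpX : ∀ x ∈ A ⊓ centralizer ((⁅V, A⁆ : Subgroup G) : Set G), x ^ p = 1 := by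
      intro x hx
      obtain ⟨hxA, hxC⟩ := Subgroup.mem_inf.mp hx
      have h1 : x ^ p ∈ E ⊓ centralizer (V : Set G) := by
        refine Subgroup.mem_inf.mpr ⟨pow_mem (hAE hxA) p, ?_⟩
        rw [mem_centralizer_iff]
        intro v hv
        let c := ⁅v, x⁆⁻¹
        have hc : c ∈ ⁅V, A⁆ := inv_mem (commutator_mem_commutator hv hxA)
        have hcx : c * x = x * c := mem_centralizer_iff.mp hxC c hc
        have key : ∀ n : ℕ, x ^ n * v = c ^ n * v * x ^ n := by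
          intro n
          induction n with
          | zero => simp
          | succ n ih =>
            have h2 : x * v = c * v * x := by
              simp only [c, commutatorElement_def]
              group
            have h3 : x * c ^ n = c ^ n * x :=
              ((show Commute c x from hcx).pow_left n).symm
            calc x ^ (n + 1) * v = x * (x ^ n * v) := by rw [pow_succ', mul_assoc]
              _ = x * (c ^ n * v * x ^ n) := by rw [ih]
              _ = (x * c ^ n) * v * x ^ n := by group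
              _ = c ^ n * (x * v) * x ^ n := by rw [h3]; group
              _ = c ^ n * (c * v * x) * x ^ n := by rw [h2]
              _ = c ^ (n + 1) * v * x ^ (n + 1) := by
                rw [pow_succ c n, pow_succ' x n]
                group
        have h4 := key p
        rw [hexp c (hplV hc), one_mul] at h4
        exact h4.symm
      rw [hf, mem_bot] at h1
      exact h1
    have hsnX : SnIn E (A ⊓ centralizer ((⁅V, A⁆ : Subgroup G) : Set G)) := by
      refine SnIn.step inf_le_left hsn ?_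
      intro a ha
      apply mem_normalizer_of_conj_le
      intro x hx
      obtain ⟨hxA, hxC⟩ := Subgroup.mem_inf.mp hx
      refine Subgroup.mem_inf.mpr ⟨mul_mem (mul_mem ha hxA) (inv_mem ha), ?_⟩
      rw [mem_centralizer_iff]
      intro w hw
      have h1 : a⁻¹ * w * a ∈ ⁅V, A⁆ := by
        have h2 := (mem_normalizer_iff.mp (hnpl (inv_mem ha)) w).mp hw
        simpa using h2
      have h2 := mem_centralizer_iff.mp hxC _ h1
      calc w * (a * x * a⁻¹) = a * ((a⁻¹ * w * a) * x) * a⁻¹ := by group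
        _ = a * (x * (a⁻¹ * w * a)) * a⁻¹ := by rw [h2]
        _ = a * x * a⁻¹ * w := by group
    have h1 := (snIn_iff (hsnX.le)).mp hsnX
    have h2 := Components.subnormal_le_pCore (p := p) h1 (by
      intro g
      refine ⟨1, ?_⟩
      apply Subtype.ext
      apply Subtype.ext
      have h3 : ((g : ↥E) : G) ∈ A ⊓ centralizer ((⁅V, A⁆ : Subgroup G) : Set G) := g.2
      have h4 := hexpX _ h3
      simpa using h4)
    rw [hOp, le_bot_iff] at h2
    rw [eq_bot_iff]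
    intro x hx
    have h3 : (⟨x, hsnX.le hx⟩ : ↥E) ∈ (A ⊓ centralizer ((⁅V, A⁆ : Subgroup G) : Set G)).subgroupOf E :=
      hx
    rw [h2, mem_bot] at h3
    rw [mem_bot]
    exact congrArg Subtype.val h3
  have hne : A ≠ ⊥ := by
    rintro rfl
    rw [Subgroup.card_bot] at hbig
    omega
  refine ⟨hnV, hirr, hfaith, ?_, hbig⟩
  have hle : ⁅⁅V, A⁆, A⁆ ≤ ⁅V, A⁆ := commutator_le_of_le_normalizer hnpl
  have hnW : A ≤ normalizer ((⁅⁅V, A⁆, A⁆ : Subgroup G) : Set G) :=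
    fun _ ha => mem_normalizer_commutator (hnpl ha) (le_normalizer ha)
  rcases hirr _ hle hnW with h | h
  · exfalso
    apply hne
    rw [eq_bot_iff, ← hfaith]
    refine le_inf le_rfl ?_
    intro a ha
    rw [mem_centralizer_iff]
    intro w hw
    have h1 : ⁅w, a⁆ ∈ ⁅⁅V, A⁆, A⁆ := commutator_mem_commutator hw ha
    rw [h, mem_bot, commutatorElement_eq_one_iff_mul_comm] at h1
    exact h1
  · exact h

end Cfsg.Agent.Lib.PLocal
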