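import Cfsg.Agent.Lib.Fusion.ZJ6
import Cfsg.Agent.Lib.Fusion.QdGroup3
import Cfsg.Agent.Lib.PLocal.QuadDickson
import Cfsg.Agent.Lib.PLocal.GTFun
import Cfsg.Agent.Lib.PLocal.StableClosure

/-! The functor `Z(J_e(Q))`, as a Glauberman functor for `SL(2,p)`. -/

set_option autoImplicit false
set_option linter.unusedSectionVars false
set_option linter.style.haveILetI false

namespace Cfsg.Agent.Lib.PLocal

open Subgroup Cfsg
open scoped commutatorElement

universe u

variable {p : ℕ} [Fact p.Prime]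

/-- `Z(J_e(Q))`. -/
def wJe (p : ℕ) (Q : Type u) [Group Q] : Subgroup Q :=
  thompsonSubgroup p Q ⊓ centralizer (thompsonSubgroup p Q : Set Q)

theorem wJe_map_subtype {G : Type u} [Group G] (T : Subgroup G) :
    (wJe p ↥T).map T.subtype = centerThompsonOf p T := by
  apply le_antisymm
  · rintro _ ⟨x, ⟨hx1, hx2⟩, rfl⟩
    refine ⟨⟨x, hx1, rfl⟩, ?_⟩
    show (x : G) ∈ centralizer ((thompsonSubgroupOf p T : Subgroup G) : Set G)
    rw [mem_centralizer_iff]
    rintro _ ⟨j, hj, rfl⟩
    exact congrArg Subtype.val ((mem_centralizer_iff.mp hx2) j hj)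
  · rintro y ⟨⟨x, hx, rfl⟩, hy2⟩
    refine ⟨x, ⟨hx, mem_centralizer_iff.mpr fun j hj => ?_⟩, rfl⟩
    have hy2' : (x : G) ∈ centralizer ((thompsonSubgroupOf p T : Subgroup G) : Set G) := hy2
    exact Subtype.ext ((mem_centralizer_iff.mp hy2') j ⟨j, hj, rfl⟩)

theorem wJe_functorial (hp : p ≠ 2) :
    Cfsg.Agent.Lib.Fusion.ZJ.Functorial.{u} p (Matrix.SpecialLinearGroup (Fin 2) (ZMod p)) (wJe p) where
  ne_bot := by
    intro Q _ _ hQ hnt hb
    classical
    have h1 : p ∣ Nat.card Q := by
      obtain ⟨k, hk⟩ := IsPGroup.iff_card.mp hQ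
      have hk0 : k ≠ 0 := by
        rintro rfl
        rw [pow_zero] at hk
        have := Finite.one_lt_card (α := Q)
        omega
      rw [hk]
      exact dvd_pow_self p hk0
    have hJ := (thompson_characteristic (p := p) (G := Q)).2 h1
    have hJp : IsPGroup p (thompsonSubgroup p Q) := hQ.to_subgroup _
    haveI : Nontrivial (thompsonSubgroup p Q) := (Subgroup.nontrivial_iff_ne_bot _).2 hJ
    haveI : Nontrivial (center (thompsonSubgroup p Q)) := hJp.center_nontrivial
    obtain ⟨z, hz⟩ := exists_ne (1 : center (thompsonSubgroup p Q))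
    have hzm : ((z : thompsonSubgroup p Q) : Q) ∈ wJe p Q := by
      refine ⟨(z : thompsonSubgroup p Q).2, mem_centralizer_iff.mpr fun j hj => ?_⟩
      have := (Subgroup.mem_center_iff.mp z.2) ⟨j, hj⟩
      exact congrArg Subtype.val this
    rw [hb, Subgroup.mem_bot] at hzm
    exact hz (Subtype.ext (Subtype.ext hzm))
  map := by
    intro Q R _ _ _ _ φ
    haveI : Finite R := Finite.of_equiv Q φ.toEquiv
    have hJ := thompson_map_eq (p := p) φ
    ext y
    constructor
    · rintro ⟨x, ⟨hx1, hx2⟩, rfl⟩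
      refine ⟨?_, ?_⟩
      · rw [← hJ]
        exact ⟨x, hx1, rfl⟩
      · show φ x ∈ centralizer ((thompsonSubgroup p R : Subgroup R) : Set R)
        rw [← hJ, mem_centralizer_iff]
        rintro _ ⟨j, hj, rfl⟩
        have := (mem_centralizer_iff.mp hx2) j hj
        exact (map_mul φ.toMonoidHom j x).symm.trans ((congrArg φ.toMonoidHom this).trans (map_mul φ.toMonoidHom x j))
    · rintro ⟨hy1, hy2⟩
      have hy1' : y ∈ thompsonSubgroup p R := hy1
      have hy2' : y ∈ centralizer ((thompsonSubgroup p R : Subgroup R) : Set R) := hy2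
      rw [← hJ] at hy1' hy2'
      obtain ⟨x, hx, rfl⟩ := hy1'
      refine ⟨x, ⟨hx, mem_centralizer_iff.mpr fun j hj => ?_⟩, rfl⟩
      have := (mem_centralizer_iff.mp hy2') (φ.toMonoidHom j) ⟨j, hj, rfl⟩
      apply φ.injective
      have h3 : φ.toMonoidHom (j * x) = φ.toMonoidHom (x * j) := by
        rw [map_mul, map_mul]; exact this
      exact h3
  normal := by
    intro L _ _ P hc hinv
    have hc' : centralizer ((pCore p L : Subgroup L) : Set L) ≤ pCore p L := by
      rw [hc]; exact inf_le_left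
    rw [wJe_map_subtype]
    have hno : NoSL2p p L := fun h => hinv (by
      obtain ⟨K, R, hR, -, hne⟩ := exists_section_of_hasSL2p (p := p) (⊤ : Subgroup L)
        (h.of_surj (Subgroup.topEquiv : (⊤ : Subgroup L) ≃* L).toMonoidHom (MulEquiv.surjective _))
      exact ⟨K, R, hR, hne⟩)
    exact centerThompsonOf_normal hp hc'
      (fun B _ hB => isPStableOn_of_class (noSL2pClass hp) hno B hB) P

end Cfsg.Agent.Lib.PLocal
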